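import Cfsg.Agent.H24.PGroupBasic
import Cfsg.Agent.H24.Critical
import Mathlib.Algebra.Group.End
import Cfsg.Prelude.Def_Transfer

/-!
# 2-groups with an odd automorphism group generating them by commutators: basic tools.

`Ctx X A` is the standing hypothesis: `X` is a nonabelian 2-group, `A` an odd order group of
automorphisms with `[X, A] = X`, and `X` has no normal elementary abelian subgroup of order 8.
-/

set_option autoImplicit false
set_option linter.style.haveILetI false
set_option linter.unusedSectionVars false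
open Subgroup
open scoped commutatorElement

namespace Cfsg.Agent.H53.OddAct

variable {X : Type*} [Group X]

/-- The standing hypotheses. -/
structure Ctx (X : Type*) [Group X] (A : Subgroup (MulAut X)) : Prop where
  isPGroup : IsPGroup 2 X
  nonab : ¬ IsMulCommutative X
  odd : Odd (Nat.card A)
  gen : Subgroup.closure {g : X | ∃ φ ∈ A, ∃ x : X, g = x⁻¹ * φ x} = ⊤
  noEight : ∀ N : Subgroup X, N.Normal → Cfsg.IsElementaryAbelian 2 N → Nat.card N ≠ 8

/-- `N` is invariant under `A`. -/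
def Inv (A : Subgroup (MulAut X)) (N : Subgroup X) : Prop := ∀ φ ∈ A, ∀ x ∈ N, φ x ∈ N

theorem map_comm (φ : MulAut X) (a b : X) : φ ⁅a, b⁆ = ⁅φ a, φ b⁆ :=
  map_commutatorElement φ a b

theorem inv_center (A : Subgroup (MulAut X)) : Inv A (center X) := fun φ _ x hx =>
  mem_center_iff.mpr fun g => by
    obtain ⟨g, rfl⟩ := φ.surjective g
    rw [← map_mul, mem_center_iff.mp hx g, map_mul]

theorem inv_commutator (A : Subgroup (MulAut X)) : Inv A (commutator X) := fun φ _ x hx =>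
  characteristic_iff_le_comap.mp (inferInstance : (commutator X).Characteristic) φ hx

theorem mem_closure_gen {A : Subgroup (MulAut X)} {N : Subgroup X}
    (hgen : Subgroup.closure {g : X | ∃ φ ∈ A, ∃ x : X, g = x⁻¹ * φ x} = ⊤)
    (h : ∀ φ ∈ A, ∀ x : X, x⁻¹ * φ x ∈ N) : N = ⊤ := by
  rw [eq_top_iff, ← hgen, closure_le]
  rintro _ ⟨φ, hφ, x, rfl⟩
  exact h φ hφ x

/-- Commutators are products of squares. -/
theorem comm_mem_of_sq {N : Subgroup X} (h : ∀ x : X, x ^ 2 ∈ N) (x y : X) : ⁅x, y⁆ ∈ N := by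
  have e : ⁅x, y⁆ = x ^ 2 * (x⁻¹ * y) ^ 2 * (y⁻¹) ^ 2 := by
    simp [commutatorElement_def, sq, mul_assoc]
  rw [e]
  exact mul_mem (mul_mem (h _) (h _)) (h _)

namespace Ctx

variable {A : Subgroup (MulAut X)} (c : Ctx X A)
include c

/-- A homomorphism invariant under `A` is trivial. -/
theorem hom_eq_one {M : Type*} [Group M] (f : X →* M) (hf : ∀ φ ∈ A, ∀ x, f (φ x) = f x)
    (x : X) : f x = 1 := by
  have h : f.ker = ⊤ := mem_closure_gen c.gen fun φ hφ y => by
    rw [MonoidHom.mem_ker, map_mul, hf φ hφ, map_inv, inv_mul_cancel]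
  exact MonoidHom.mem_ker.mp (h ▸ mem_top x)

/-- A normal subgroup fixed by `A` is central. -/
theorem fixed_le_center {N : Subgroup X} [N.Normal] (hfix : ∀ φ ∈ A, ∀ n ∈ N, φ n = n) :
    N ≤ center X := by
  have h : centralizer (N : Set X) = ⊤ := mem_closure_gen c.gen fun φ hφ x => by
    refine mem_centralizer_iff.mpr fun n hn => ?_
    have h1 : φ (x * n * x⁻¹) = x * n * x⁻¹ :=
      hfix φ hφ _ (Normal.conj_mem inferInstance n hn x)
    rw [map_mul, map_mul, map_inv, hfix φ hφ n hn] at h1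
    calc n * (x⁻¹ * φ x) = x⁻¹ * (x * n * x⁻¹) * φ x := by group
      _ = x⁻¹ * (φ x * n * (φ x)⁻¹) * φ x := by rw [h1]
      _ = x⁻¹ * φ x * n := by group
  rwa [centralizer_eq_top_iff_subset] at h

theorem odd_orderOf {φ : MulAut X} (hφ : φ ∈ A) : Odd (orderOf φ) :=
  c.odd.of_dvd_nat (Subgroup.orderOf_dvd_natCard A hφ)

variable [Finite X]

/-- In a quotient of exponent two, an element fixed by `A` is trivial. -/
theorem fixed_eq_one {M : Type*} [CommGroup M] (f : X →* M) {x : X} (hx : f x * f x = 1)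
    (hfix : ∀ φ ∈ A, f (φ x) = f x) : f x = 1 := by
  classical
  have : Fintype A := Fintype.ofFinite A
  let F : X →* M := ∏ φ : A, f.comp (φ : MulAut X).toMonoidHom
  have hF : F x = 1 := c.hom_eq_one F (fun ψ hψ y => by
    simp only [F, MonoidHom.finsetProd_apply, MonoidHom.coe_comp, Function.comp_apply,
      MulEquiv.coe_toMonoidHom]
    exact Fintype.prod_equiv (Equiv.mulRight (⟨ψ, hψ⟩ : A)) _ _ fun φ => rfl) x
  have h1 : f x ^ Nat.card A = 1 := by
    rw [← hF]
    simp only [F, MonoidHom.finsetProd_apply, MonoidHom.coe_comp, Function.comp_apply,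
      MulEquiv.coe_toMonoidHom]
    rw [Finset.prod_congr rfl fun (φ : A) _ => hfix (φ : MulAut X) φ.2, Finset.prod_const,
      Finset.card_univ,
      Nat.card_eq_fintype_card]
  obtain ⟨k, hk⟩ := c.odd
  rwa [hk, pow_succ, pow_mul, sq, hx, one_pow, one_mul] at h1

/-- Maximal normal abelian subgroups invariant under `A`. -/
theorem exists_maximal :
    ∃ K : Subgroup X, (K.Normal ∧ Inv A K ∧ IsMulCommutative K) ∧
      ∀ B : Subgroup X, B.Normal → Inv A B → IsMulCommutative B → K ≤ B → B = K := by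
  obtain ⟨K, hK⟩ := Set.Finite.exists_maximal
    (s := {K : Subgroup X | K.Normal ∧ Inv A K ∧ IsMulCommutative K}) (Set.toFinite _)
    ⟨center X, inferInstance, inv_center A, inferInstance⟩
  exact ⟨K, hK.1, fun B h1 h2 h3 h4 => le_antisymm (hK.2 ⟨h1, h2, h3⟩ h4) h4⟩

/-- A normal elementary abelian subgroup has order at most four. -/
theorem card_le_four {N : Subgroup X} [N.Normal] (hN : Cfsg.IsElementaryAbelian 2 N) :
    Nat.card N ≤ 4 := by
  haveI : Fact (Nat.Prime 2) := ⟨Nat.prime_two⟩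
  obtain ⟨k, hk⟩ := H24.exists_card_pow c.isPGroup N
  by_contra h
  have hk3 : 3 ≤ k := by
    by_contra hk3
    have := Nat.pow_le_pow_right two_pos (show k ≤ 2 by omega)
    omega
  obtain ⟨L, hL, hLN, hLc⟩ := H24.exists_normal_le_card c.isPGroup hk hk3
  exact c.noEight L hL ⟨⟨⟨fun a b => Subtype.ext (congrArg Subtype.val
    (hN.1.is_comm.comm ⟨a, hLN a.2⟩ ⟨b, hLN b.2⟩) :)⟩⟩, fun a ha => hN.2 a (hLN ha)⟩ hLc

/-- If `E` is a central four-group, an involution which is central modulo `E` lies in `E`. -/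
theorem involution_mem {E : Subgroup X} (hE : E ≤ center X) (hE4 : Nat.card E = 4)
    (hEe : ∀ e ∈ E, e ^ 2 = 1) {y : X} (hy : y ^ 2 = 1) (hyc : ∀ g, ⁅y, g⁆ ∈ E) : y ∈ E := by
  haveI : Fact (Nat.Prime 2) := ⟨Nat.prime_two⟩
  by_contra hyE
  have hEc : IsMulCommutative E :=
    ⟨⟨fun a b => Subtype.ext (mem_center_iff.mp (hE b.2) a)⟩⟩
  have hycent : y ∈ centralizer (E : Set X) :=
    mem_centralizer_iff.mpr fun e he => (mem_center_iff.mp (hE he) y).symm
  have hc := H24.isMulCommutative_sup_zpowers hEc hycent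
  haveI := H24.normal_of_le_center hE
  have hn : (E ⊔ zpowers y).Normal := ⟨fun n hn g => by
    refine (sup_le (α := Subgroup X) (c := (E ⊔ zpowers y).comap (MulAut.conj g).toMonoidHom)
      ?_ ?_ hn :)
    · exact fun e he => mem_sup_left (Normal.conj_mem inferInstance e he g)
    · refine zpowers_le.mpr (mem_comap.mpr ?_)
      rw [show (MulAut.conj g).toMonoidHom y = ⁅y, g⁆⁻¹ * y by
        simp [commutatorElement_def, mul_assoc]]
      exact mul_mem (mem_sup_left (inv_mem (hyc g))) (mem_sup_right (mem_zpowers y))⟩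
  have hel : Cfsg.IsElementaryAbelian 2 (E ⊔ zpowers y) := by
    refine ⟨hc, fun w hw => ?_⟩
    obtain ⟨e, he, v, hv, rfl⟩ := mem_sup_of_normal_left.mp hw
    obtain ⟨i, rfl⟩ := mem_zpowers_iff.mp hv
    rw [(show Commute e (y ^ i) from (mem_center_iff.mp (hE he) _).symm).mul_pow, hEe e he,
      one_mul, ← zpow_natCast, ← zpow_mul, mul_comm, zpow_mul, zpow_natCast, hy, one_zpow]
  have hle := c.card_le_four hel
  have hrel := H24.card_mul_relIndex (le_sup_left : E ≤ E ⊔ zpowers y)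
  have h2 := H24.le_relIndex_of_lt c.isPGroup (H := E) (K := E ⊔ zpowers y)
    fun h => hyE (h (mem_sup_right (mem_zpowers y)))
  have := Nat.mul_le_mul hE4.ge h2
  omega

/-- If a central subgroup `K` is maximal among invariant normal abelian subgroups then `X` is
of exponent two modulo `K`. -/
theorem sq_mem_of_maximal_central {K : Subgroup X} (hKZ : K ≤ center X) (hKinv : Inv A K)
    (hmax : ∀ B : Subgroup X, B.Normal → Inv A B → IsMulCommutative B → K ≤ B → B = K) (x : X) :
    x ^ 2 ∈ K := by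
  haveI : Fact (Nat.Prime 2) := ⟨Nat.prime_two⟩
  haveI := H24.normal_of_le_center hKZ
  have hCK : ∀ y : X, y ∈ centralizer (K : Set X) := fun y =>
    mem_centralizer_iff.mpr fun k hk => (mem_center_iff.mp (hKZ hk) y).symm
  set H := H24.centralTorsion K 2 with hH
  have hKH : K ≤ H := fun k hk => ⟨hCK k, fun g => by
    rw [commutatorElement_eq_one_iff_mul_comm.mpr (mem_center_iff.mp (hKZ hk) g).symm]
    exact one_mem K, pow_mem hk 2⟩
  have hHn : H.Normal := ⟨fun c hc g => by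
    rw [show g * c * g⁻¹ = ⁅c, g⁆⁻¹ * c by simp [commutatorElement_def, mul_assoc]]
    exact mul_mem (hKH (inv_mem (hc.2.1 g))) hc⟩
  have hHinv : Inv A H := fun φ hφ c hc => by
    refine ⟨hCK _, fun g => ?_, ?_⟩
    · obtain ⟨g, rfl⟩ := φ.surjective g
      rw [← map_comm]
      exact hKinv φ hφ _ (hc.2.1 g)
    · rw [← map_pow]
      exact hKinv φ hφ _ hc.2.2
  set C := centralizer (H : Set X) with hC
  haveI hCn : C.Normal := inferInstance
  have hCinv : Inv A C := fun φ hφ y hy => mem_centralizer_iff.mpr fun w hw => by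
    have h1 : φ⁻¹ w ∈ H := hHinv φ⁻¹ (inv_mem hφ) w hw
    have h2 := congrArg φ (mem_centralizer_iff.mp hy _ h1)
    simpa using h2
  have hCH : C ⊓ H = K := hmax _ inferInstance (fun φ hφ y hy => ⟨hCinv φ hφ y hy.1, hHinv φ hφ y hy.2⟩)
    ⟨⟨fun a b => Subtype.ext (mem_centralizer_iff.mp b.2.1 a a.2.2)⟩⟩
    (le_inf (fun k hk => mem_centralizer_iff.mpr fun y _ => mem_center_iff.mp (hKZ hk) y) hKH)
  have hCK' : C ≤ K := by
    by_contra hne
    have hne' : C.map (QuotientGroup.mk' K) ≠ ⊥ := by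
      rwa [Ne, Subgroup.map_eq_bot_iff, QuotientGroup.ker_mk']
    haveI : (C.map (QuotientGroup.mk' K)).Normal :=
      Normal.map inferInstance _ (QuotientGroup.mk'_surjective K)
    obtain ⟨z, ⟨y, hy, rfl⟩, hzc, hzo⟩ :=
      H24.exists_central_orderOf (c.isPGroup.to_quotient K) hne'
    have hyH : y ∈ H := by
      refine ⟨hCK y, fun g => ?_, ?_⟩
      · rw [← QuotientGroup.eq_one_iff, ← QuotientGroup.mk'_apply, map_commutatorElement,
          commutatorElement_eq_one_iff_mul_comm]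
        exact (mem_center_iff.mp hzc _).symm
      · rw [← QuotientGroup.eq_one_iff, ← QuotientGroup.mk'_apply, map_pow, ← hzo,
          pow_orderOf_eq_one]
    have hyK : y ∈ K := hCH.le ⟨hy, hyH⟩
    rw [QuotientGroup.mk'_apply, (QuotientGroup.eq_one_iff y).mpr hyK, orderOf_one] at hzo
    omega
  refine hCK' (mem_centralizer_iff.mpr fun w hw => ?_)
  have hu : ⁅w, x⁆ ∈ center X := hKZ (hw.2.1 x)
  have hw2 : w ^ 2 ∈ center X := hKZ hw.2.2
  have hcon : x * w * x⁻¹ = ⁅w, x⁆⁻¹ * w := by simp [commutatorElement_def, mul_assoc]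
  have hu2 : (⁅w, x⁆⁻¹) ^ 2 = 1 := by
    have h1 : (x * w * x⁻¹) ^ 2 = w ^ 2 := by
      rw [conj_pow, mem_center_iff.mp hw2 x, mul_inv_cancel_right]
    rw [hcon, (show Commute ⁅w, x⁆⁻¹ w from
      (mem_center_iff.mp (inv_mem hu) w).symm).mul_pow] at h1
    simpa using h1
  have h2 : x ^ 2 * w * (x ^ 2)⁻¹ = w := by
    calc x ^ 2 * w * (x ^ 2)⁻¹ = x * (x * w * x⁻¹) * x⁻¹ := by rw [sq]; group
      _ = x * ⁅w, x⁆⁻¹ * w * x⁻¹ := by rw [hcon]; group
      _ = ⁅w, x⁆⁻¹ * (x * w * x⁻¹) := by rw [mem_center_iff.mp (inv_mem hu) x]; group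
      _ = w := by rw [hcon, ← mul_assoc, ← sq, hu2, one_mul]
  exact (mul_inv_eq_iff_eq_mul.mp h2).symm

end Ctx

/-- A three-cycle `α` on a four-group `E`. -/
structure Tri (α : MulAut X) (E : Subgroup X) : Prop where
  mem : ∀ e ∈ E, α e ∈ E
  card : Nat.card E = 4
  elem : ∀ e ∈ E, e ^ 2 = 1
  moves : ∀ e ∈ E, α e = e → e = 1
  cube : ∀ e ∈ E, α (α (α e)) = e

/-- Enumeration of a four-group. -/
theorem four_cases [Finite X] {E : Subgroup X} (hE : Nat.card E = 4) {a b : X}
    (ha : a ∈ E) (hb : b ∈ E) (ha1 : a ≠ 1) (hb1 : b ≠ 1) (hab : a ≠ b) (he : ∀ e ∈ E, e ^ 2 = 1)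
    {y : X} (hy : y ∈ E) : y = 1 ∨ y = a ∨ y = b ∨ y = a * b := by
  classical
  have := Fintype.ofFinite E
  rw [Nat.card_eq_fintype_card] at hE
  let S : Finset E := {1, ⟨a, ha⟩, ⟨b, hb⟩, ⟨a * b, mul_mem ha hb⟩}
  have hab1 : a * b ≠ 1 := fun h => hab (by
    rw [← mul_left_cancel_iff (a := a), h, ← sq, he a ha])
  have hS : S.card = 4 := by
    simp [S, Finset.card_insert_of_notMem, Subtype.ext_iff, ha1.symm, hb1.symm, hab1.symm, hab,
      hb1, ha1]
  have hmem := (Finset.eq_univ_of_card S (hS.trans hE.symm)) ▸ Finset.mem_univ (⟨y, hy⟩ : E)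
  simpa [S, Subtype.ext_iff] using hmem

namespace Tri

variable {α : MulAut X} {E : Subgroup X} (t : Tri α E)
include t

theorem apply_ne {a : X} (ha : a ∈ E) (ha1 : a ≠ 1) : α a ≠ a := fun h => ha1 (t.moves a ha h)

variable [Finite X]

theorem mul_apply {a : X} (ha : a ∈ E) : a * α a = α (α a) := by
  rcases eq_or_ne a 1 with rfl | ha1
  · simp
  have hb1 : α a ≠ 1 := by simpa using ha1
  have hne : α (α a) ≠ a := fun h => by
    have h3 := t.cube a ha
    rw [h] at h3
    exact t.apply_ne ha ha1 h3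
  rcases four_cases t.card ha (t.mem a ha) ha1 hb1 (t.apply_ne ha ha1).symm t.elem
    (t.mem _ (t.mem a ha)) with h | h | h | h
  · exact absurd h (by simpa using hb1)
  · exact absurd h hne
  · exact absurd h (t.apply_ne (t.mem a ha) hb1)
  · exact h.symm

theorem cases {a : X} (ha : a ∈ E) (ha1 : a ≠ 1) {y : X} (hy : y ∈ E) :
    y = 1 ∨ y = a ∨ y = α a ∨ y = α (α a) := by
  rw [← t.mul_apply ha]
  exact four_cases t.card ha (t.mem a ha) ha1 (by simpa using ha1)
    (t.apply_ne ha ha1).symm t.elem hy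

end Tri

end Cfsg.Agent.H53.OddAct
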