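import Cfsg.Agent.H53.OddActionBasic

/-!
# A maximal invariant normal abelian subgroup with a transitive automorphism on its involutions

If a self-centralizing invariant normal abelian `K` has exponent at least four, and rank two with
`A` transitive on its involutions, then the squares of `X` lie in `E = Ω₁(K)`.
-/

set_option autoImplicit false
set_option linter.style.haveILetI false
set_option linter.unusedSectionVars false
open Subgroup
open scoped commutatorElement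

namespace Cfsg.Agent.H53.OddAct

variable {X : Type*} [Group X] [Finite X]

/-- The hypotheses on `K`; `2 ^ (t + 1)` is its exponent. -/
structure LCtx (A : Subgroup (MulAut X)) (α : MulAut X) (E K : Subgroup X) (t : ℕ) : Prop where
  ctx : Ctx X A
  mem : α ∈ A
  tri : Tri α E
  ecenter : E ≤ center X
  le : E ≤ K
  normal : K.Normal
  inv : Inv A K
  comm : ∀ a ∈ K, ∀ b ∈ K, Commute a b
  omega : ∀ k ∈ K, k ^ 2 = 1 → k ∈ E
  cubeK : ∀ k ∈ K, α (α (α k)) = k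
  onK : ∀ φ ∈ A, (∀ k ∈ K, φ k = k) ∨ (∀ k ∈ K, φ k = α k) ∨ (∀ k ∈ K, φ k = α (α k))
  pos : 1 ≤ t
  expo : ∀ k ∈ K, k ^ 2 ^ (t + 1) = 1
  surj : ∀ e ∈ E, ∃ k ∈ K, k ^ 2 ^ t = e
  ker : ∀ k ∈ K, k ^ 2 ^ t = 1 → ∃ m ∈ K, k = m ^ 2

theorem mul_shuffle {G : Type*} [Group G] {a b c a' b' c' : G} (h1 : Commute a' b)
    (h2 : Commute (a' * b') c) : a * a' * (b * b') * (c * c') = a * b * c * (a' * b' * c') := by
  rw [show a * a' * (b * b') = a * b * (a' * b') by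
    rw [mul_assoc a, ← mul_assoc a', h1.eq]; simp only [mul_assoc]]
  rw [mul_assoc (a * b), ← mul_assoc (a' * b'), h2.eq]
  simp only [mul_assoc]

namespace LCtx

variable {A : Subgroup (MulAut X)} {α : MulAut X} {E K : Subgroup X} {t : ℕ}
  (L : LCtx A α E K t)
include L

theorem alpha_mem {k : X} (hk : k ∈ K) : α k ∈ K := L.inv α L.mem k hk

theorem econst {e : X} (he : e ∈ E) (g : X) : g * e = e * g := mem_center_iff.mp (L.ecenter he) g

theorem pi_mem {k : X} (hk : k ∈ K) : k ^ 2 ^ t ∈ E :=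
  L.omega _ (pow_mem hk _) (by rw [← pow_mul, ← pow_succ]; exact L.expo k hk)

theorem comm_mem {g k : X} (hk : k ∈ K) : ⁅g, k⁆ ∈ K := by
  rw [commutatorElement_def]
  exact mul_mem (L.normal.conj_mem k hk g) (inv_mem hk)

theorem comm_mul {g k m : X} (hk : k ∈ K) (hm : m ∈ K) : ⁅g, k * m⁆ = ⁅g, k⁆ * ⁅g, m⁆ := by
  calc ⁅g, k * m⁆ = ⁅g, k⁆ * (k * ⁅g, m⁆ * k⁻¹) := by simp [commutatorElement_def, mul_assoc]
    _ = ⁅g, k⁆ * ⁅g, m⁆ := by rw [(L.comm k hk _ (L.comm_mem hm)).eq, mul_inv_cancel_right]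

theorem comm_pow {g k : X} (hk : k ∈ K) (n : ℕ) : ⁅g, k ^ n⁆ = ⁅g, k⁆ ^ n := by
  induction n with
  | zero => simp
  | succ n ih => rw [pow_succ, L.comm_mul (pow_mem hk n) hk, ih, pow_succ]

theorem mul_comm_eq {g h k : X} : ⁅g * h, k⁆ = ⁅g, ⁅h, k⁆⁆ * ⁅h, k⁆ * ⁅g, k⁆ := by
  simp [commutatorElement_def, mul_assoc]

/-- Commutators with elements of `K` lie in `K²`. -/
theorem comm_sq {g k : X} (hk : k ∈ K) : ∃ m ∈ K, ⁅g, k⁆ = m ^ 2 := by
  refine L.ker _ (L.comm_mem hk) ?_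
  rw [← L.comm_pow hk, commutatorElement_eq_one_iff_mul_comm]
  exact L.econst (L.pi_mem hk) g

/-- Automorphisms agreeing on `K` give the same commutators with `K`. -/
theorem comm_transfer {φ ψ : MulAut X} (hφ : φ ∈ A) (h : ∀ k ∈ K, φ k = ψ k) (g : X) {k : X}
    (hk : k ∈ K) : ⁅φ g, k⁆ = ⁅ψ g, k⁆ := by
  have hk' : φ⁻¹ k ∈ K := L.inv φ⁻¹ (inv_mem hφ) k hk
  have e1 : φ (φ⁻¹ k) = k := by simp
  conv_lhs => rw [← e1, ← map_comm, h _ (L.comm_mem hk'), map_comm, ← h _ hk', e1]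

theorem comm_cube (g : X) {k : X} (hk : k ∈ K) : ⁅α (α (α g)), k⁆ = ⁅g, k⁆ :=
  L.comm_transfer (φ := α * α * α) (ψ := 1) (mul_mem (mul_mem L.mem L.mem) L.mem)
    (fun m hm => L.cubeK m hm) g hk

/-- `μ g k = [g, k] ^ 2 ^ (t - 1)`. -/
theorem mu_mem {g k : X} (hk : k ∈ K) : ⁅g, k⁆ ^ 2 ^ (t - 1) ∈ E := by
  obtain ⟨m, hm, hgm⟩ := L.comm_sq (g := g) hk
  rw [hgm, ← pow_mul, ← pow_succ', Nat.sub_add_cancel L.pos]
  exact L.pi_mem hm

theorem mu_mul_left {g h k : X} (hk : k ∈ K) :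
    ⁅g * h, k⁆ ^ 2 ^ (t - 1) = ⁅g, k⁆ ^ 2 ^ (t - 1) * ⁅h, k⁆ ^ 2 ^ (t - 1) := by
  obtain ⟨m, hm, hhm⟩ := L.comm_sq (g := h) hk
  rw [L.mul_comm_eq, Commute.mul_pow (L.comm _ (mul_mem (L.comm_mem (L.comm_mem hk))
    (L.comm_mem hk)) _ (L.comm_mem hk)),
    Commute.mul_pow (L.comm _ (L.comm_mem (L.comm_mem hk)) _ (L.comm_mem hk))]
  have h1 : ⁅g, ⁅h, k⁆⁆ ^ 2 ^ (t - 1) = 1 := by
    rw [hhm, L.comm_pow hm, ← pow_mul, ← pow_succ', Nat.sub_add_cancel L.pos, ← L.comm_pow hm,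
      commutatorElement_eq_one_iff_mul_comm]
    exact L.econst (L.pi_mem hm) g
  rw [h1, one_mul, ((L.comm _ (L.comm_mem hk) _ (L.comm_mem hk)).pow_pow _ _).eq]

theorem mu_ker {g k : X} (hk : k ∈ K) (h : k ^ 2 ^ t = 1) : ⁅g, k⁆ ^ 2 ^ (t - 1) = 1 := by
  obtain ⟨m, hm, rfl⟩ := L.ker k hk h
  rw [L.comm_pow hm, ← pow_mul, ← pow_succ', Nat.sub_add_cancel L.pos, ← L.comm_pow hm,
    commutatorElement_eq_one_iff_mul_comm]
  exact L.econst (L.pi_mem hm) g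

/-- The key relation, from `[X, A] = X`. -/
theorem mu_relation (g : X) {k : X} (hk : k ∈ K) :
    ⁅g, α (α k)⁆ ^ 2 ^ (t - 1) * α (⁅g, α k⁆ ^ 2 ^ (t - 1)) *
      α (α (⁅g, k⁆ ^ 2 ^ (t - 1))) = 1 := by
  have hk2 : α (α k) ∈ K := L.alpha_mem (L.alpha_mem hk)
  set N := 2 ^ (t - 1) with hN
  set w := α (α k) with hw
  let F : X →* X :=
    { toFun := fun x => ⁅x, w⁆ ^ N * ⁅α x, w⁆ ^ N * ⁅α (α x), w⁆ ^ N
      map_one' := by simp
      map_mul' := fun x y => by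
        simp only [map_mul, hN, L.mu_mul_left hk2]
        have c1 : ∀ z v, Commute (⁅z, w⁆ ^ 2 ^ (t - 1)) v := fun z v =>
          (L.econst (L.mu_mem hk2) v).symm
        exact mul_shuffle (c1 y _) ((c1 y _).mul_left (c1 (α y) _)) }
  have hF : ∀ φ ∈ A, ∀ x, F (φ x) = F x := by
    intro φ hφ x
    have hFe : ∀ y, F y = ⁅y, w⁆ ^ N * ⁅α y, w⁆ ^ N * ⁅α (α y), w⁆ ^ N := fun y => rfl
    have hα : ∀ y, F (α y) = F y := fun y => by
      rw [hFe, hFe, L.comm_cube y hk2, mul_assoc (⁅y, w⁆ ^ N), hN,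
        L.econst (mul_mem (L.mu_mem (g := α y) hk2) (L.mu_mem (g := α (α y)) hk2))
          (⁅y, w⁆ ^ 2 ^ (t - 1))]
    -- on `K` the automorphism `φ` is a power of `α`
    have htr : ∀ ψ : MulAut X, ψ ∈ A → (∀ m ∈ K, φ m = ψ m) → (∀ y, F (ψ y) = F y) →
        F (φ x) = F x := by
      intro ψ hψ hm hinv
      have hmul : ∀ χ ∈ A, ∀ y, ⁅χ (φ y), w⁆ = ⁅χ (ψ y), w⁆ := fun χ hχ y =>
        L.comm_transfer (φ := χ * φ) (ψ := χ * ψ) (mul_mem hχ hφ)
          (fun m hm' => congrArg χ (hm m hm')) y hk2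
      rw [← hinv x, hFe, hFe, hmul 1 (one_mem A) x |> (fun h => show ⁅φ x, w⁆ = ⁅ψ x, w⁆ from h),
        hmul α L.mem x,
        (show ⁅α (α (φ x)), w⁆ = ⁅α (α (ψ x)), w⁆ from hmul (α * α) (mul_mem L.mem L.mem) x)]
    rcases L.onK φ hφ with h | h | h
    · exact htr 1 (one_mem A) h fun y => rfl
    · exact htr α L.mem h hα
    · exact htr (α * α) (mul_mem L.mem L.mem) h fun y => (hα (α y)).trans (hα y)
  have h1 := L.ctx.hom_eq_one F hF g
  change ⁅g, w⁆ ^ N * ⁅α g, w⁆ ^ N * ⁅α (α g), w⁆ ^ N = 1 at h1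
  rwa [hw, ← map_comm α g (α k), ← map_pow, ← map_comm α (α g) (α k), ← map_comm α g k,
    ← map_pow, ← map_pow] at h1

/-- Agreement of the `2 ^ t`-th powers gives agreement under a map killing their kernel. -/
theorem eq_of_pi_eq {μ : X → X} (hmul : ∀ k ∈ K, ∀ m ∈ K, μ (k * m) = μ k * μ m)
    (hker : ∀ k ∈ K, k ^ 2 ^ t = 1 → μ k = 1) {k m : X} (hk : k ∈ K) (hm : m ∈ K)
    (h : k ^ 2 ^ t = m ^ 2 ^ t) : μ k = μ m := by
  have h1 : μ (k⁻¹ * m) = 1 := by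
    refine hker _ (mul_mem (inv_mem hk) hm) ?_
    rw [((L.comm k hk m hm).inv_left).mul_pow, inv_pow, h, inv_mul_cancel]
  have h2 := hmul k hk _ (mul_mem (inv_mem hk) hm)
  rwa [mul_inv_cancel_left, h1, mul_one, eq_comm] at h2

/-- Every element of `K` is congruent to one of four. -/
theorem pi_cases {k₀ : X} (hk₀ : k₀ ∈ K) (h0 : k₀ ^ 2 ^ t ≠ 1) {k : X} (hk : k ∈ K) :
    k ^ 2 ^ t = 1 ∨ k ^ 2 ^ t = k₀ ^ 2 ^ t ∨ k ^ 2 ^ t = (α k₀) ^ 2 ^ t ∨
      k ^ 2 ^ t = (α (α k₀)) ^ 2 ^ t := by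
  rw [← map_pow α, ← map_pow α (α k₀), ← map_pow α]
  exact L.tri.cases (L.pi_mem hk₀) h0 (L.pi_mem hk)

theorem pi_mul {k m : X} (hk : k ∈ K) (hm : m ∈ K) :
    (k * m) ^ 2 ^ t = k ^ 2 ^ t * m ^ 2 ^ t := (L.comm k hk m hm).mul_pow _

theorem pi_third {k₀ : X} (hk₀ : k₀ ∈ K) :
    (k₀ * α k₀) ^ 2 ^ t = (α (α k₀)) ^ 2 ^ t := by
  rw [L.pi_mul hk₀ (L.alpha_mem hk₀), ← map_pow, ← map_pow α (α k₀), ← map_pow,
    L.tri.mul_apply (L.pi_mem hk₀)]

/-- A map satisfying the relation which is injective nowhere is trivial. -/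
theorem eq_one_of_relation {μ : X → X} (hmul : ∀ k ∈ K, ∀ m ∈ K, μ (k * m) = μ k * μ m)
    (hker : ∀ k ∈ K, k ^ 2 ^ t = 1 → μ k = 1) (hE : ∀ k ∈ K, μ k ∈ E)
    (hrel : ∀ k ∈ K, μ (α (α k)) * α (μ (α k)) * α (α (μ k)) = 1)
    {k₀ : X} (hk₀ : k₀ ∈ K) (h0 : k₀ ^ 2 ^ t ≠ 1) (hμ : μ k₀ = 1) :
    ∀ k ∈ K, μ k = 1 := by
  have hk1 := L.alpha_mem hk₀
  have hk2 := L.alpha_mem hk1
  have h2 : μ (α (α k₀)) = μ (α k₀) := by
    rw [← L.eq_of_pi_eq hmul hker (mul_mem hk₀ hk1) hk2 (L.pi_third hk₀), hmul _ hk₀ _ hk1, hμ,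
      one_mul]
  have h := hrel k₀ hk₀
  rw [h2, hμ, map_one, map_one, mul_one] at h
  have he : μ (α k₀) = 1 := by
    refine L.tri.moves _ (hE _ hk1) ?_
    have hsq := L.tri.elem _ (hE _ hk1)
    rw [sq] at hsq
    exact (eq_inv_of_mul_eq_one_right h).trans (inv_eq_of_mul_eq_one_right hsq)
  intro k hk
  rcases L.pi_cases hk₀ h0 hk with e | e | e | e
  · exact hker k hk e
  · rw [L.eq_of_pi_eq hmul hker hk hk₀ e, hμ]
  · rw [L.eq_of_pi_eq hmul hker hk hk1 e, he]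
  · rw [L.eq_of_pi_eq hmul hker hk hk2 e, h2, he]

/-- From a nontrivial map with a kernel, one without. -/
theorem injective_of_not {μ : X → X} (hmul : ∀ k ∈ K, ∀ m ∈ K, μ (k * m) = μ k * μ m)
    (hker : ∀ k ∈ K, k ^ 2 ^ t = 1 → μ k = 1) (hE : ∀ k ∈ K, μ k ∈ E)
    {k₁ : X} (hk₁ : k₁ ∈ K) (hne : μ k₁ ≠ 1)
    {k₀ : X} (hk₀ : k₀ ∈ K) (h0 : k₀ ^ 2 ^ t ≠ 1) (hμ : μ k₀ = 1)
    {k : X} (hk : k ∈ K) (hk' : μ k * α (μ (α (α k))) = 1) : k ^ 2 ^ t = 1 := by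
  have ha := L.alpha_mem hk₀
  have ha2 := L.alpha_mem ha
  have h2 : μ (α (α k₀)) = μ (α k₀) := by
    rw [← L.eq_of_pi_eq hmul hker (mul_mem hk₀ ha) ha2 (L.pi_third hk₀), hmul _ hk₀ _ ha, hμ,
      one_mul]
  have he1 : μ (α k₀) ≠ 1 := fun he => hne (by
    rcases L.pi_cases hk₀ h0 hk₁ with e | e | e | e
    · exact hker _ hk₁ e
    · rw [L.eq_of_pi_eq hmul hker hk₁ hk₀ e, hμ]
    · rw [L.eq_of_pi_eq hmul hker hk₁ ha e, he]
    · rw [L.eq_of_pi_eq hmul hker hk₁ ha2 e, h2, he])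
  let ν : X → X := fun m => μ m * α (μ (α (α m)))
  have hνmul : ∀ m ∈ K, ∀ m' ∈ K, ν (m * m') = ν m * ν m' := fun m hm m' hm' => by
    simp only [ν, map_mul, hmul m hm m' hm',
      hmul _ (L.alpha_mem (L.alpha_mem hm)) _ (L.alpha_mem (L.alpha_mem hm'))]
    rw [mul_assoc, ← mul_assoc (μ m'),
      ← L.econst (hE m' hm') (α (μ (α (α m))))]
    simp only [mul_assoc]
  have hνker : ∀ m ∈ K, m ^ 2 ^ t = 1 → ν m = 1 := fun m hm hm1 => by
    have h' : (α (α m)) ^ 2 ^ t = 1 := by rw [← map_pow, ← map_pow, hm1, map_one, map_one]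
    simp [ν, hker m hm hm1, hker _ (L.alpha_mem (L.alpha_mem hm)) h']
  have e0 : ν k₀ = α (μ (α k₀)) := by simp [ν, hμ, h2]
  have e1 : ν (α k₀) = μ (α k₀) := by simp [ν, L.cubeK k₀ hk₀, hμ]
  have e2 : ν (α (α k₀)) = μ (α k₀) * α (μ (α k₀)) := by
    simp only [ν, h2, L.cubeK _ ha]
  by_contra hk1
  rcases L.pi_cases hk₀ h0 hk with e | e | e | e
  · exact hk1 e
  · have := (L.eq_of_pi_eq hνmul hνker hk hk₀ e).symm.trans hk'
    rw [e0] at this
    exact he1 (α.injective (this.trans (map_one α).symm))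
  · have := (L.eq_of_pi_eq hνmul hνker hk ha e).symm.trans hk'
    exact he1 (e1 ▸ this)
  · have := (L.eq_of_pi_eq hνmul hνker hk ha2 e).symm.trans hk'
    rw [e2, L.tri.mul_apply (hE _ ha)] at this
    exact he1 (α.injective (α.injective ((this.trans (map_one α).symm).trans
      (congrArg α (map_one α).symm))))

omit L in
theorem sq_eq_of_conj {y w u : X} (hu : u * y = y * u) (h : w = u * y) :
    w ^ 2 = u ^ 2 * y ^ 2 := by rw [h, Commute.mul_pow hu]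

/-- `K` is self-centralizing. -/
theorem centralizer_le
    (hmax : ∀ B : Subgroup X, B.Normal → Inv A B → IsMulCommutative B → K ≤ B → B = K) :
    centralizer (K : Set X) ≤ K := by
  haveI : Fact (Nat.Prime 2) := ⟨Nat.prime_two⟩
  haveI := L.normal
  set D := H24.centralTorsion K 2
  have hKD : K ≤ D := fun k hk => ⟨mem_centralizer_iff.mpr fun m hm => L.comm m hm k hk,
    fun g => by rw [← commutatorElement_inv]; exact inv_mem (L.comm_mem hk), pow_mem hk 2⟩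
  have hDn : D.Normal := ⟨fun c hc g => by
    rw [show g * c * g⁻¹ = ⁅c, g⁆⁻¹ * c by simp [commutatorElement_def, mul_assoc]]
    exact mul_mem (hKD (inv_mem (hc.2.1 g))) hc⟩
  have hDinv : Inv A D := fun φ hφ c hc => by
    refine ⟨mem_centralizer_iff.mpr fun m hm => ?_, fun g => ?_, ?_⟩
    · have h2 := congrArg φ (mem_centralizer_iff.mp hc.1 _ (L.inv φ⁻¹ (inv_mem hφ) m hm))
      simpa using h2
    · obtain ⟨g, rfl⟩ := φ.surjective g
      rw [← map_comm]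
      exact L.inv φ hφ _ (hc.2.1 g)
    · rw [← map_pow]
      exact L.inv φ hφ _ hc.2.2
  have hDK : ∀ c ∈ D, ∀ k ∈ K, Commute k c := fun c hc k hk => mem_centralizer_iff.mp hc.1 k hk
  -- commutators in `D`
  have hcD : ∀ c ∈ D, ∀ d ∈ D, ⁅c, d⁆ ∈ E := by
    intro c hc d hd
    have hu : ⁅c, d⁆ ∈ K := hc.2.1 d
    refine L.omega _ hu ?_
    have h1 : (c * d * c⁻¹) ^ 2 = d ^ 2 := by
      rw [conj_pow, ← (hDK c hc _ hd.2.2).eq, mul_inv_cancel_right]
    rw [sq_eq_of_conj (y := d) (u := ⁅c, d⁆) (hDK d hd _ hu).eq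
      (by simp [commutatorElement_def, mul_assoc])] at h1
    exact mul_right_cancel (b := d ^ 2) (by rw [h1, one_mul])
  have hρ : ∀ c ∈ D, ∀ d ∈ D,
      ((c * d) ^ 2) ^ 2 ^ t = (c ^ 2) ^ 2 ^ t * (d ^ 2) ^ 2 ^ t := by
    intro c hc d hd
    have hu := hcD d hd c hc
    have he : (c * d) ^ 2 = ⁅d, c⁆ * (c ^ 2 * d ^ 2) := by
      calc (c * d) ^ 2 = c * (⁅d, c⁆ * (c * d)) * d := by
            simp [commutatorElement_def, sq, mul_assoc]
        _ = ⁅d, c⁆ * (c ^ 2 * d ^ 2) := by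
            rw [← mul_assoc c, (L.econst hu c)]
            simp [sq, mul_assoc]
    rw [he, Commute.mul_pow (L.econst hu (c ^ 2 * d ^ 2)).symm,
      show ⁅d, c⁆ ^ 2 ^ t = 1 by
        rw [show 2 ^ t = 2 * 2 ^ (t - 1) by
          rw [← pow_succ', Nat.sub_add_cancel L.pos], pow_mul, L.tri.elem _ hu, one_pow],
      one_mul, (L.comm _ hc.2.2 _ hd.2.2).mul_pow]
  have hρK : ∀ c ∈ D, (c ^ 2) ^ 2 ^ t = 1 → c ∈ K := by
    intro c hc h
    obtain ⟨m, hm, hcm⟩ := L.ker _ hc.2.2 h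
    have hyD : c * m⁻¹ ∈ D := mul_mem hc (hKD (inv_mem hm))
    have hy : (c * m⁻¹) ^ 2 = 1 := by
      rw [((hDK c hc _ (inv_mem hm)).symm).mul_pow, hcm, inv_pow, mul_inv_cancel]
    have hyE : c * m⁻¹ ∈ E := L.ctx.involution_mem L.ecenter L.tri.card L.tri.elem hy fun g => by
      have hu : ⁅c * m⁻¹, g⁆ ∈ K := hyD.2.1 g
      refine L.omega _ hu ?_
      have h1 : (g * (c * m⁻¹) * g⁻¹) ^ 2 = 1 := by rw [conj_pow, hy, mul_one, mul_inv_cancel]
      rw [sq_eq_of_conj (y := c * m⁻¹) (u := ⁅c * m⁻¹, g⁆⁻¹) (hDK _ hyD _ (inv_mem hu)).eq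
        (by simp [commutatorElement_def, mul_assoc]), hy, mul_one, inv_pow, inv_eq_one] at h1
      exact h1
    simpa using mul_mem (L.le hyE) hm
  intro x hxC
  by_contra hxK
  have hne : (centralizer (K : Set X)).map (QuotientGroup.mk' K) ≠ ⊥ := by
    rw [Ne, Subgroup.map_eq_bot_iff, QuotientGroup.ker_mk']
    exact fun h => hxK (h hxC)
  haveI : ((centralizer (K : Set X)).map (QuotientGroup.mk' K)).Normal :=
    Normal.map inferInstance _ (QuotientGroup.mk'_surjective K)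
  obtain ⟨z, ⟨c, hcC, rfl⟩, hzc, hzo⟩ :=
    H24.exists_central_orderOf (L.ctx.isPGroup.to_quotient K) hne
  have hc : c ∈ D := by
    refine ⟨hcC, fun g => ?_, ?_⟩
    · rw [← QuotientGroup.eq_one_iff, ← QuotientGroup.mk'_apply, map_commutatorElement,
        commutatorElement_eq_one_iff_mul_comm]
      exact (mem_center_iff.mp hzc _).symm
    · rw [← QuotientGroup.eq_one_iff, ← QuotientGroup.mk'_apply, map_pow, ← hzo,
        pow_orderOf_eq_one]
  have hcK : c ∉ K := fun h => by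
    rw [QuotientGroup.mk'_apply, (QuotientGroup.eq_one_iff c).mpr h, orderOf_one] at hzo
    omega
  set a := (c ^ 2) ^ 2 ^ t with ha
  have haE : a ∈ E := L.pi_mem hc.2.2
  have ha1 : a ≠ 1 := fun h => hcK (hρK c hc h)
  set d := α c with hdd
  have hd : d ∈ D := hDinv α L.mem c hc
  have hda : (d ^ 2) ^ 2 ^ t = α a := by rw [ha, map_pow, map_pow, hdd]
  have hdiff : ∀ w ∈ D, ∀ v ∈ D, (w ^ 2) ^ 2 ^ t = (v ^ 2) ^ 2 ^ t → ∃ k ∈ K, w = v * k := by
    intro w hw v hv hwv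
    refine ⟨v⁻¹ * w, hρK _ (mul_mem (inv_mem hv) hw) ?_, by group⟩
    have := hρ v hv _ (mul_mem (inv_mem hv) hw)
    rw [mul_inv_cancel_left, hwv] at this
    exact left_eq_mul.mp this
  have hcd : ((c * d) ^ 2) ^ 2 ^ t = α (α a) := by
    rw [hρ c hc d hd, hda, ← ha, L.tri.mul_apply haE]
  have hcomm : Commute c d := by
    rw [← commutatorElement_eq_one_iff_commute]
    have hu := hcD c hc d hd
    refine L.tri.moves _ hu ?_
    obtain ⟨k, hk, hαd⟩ := hdiff (α d) (hDinv α L.mem d hd) (c * d) (mul_mem hc hd) (by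
      rw [← map_pow, ← map_pow, hda, hcd])
    have hkd : Commute d k := (hDK d hd k hk).symm
    have e1 : ⁅d, c * d * k⁆ = ⁅d, c * d⁆ := by
      rw [commutatorElement_def, commutatorElement_def, mul_inv_rev,
        ← mul_assoc d (c * d) k, mul_assoc (d * (c * d)) k d⁻¹, ← hkd.inv_left.eq]
      simp [mul_assoc]
    have e2 : ⁅d, c * d⁆ = ⁅d, c⁆ := by simp [commutatorElement_def, mul_assoc]
    rw [map_comm, ← hdd, hαd, e1, e2, ← commutatorElement_inv]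
    exact inv_eq_of_mul_eq_one_right (by rw [← sq]; exact L.tri.elem _ hu)
  have hDab : IsMulCommutative D := by
    have hgen : ∀ w ∈ D, ∃ k ∈ K, w = k ∨ w = c * k ∨ w = d * k ∨ w = c * d * k := by
      intro w hw
      rcases L.tri.cases haE ha1 (L.pi_mem hw.2.2) with e | e | e | e
      · exact ⟨w, hρK w hw e, Or.inl rfl⟩
      · obtain ⟨k, hk, h⟩ := hdiff w hw c hc e
        exact ⟨k, hk, Or.inr (Or.inl h)⟩
      · obtain ⟨k, hk, h⟩ := hdiff w hw d hd (e.trans hda.symm)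
        exact ⟨k, hk, Or.inr (Or.inr (Or.inl h))⟩
      · obtain ⟨k, hk, h⟩ := hdiff w hw (c * d) (mul_mem hc hd) (e.trans hcd.symm)
        exact ⟨k, hk, Or.inr (Or.inr (Or.inr h))⟩
    have hall : ∀ w ∈ D, ∀ v, Commute c v → Commute d v → (∀ k ∈ K, Commute k v) →
        Commute w v := by
      intro w hw v h1 h2 h3
      obtain ⟨k, hk, rfl | rfl | rfl | rfl⟩ := hgen w hw
      · exact h3 _ hk
      · exact h1.mul_left (h3 k hk)
      · exact h2.mul_left (h3 k hk)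
      · exact (h1.mul_left h2).mul_left (h3 k hk)
    have hwc : ∀ w ∈ D, Commute w c := fun w hw =>
      hall w hw c (Commute.refl c) hcomm.symm fun k hk => hDK c hc k hk
    have hwd : ∀ w ∈ D, Commute w d := fun w hw =>
      hall w hw d hcomm (Commute.refl d) fun k hk => hDK d hd k hk
    exact ⟨⟨fun w v => Subtype.ext (hall w w.2 v (hwc v v.2).symm (hwd v v.2).symm
      fun k hk => hDK v v.2 k hk).eq⟩⟩
  exact hcK ((hmax D hDn hDinv hDab hKD).le hc)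

/-- For `t ≥ 2` no element outside `K` moves `K` only within `E`. -/
theorem no_top (h2 : 2 ≤ t) (hself : centralizer (K : Set X) ≤ K) {g : X} (hgK : g ∉ K)
    (hg : ∀ k ∈ K, ⁅g, k⁆ ∈ E) : False := by
  have hnotK : ∀ x : X, x ∉ K → ∃ k ∈ K, ⁅x, k⁆ ≠ 1 := fun x hx => by
    by_contra h
    push Not at h
    exact hx (hself (mem_centralizer_iff.mpr fun k hk =>
      (commutatorElement_eq_one_iff_mul_comm.mp (h k hk)).symm))
  have hker : ∀ x : X, (∀ k ∈ K, ⁅x, k⁆ ∈ E) → ∀ k ∈ K, k ^ 2 ^ t = 1 → ⁅x, k⁆ = 1 := by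
    intro x hx k hk h
    obtain ⟨m, hm, rfl⟩ := L.ker k hk h
    rw [L.comm_pow hm]
    exact L.tri.elem _ (hx m hm)
  -- replace `g` by an element injective on `K / K²`
  obtain ⟨g, hgK, hg, hinj⟩ : ∃ g ∉ K, (∀ k ∈ K, ⁅g, k⁆ ∈ E) ∧
      ∀ k ∈ K, ⁅g, k⁆ = 1 → k ^ 2 ^ t = 1 := by
    by_cases hinj : ∀ k ∈ K, ⁅g, k⁆ = 1 → k ^ 2 ^ t = 1
    · exact ⟨g, hgK, hg, hinj⟩
    push Not at hinj
    obtain ⟨k₀, hk₀, hμ, h0⟩ := hinj
    obtain ⟨k₁, hk₁, hne⟩ := hnotK g hgK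
    have hαg : ∀ k ∈ K, ⁅α g, k⁆ = α ⁅g, α (α k)⁆ := fun k hk => by
      rw [map_comm, L.cubeK k hk]
    have heq : ∀ k ∈ K, ⁅g * α g, k⁆ = ⁅g, k⁆ * α ⁅g, α (α k)⁆ := fun k hk => by
      have he : α ⁅g, α (α k)⁆ ∈ E := L.tri.mem _ (hg _ (L.alpha_mem (L.alpha_mem hk)))
      rw [L.mul_comm_eq, hαg k hk,
        commutatorElement_eq_one_iff_mul_comm.mpr (L.econst he g), one_mul,
        ← L.econst he ⁅g, k⁆]
    have hinj' : ∀ k ∈ K, ⁅g * α g, k⁆ = 1 → k ^ 2 ^ t = 1 := fun k hk h =>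
      L.injective_of_not (μ := fun k => ⁅g, k⁆) (fun a ha b hb => L.comm_mul ha hb) (hker g hg)
        hg hk₁ hne hk₀ h0 hμ hk (by rw [← heq k hk]; exact h)
    refine ⟨g * α g, fun hK => h0 (hinj' k₀ hk₀ ?_), fun k hk => ?_, hinj'⟩
    · exact commutatorElement_eq_one_iff_mul_comm.mpr (L.comm _ hK k₀ hk₀)
    · rw [heq k hk]
      exact mul_mem (hg k hk) (L.tri.mem _ (hg _ (L.alpha_mem (L.alpha_mem hk))))
  have hg2K : g ^ 2 ∈ K := hself (mem_centralizer_iff.mpr fun k hk => by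
    refine (commutatorElement_eq_one_iff_mul_comm.mp ?_).symm
    rw [sq, L.mul_comm_eq, commutatorElement_eq_one_iff_mul_comm.mpr (L.econst (hg k hk) g),
      one_mul, ← sq, L.tri.elem _ (hg k hk)])
  obtain ⟨q, hq, hgq⟩ := L.ker _ hg2K (hinj _ hg2K
    (commutatorElement_eq_one_iff_mul_comm.mpr ((Commute.refl g).pow_right 2)))
  -- the map `k ↦ [g, k] k²`
  let θ : K →* X :=
    { toFun := fun k => ⁅g, (k : X)⁆ * (k : X) ^ 2
      map_one' := by simp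
      map_mul' := fun a b => by
        simp only [Subgroup.coe_mul]
        rw [L.comm_mul a.2 b.2, (L.comm _ a.2 _ b.2).mul_pow]
        exact ((L.comm _ (L.comm_mem b.2) _ (pow_mem a.2 2)).mul_mul_mul_comm _ _) }
  let σ : K →* X :=
    { toFun := fun k => (k : X) ^ 2
      map_one' := by simp
      map_mul' := fun a b => (L.comm _ a.2 _ b.2).mul_pow _ }
  have hθker : ∀ k : K, θ k = 1 → (k : X) ∈ E := fun k h => by
    have h' : ⁅g, (k : X)⁆ * (k : X) ^ 2 = 1 := h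
    have h1 : ((k : X) ^ 2) ^ 2 = 1 := by
      rw [← inv_eq_of_mul_eq_one_right h', inv_pow, L.tri.elem _ (hg _ k.2), inv_one]
    have hpi : (k : X) ^ 2 ^ t = 1 := by
      rw [show 2 ^ t = 2 * 2 * 2 ^ (t - 2) by
        rw [← sq, ← pow_add]; congr 1; omega, pow_mul, pow_mul, h1, one_pow]
    rw [hker g hg _ k.2 hpi, one_mul] at h'
    exact L.omega _ k.2 h'
  have hrange : θ.range = σ.range := by
    refine eq_of_le_of_card_ge ?_ ?_
    · rintro _ ⟨k, rfl⟩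
      obtain ⟨m, hm, hgm⟩ := L.comm_sq (g := g) k.2
      exact ⟨⟨m * k, mul_mem hm k.2⟩, by
        simp [θ, σ, hgm, (L.comm m hm _ k.2).mul_pow]⟩
    · have h1 := card_mul_index θ.ker
      have h2 := card_mul_index σ.ker
      rw [index_ker] at h1 h2
      have hle : Nat.card θ.ker ≤ Nat.card σ.ker := by
        refine card_le_of_le fun k hk => ?_
        exact L.tri.elem _ (hθker k hk)
      have hpos : 0 < Nat.card σ.ker := Nat.card_pos
      by_contra hcon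
      push Not at hcon
      have := Nat.mul_lt_mul_of_le_of_lt hle hcon hpos
      omega
  have hsol : (⟨q⁻¹, inv_mem hq⟩ : K) ∈ (⊤ : Subgroup K) := mem_top _
  obtain ⟨⟨k, hk⟩, hθk⟩ := hrange.ge ⟨⟨q⁻¹, inv_mem hq⟩, rfl⟩
  have hθk' : ⁅g, k⁆ * k ^ 2 = (q⁻¹) ^ 2 := hθk
  set y := g * k with hy
  have hy2 : y ^ 2 = 1 := by
    have e1 : y ^ 2 = g * k * g⁻¹ * g ^ 2 * k := by simp [hy, sq, mul_assoc]
    have e2 : g * k * g⁻¹ = ⁅g, k⁆ * k := by simp [commutatorElement_def, mul_assoc]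
    rw [e1, e2, hgq, mul_assoc _ (q ^ 2) k, (L.comm _ (pow_mem hq 2) k hk).eq,
      show ⁅g, k⁆ * k * (k * q ^ 2) = ⁅g, k⁆ * k ^ 2 * q ^ 2 by simp [sq, mul_assoc],
      hθk', inv_pow, inv_mul_cancel]
  have hyK : y ∉ K := fun h => hgK (by simpa [hy] using mul_mem h (inv_mem hk))
  refine hyK (L.le (L.ctx.involution_mem L.ecenter L.tri.card L.tri.elem hy2 fun x => ?_))
  haveI := L.normal
  -- `x g x⁻¹ ≡ g` modulo `K`
  have hv : x * g * x⁻¹ * g⁻¹ ∈ K := by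
    refine hself (mem_centralizer_iff.mpr fun m hm => ?_)
    refine (commutatorElement_eq_one_iff_mul_comm.mp ?_).symm
    have hm' : x⁻¹ * m * x ∈ K := by simpa using L.normal.conj_mem m hm x⁻¹
    have hpi : (x⁻¹ * m * x) ^ 2 ^ t = m ^ 2 ^ t := by
      have h := conj_pow (i := 2 ^ t) (a := x⁻¹) (b := m)
      rw [inv_inv] at h
      rw [h, L.econst (L.pi_mem hm) x⁻¹, mul_assoc, inv_mul_cancel, mul_one]
    have e3 : ⁅x * g * x⁻¹, m⁆ = ⁅g, m⁆ := by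
      have he := hg _ hm'
      have : ⁅x * g * x⁻¹, m⁆ = x * ⁅g, x⁻¹ * m * x⁆ * x⁻¹ := by
        simp [commutatorElement_def, mul_assoc]
      rw [this, L.econst he x, mul_inv_cancel_right]
      exact L.eq_of_pi_eq (μ := fun k => ⁅g, k⁆) (fun a ha b hb => L.comm_mul ha hb) (hker g hg)
        hm' hm hpi
    have e4 : ⁅x * g * x⁻¹, m⁆ = ⁅x * g * x⁻¹ * g⁻¹, ⁅g, m⁆⁆ * ⁅g, m⁆ *
        ⁅x * g * x⁻¹ * g⁻¹, m⁆ := by
      rw [← L.mul_comm_eq, inv_mul_cancel_right]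
    rw [e3, commutatorElement_eq_one_iff_mul_comm.mpr
      (L.econst (hg m hm) (x * g * x⁻¹ * g⁻¹)), one_mul] at e4
    exact left_eq_mul.mp e4
  have hu : ⁅y, x⁆ ∈ K := by
    have e : ⁅y, x⁆ = g * (k * (x * k * x⁻¹)⁻¹) * g⁻¹ * (x * g * x⁻¹ * g⁻¹)⁻¹ := by
      simp [hy, commutatorElement_def, mul_assoc]
    rw [e]
    exact mul_mem (L.normal.conj_mem _ (mul_mem hk (inv_mem (L.normal.conj_mem k hk x))) g)
      (inv_mem hv)
  set u := ⁅y, x⁆ with hudef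
  have hθu : θ ⟨u, hu⟩ = 1 := by
    have hyy : y * y = 1 := by rw [← sq]; exact hy2
    have hyi : y⁻¹ = y := inv_eq_of_mul_eq_one_right hyy
    have h3 : u⁻¹ * y * u⁻¹ * y = 1 := by
      have h1 : (x * y * x⁻¹) ^ 2 = 1 := by rw [conj_pow, hy2, mul_one, mul_inv_cancel]
      have h2 : x * y * x⁻¹ = u⁻¹ * y := by simp [hudef, commutatorElement_def, mul_assoc]
      rw [h2, sq] at h1
      simpa [mul_assoc] using h1
    have h4 : y * u * y⁻¹ * u = 1 := by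
      have := inv_eq_one.mpr h3
      simp only [mul_inv_rev, inv_inv, hyi] at this ⊢
      simpa [mul_assoc] using this
    have e : ⁅g, u⁆ = ⁅y, u⁆ := by
      rw [hy, L.mul_comm_eq, commutatorElement_eq_one_iff_mul_comm.mpr (L.comm k hk u hu)]
      simp
    show ⁅g, u⁆ * u ^ 2 = 1
    rw [e, ← h4]
    simp [commutatorElement_def, sq, mul_assoc]
  exact hθker _ hθu

/-- For `t ≥ 2` some element outside `K` moves `K` only within `E`. -/
theorem exists_top (hself : centralizer (K : Set X) ≤ K) (hne : ∃ g, g ∉ K) :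
    ∃ g ∉ K, ∀ k ∈ K, ∃ m ∈ K, ⁅g, k⁆ = m ^ 2 ^ t := by
  suffices h : ∀ j, j < t → ∃ g ∉ K, ∀ k ∈ K, ∃ m ∈ K, ⁅g, k⁆ = m ^ 2 ^ (j + 1) by
    obtain ⟨g, hg, h⟩ := h (t - 1) (by have := L.pos; omega)
    exact ⟨g, hg, fun k hk => by
      obtain ⟨m, hm, e⟩ := h k hk
      exact ⟨m, hm, by rwa [Nat.sub_add_cancel L.pos] at e⟩⟩
  intro j
  induction j with
  | zero =>
    intro _
    obtain ⟨g, hg⟩ := hne
    exact ⟨g, hg, fun k hk => by simpa using L.comm_sq hk⟩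
  | succ j ih =>
    intro hj
    obtain ⟨g, hgK, hg⟩ := ih (by omega)
    by_contra hno
    push Not at hno
    have hsq : ∀ x : X, (∀ k ∈ K, ∃ m ∈ K, ⁅x, k⁆ = m ^ 2 ^ (j + 1)) → x ^ 2 ∈ K := by
      intro x hx
      by_contra hxK
      obtain ⟨k, hk, hk'⟩ := hno (x ^ 2) hxK
      obtain ⟨m, hm, e⟩ := hx k hk
      obtain ⟨n, hn, e'⟩ := hx m hm
      refine hk' (n ^ 2 ^ j * m) (mul_mem (pow_mem hn _) hm) ?_
      rw [sq, L.mul_comm_eq, e, L.comm_pow hm, e', (L.comm _ (pow_mem hn _) _ hm).mul_pow,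
        mul_assoc, ← pow_add, ← pow_mul, ← pow_mul]
      congr 2 <;> ring
    rcases Nat.eq_zero_or_pos j with rfl | hjpos
    · -- the second layer
      set N := 2 ^ (t - 1) with hN
      let μ : X → X := fun k => ⁅g, k⁆ ^ N
      have hmul : ∀ a ∈ K, ∀ b ∈ K, μ (a * b) = μ a * μ b := fun a ha b hb => by
        simp only [μ, L.comm_mul ha hb, (L.comm _ (L.comm_mem ha) _ (L.comm_mem hb)).mul_pow]
      have hrel : ∀ k ∈ K, μ (α (α k)) * α (μ (α k)) * α (α (μ k)) = 1 := fun k hk =>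
        L.mu_relation g hk
      obtain ⟨k₁, hk₁, hk₁'⟩ : ∃ k ∈ K, μ k ≠ 1 := by
        by_contra hall
        push Not at hall
        obtain ⟨k, hk, hk'⟩ := hno g hgK
        obtain ⟨m, hm, e⟩ := L.comm_sq (g := g) hk
        have h1 := hall k hk
        simp only [μ, hN, e, ← pow_mul, ← pow_succ', Nat.sub_add_cancel L.pos] at h1
        obtain ⟨n, hn, rfl⟩ := L.ker m hm h1
        exact hk' n hn (by rw [e, ← pow_mul]; norm_num)
      have hinj : ∀ k ∈ K, μ k = 1 → k ^ 2 ^ t = 1 := fun k hk h => by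
        by_contra h0
        exact hk₁' (L.eq_one_of_relation hmul (fun k hk h => L.mu_ker hk h)
          (fun k hk => L.mu_mem hk) hrel hk h0 h k₁ hk₁)
      have hid : ∀ k ∈ K, μ k = k ^ 2 ^ t := by
        intro k hk
        obtain ⟨m, hm, e⟩ := L.comm_sq (g := g) hk
        have hμk : μ k = m ^ 2 ^ t := by
          simp only [μ, hN, e, ← pow_mul, ← pow_succ', Nat.sub_add_cancel L.pos]
        have hg2 : ⁅g ^ 2, k⁆ = 1 :=
          commutatorElement_eq_one_iff_mul_comm.mpr (L.comm _ (hsq g hg) k hk)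
        rw [sq, L.mul_comm_eq, e, L.comm_pow hm, mul_assoc, ← pow_add] at hg2
        have h2 : ⁅g, m⁆ ^ 2 = (m ^ (2 + 2))⁻¹ := eq_inv_of_mul_eq_one_left hg2
        have hμm : μ m = m ^ 2 ^ t := by
          show ⁅g, m⁆ ^ 2 ^ (t - 1) = _
          rw [show t - 1 = t - 2 + 1 by omega, pow_succ', pow_mul, h2, inv_pow, ← pow_mul,
            show (2 + 2) * 2 ^ (t - 2) = 2 ^ t by
              rw [show 2 + 2 = 2 ^ 2 by norm_num, ← pow_add]; congr 1; omega]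
          exact inv_eq_of_mul_eq_one_right (by rw [← sq]; exact L.tri.elem _ (L.pi_mem hm))
        have h1 := hinj (k⁻¹ * m) (mul_mem (inv_mem hk) hm) (by
          have := hmul k hk (k⁻¹ * m) (mul_mem (inv_mem hk) hm)
          rw [mul_inv_cancel_left, hμk, hμm] at this
          exact left_eq_mul.mp this)
        rw [((L.comm k hk m hm).inv_left).mul_pow, inv_pow, inv_mul_eq_one] at h1
        rw [hμk, h1]
      have h := hrel k₁ hk₁
      have hk1 := L.alpha_mem hk₁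
      rw [hid _ (L.alpha_mem hk1), hid _ hk1, hid _ hk₁, ← map_pow α (α k₁), ← map_pow α k₁,
        ← sq, L.tri.elem _ (L.tri.mem _ (L.tri.mem _ (L.pi_mem hk₁))), one_mul] at h
      exact hk₁' (by rw [hid _ hk₁]; exact α.injective (α.injective (by simpa using h)))
    · -- deeper layers
      obtain ⟨k, hk, hk'⟩ := hno g hgK
      obtain ⟨m, hm, e⟩ := hg k hk
      obtain ⟨n, hn, e'⟩ := hg m hm
      have hg2 : ⁅g ^ 2, k⁆ = 1 :=
        commutatorElement_eq_one_iff_mul_comm.mpr (L.comm _ (hsq g hg) k hk)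
      rw [sq, L.mul_comm_eq, mul_assoc, e, L.comm_pow hm, e'] at hg2
      set w := n ^ 2 ^ (2 * j + 1) * m ^ 2 ^ (j + 1) with hw
      have hwE : w ∈ E := by
        refine L.omega _ (mul_mem (pow_mem hn _) (pow_mem hm _)) ?_
        rw [hw, ((L.comm _ hn _ hm).pow_pow _ _).mul_pow, sq (m ^ _), ← hg2, ← pow_mul, ← pow_mul,
          ← pow_add]
        congr 2 <;> ring
      obtain ⟨r, hr, hre⟩ := L.surj w hwE
      refine hk' (r ^ 2 ^ (t - (j + 2)) * (n ^ 2 ^ (j - 1))⁻¹)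
        (mul_mem (pow_mem hr _) (inv_mem (pow_mem hn _))) ?_
      rw [e, (L.comm _ (pow_mem hr _) _ (inv_mem (pow_mem hn _))).mul_pow, inv_pow, ← pow_mul,
        ← pow_add, show t - (j + 2) + (j + 1 + 1) = t by omega, hre, ← pow_mul, ← pow_add,
        show j - 1 + (j + 1 + 1) = 2 * j + 1 by omega, hw,
        ((L.comm _ hn _ hm).pow_pow _ _).eq, mul_inv_cancel_right]

/-- Squares lie in `E`. -/
theorem sq_mem
    (hmax : ∀ B : Subgroup X, B.Normal → Inv A B → IsMulCommutative B → K ≤ B → B = K) :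
    ∀ x : X, x ^ 2 ∈ E := by
  have hself := L.centralizer_le hmax
  have hne : ∃ g, g ∉ K := by
    by_contra h
    push Not at h
    exact L.ctx.nonab ⟨⟨fun a b => (L.comm a (h a) b (h b)).eq⟩⟩
  rcases (show t = 1 ∨ 2 ≤ t by have := L.pos; omega) with ht | ht
  · subst ht
    have hKsq : ∀ k ∈ K, k ^ 2 ∈ E := fun k hk => by simpa using L.pi_mem hk
    intro x
    by_cases hxK : x ∈ K
    · exact hKsq x hxK
    have hrel : ∀ k ∈ K, ⁅x, α (α k)⁆ * α ⁅x, α k⁆ * α (α ⁅x, k⁆) = 1 := fun k hk => by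
      simpa using L.mu_relation x hk
    have hE : ∀ k ∈ K, ⁅x, k⁆ ∈ E := fun k hk => by simpa using L.mu_mem (g := x) hk
    have hker : ∀ k ∈ K, k ^ 2 ^ 1 = 1 → ⁅x, k⁆ = 1 := fun k hk h => by
      simpa using L.mu_ker (g := x) hk h
    have hinj : ∀ k ∈ K, ⁅x, k⁆ = 1 → k ^ 2 ^ 1 = 1 := fun k hk h => by
      by_contra h0
      exact hxK (hself (mem_centralizer_iff.mpr fun m hm =>
        (commutatorElement_eq_one_iff_mul_comm.mp (L.eq_one_of_relation (μ := fun k => ⁅x, k⁆)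
          (fun a ha b hb => L.comm_mul ha hb) hker hE hrel hk h0 h m hm)).symm))
    have hx2K : x ^ 2 ∈ K := hself (mem_centralizer_iff.mpr fun k hk => by
      refine (commutatorElement_eq_one_iff_mul_comm.mp ?_).symm
      rw [sq, L.mul_comm_eq, commutatorElement_eq_one_iff_mul_comm.mpr (L.econst (hE k hk) x),
        one_mul, ← sq, L.tri.elem _ (hE k hk)])
    refine L.omega _ hx2K ?_
    simpa using hinj _ hx2K
      (commutatorElement_eq_one_iff_mul_comm.mpr ((Commute.refl x).pow_right 2))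
  · obtain ⟨g, hgK, hg⟩ := L.exists_top hself hne
    exact (L.no_top ht hself hgK fun k hk => by
      obtain ⟨m, hm, e⟩ := hg k hk
      exact e ▸ L.pi_mem hm).elim

end LCtx

end Cfsg.Agent.H53.OddAct
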