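import Cfsg.Agent.H53.RudvalisStructure

/-!
# Orders, weak closure and control of transfer in the Rudvalis type configuration
-/

set_option autoImplicit false
set_option linter.style.haveILetI false
set_option linter.unusedSectionVars false
open Subgroup MulAction
open scoped Pointwise

namespace Cfsg.Agent.H53.Rudvalis

variable {G : Type*} [Group G] [Finite G]

namespace Hyp

variable {T W : Subgroup G} {Z : ℕ → Subgroup G} (h : Hyp T W Z)
include h

/-- Subgroups of index at most eight have all the squares among their squares. -/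
theorem fr_eq_of_relIndex {U : Subgroup G} (hU : U ≤ W) (h8 : U.relIndex W ≤ 8) : fr U = fr W := by
  refine le_antisymm (fr_mono hU) fun x hx => ?_
  by_contra hxU
  have hxU' : x ∈ U := h.small U hU (by omega) hx
  obtain ⟨B, hBU, hxB, h2, -, -⟩ := exists_halving_missing (h.isP.to_le (hU.trans h.W_le)) hxU' hxU
  have h3 : B.relIndex U ≤ 2 := by
    rw [relIndex, index_eq_card]
    classical
    haveI := Fintype.ofFinite (U ⧸ B.subgroupOf U)
    rw [Nat.card_eq_fintype_card]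
    refine le_trans (Finset.card_le_card (s := Finset.univ)
      (t := {QuotientGroup.mk 1, QuotientGroup.mk ⟨x, hxU'⟩}) fun q _ => ?_) Finset.card_le_two
    obtain ⟨⟨y, hy⟩, rfl⟩ := QuotientGroup.mk_surjective q
    simp only [Finset.mem_insert, Finset.mem_singleton, QuotientGroup.eq, mem_subgroupOf]
    rcases h2 x hxU' y hy hxB with hyB | hyB
    · left
      simpa using hyB
    · right
      rw [show (((⟨y, hy⟩ : U)⁻¹ * ⟨x, hxU'⟩ : U) : G) = (x⁻¹ * y)⁻¹ by simp]
      exact inv_mem hyB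
  refine hxB (h.small B (hBU.trans hU) ?_ hx)
  rw [← relIndex_mul_relIndex _ _ _ hBU hU]
  calc B.relIndex U * U.relIndex W ≤ 2 * 8 := Nat.mul_le_mul h3 h8
    _ = 16 := rfl

theorem exists_mem_succ {i : ℕ} (hi : i < 4) : ∃ a, a ∈ Z (i + 1) ∧ a ∉ Z i :=
  SetLike.not_le_iff_exists.mp (h.Z_lt hi)

/-- A subgroup above `Z i` with an element outside it in `Z (i + 1)` contains `Z (i + 1)`. -/
theorem Z_succ_le {i : ℕ} (hi : i < 4) {X : Subgroup G} (hX : Z i ≤ X) {a : G} (ha : a ∈ X)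
    (haZ : a ∈ Z (i + 1)) (han : a ∉ Z i) : Z (i + 1) ≤ X := by
  intro z hz
  by_contra hzX
  have h1 := two_mul_card_le (A := Z i) (B := X ⊓ Z (i + 1)) (le_inf hX (h.Z_mono i))
    fun hc => han (hc ⟨ha, haZ⟩)
  have h2 := two_mul_card_le (A := X ⊓ Z (i + 1)) (B := Z (i + 1)) inf_le_right
    fun hc => hzX (hc hz).1
  rw [h.card_Z (by omega)] at h1
  rw [h.card_Z (by omega : i + 1 ≤ 4), pow_succ] at h2
  have := Nat.two_pow_pos i
  omega

/-- The centraliser of the chosen generators is `W`. -/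
theorem mem_W_of_fix {g a b : G} (hg : g ∈ T) (ha : a ∈ Z 2) (ha' : a ∉ Z 1) (hb : b ∈ Z 3)
    (hb' : b ∉ Z 2) (hga : g * a = a * g) (hgb : g * b = b * g) : g ∈ W := by
  refine (h.memW g).mpr ⟨hg, fun z hz => ?_⟩
  let X := centralizer ({g} : Set G)
  have hX1 : Z 1 ≤ X := fun z hz => mem_centralizer_singleton_iff.mpr (by
    have := ((h.step 0 z).mp hz).2 g hg
    rw [h.Z0, mem_bot, mul_inv_eq_one, mul_inv_eq_iff_eq_mul] at this
    exact this)
  have hX2 : Z 2 ≤ X :=
    h.Z_succ_le (i := 1) (by omega) hX1 (mem_centralizer_singleton_iff.mpr hga.symm) ha ha'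
  have hX3 : Z 3 ≤ X :=
    h.Z_succ_le (i := 2) (by omega) hX2 (mem_centralizer_singleton_iff.mpr hgb.symm) hb hb'
  exact (mem_centralizer_singleton_iff.mp (hX3 hz)).symm

/-- The pair of displacements of two generators, on `T / W`. -/
theorem exists_pair_map {a b : G} (ha : a ∈ Z 2) (ha' : a ∉ Z 1) (hb : b ∈ Z 3) (hb' : b ∉ Z 2) :
    ∃ F : T ⧸ W.subgroupOf T → Z 1 × Z 2, Function.Injective F ∧
      ∀ t : T, ((F (QuotientGroup.mk t)).1 : G) = t * a * (t : G)⁻¹ * a⁻¹ ∧
        ((F (QuotientGroup.mk t)).2 : G) = t * b * (t : G)⁻¹ * b⁻¹ := by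
  have hd : ∀ {i : ℕ} {c : G}, c ∈ Z (i + 1) → ∀ t ∈ T, t * c * t⁻¹ * c⁻¹ ∈ Z i := by
    intro i c hc t ht
    have := inv_mem (((h.step i c).mp hc).2 t ht)
    simpa [mul_assoc] using this
  let f : T → Z 1 × Z 2 := fun t => (⟨_, hd ha t t.2⟩, ⟨_, hd hb t t.2⟩)
  have hinv : ∀ t t' : T, t⁻¹ * t' ∈ W.subgroupOf T → f t = f t' := by
    intro t t' hw
    rw [mem_subgroupOf, Subgroup.coe_mul, Subgroup.coe_inv, h.memW] at hw
    have key : ∀ c ∈ Z 3, (t : G) * c * (t : G)⁻¹ * c⁻¹ = t' * c * (t' : G)⁻¹ * c⁻¹ := by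
      intro c hc
      have h1 := hw.2 c hc
      calc (t : G) * c * (t : G)⁻¹ * c⁻¹
          = t * (c * ((t : G)⁻¹ * t')) * (t' : G)⁻¹ * c⁻¹ := by group
        _ = t * (((t : G)⁻¹ * t') * c) * (t' : G)⁻¹ * c⁻¹ := by rw [h1]
        _ = _ := by group
    exact Prod.ext (Subtype.ext (key a (h.Z_mono 2 ha))) (Subtype.ext (key b hb))
  refine ⟨fun q => Quotient.liftOn' q f fun t t' hr => hinv t t' (QuotientGroup.leftRel_apply.mp hr),
    fun q q' => ?_, fun t => ⟨rfl, rfl⟩⟩
  induction q using QuotientGroup.induction_on with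
  | _ t =>
    induction q' using QuotientGroup.induction_on with
    | _ t' =>
      intro e
      have e1 : (t : G) * a * (t : G)⁻¹ * a⁻¹ = t' * a * (t' : G)⁻¹ * a⁻¹ :=
        congrArg (fun p : Z 1 × Z 2 => (p.1 : G)) e
      have e2 : (t : G) * b * (t : G)⁻¹ * b⁻¹ = t' * b * (t' : G)⁻¹ * b⁻¹ :=
        congrArg (fun p : Z 1 × Z 2 => (p.2 : G)) e
      rw [QuotientGroup.eq, mem_subgroupOf, Subgroup.coe_mul, Subgroup.coe_inv]
      have key : ∀ c : G, (t : G) * c * (t : G)⁻¹ * c⁻¹ = t' * c * (t' : G)⁻¹ * c⁻¹ →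
          (t : G)⁻¹ * t' * c = c * ((t : G)⁻¹ * t') := by
        intro c hc
        calc (t : G)⁻¹ * t' * c = (t : G)⁻¹ * (t' * c * (t' : G)⁻¹ * c⁻¹) * c * t' := by group
          _ = (t : G)⁻¹ * (t * c * (t : G)⁻¹ * c⁻¹) * c * t' := by rw [hc]
          _ = _ := by group
      exact h.mem_W_of_fix (mul_mem (inv_mem t.2) t'.2) ha ha' hb hb' (key a e1) (key b e2)

theorem relIndex_W_le : W.relIndex T ≤ 8 := by
  obtain ⟨a, ha, ha'⟩ := h.exists_mem_succ (i := 1) (by omega)
  obtain ⟨b, hb, hb'⟩ := h.exists_mem_succ (i := 2) (by omega)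
  obtain ⟨F, hF, -⟩ := h.exists_pair_map ha ha' hb hb'
  rw [relIndex, index_eq_card]
  refine le_trans (Nat.card_le_card_of_injective F hF) ?_
  rw [Nat.card_prod, h.card_Z (by omega), h.card_Z (by omega)]
  norm_num

/-- The quotient `W / fr W` has order at most `2 ^ |T : W|`. -/
theorem relIndex_fr_le : (fr W).relIndex W ≤ 2 ^ 8 := by
  classical
  by_cases hle : W ≤ fr W
  · rw [relIndex_eq_one.mpr hle]; norm_num
  -- `Z (d + 1)` has the elements fixed modulo `fr W = Z d`
  obtain ⟨d, hd3, hdc⟩ : ∃ d ≤ 3, Nat.card (fr W) = 2 ^ d := by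
    haveI : Fact (Nat.Prime 2) := ⟨Nat.prime_two⟩
    obtain ⟨d, hd⟩ := IsPGroup.iff_card.mp (h.isP.to_le ((fr_le_self W).trans h.W_le))
    exact ⟨d, (Nat.pow_le_pow_iff_right (a := 2) (by omega)).mp (hd ▸ h.cardFr), hd⟩
  have hD : fr W = Z d := eq_of_le_of_card_ge
    (h.le_Z_of_card ((fr_le_self W).trans h.W_le) h.norm_fr d (by omega) hdc.le)
    (by rw [hdc, h.card_Z (by omega)])
  obtain ⟨x₀, hx₀, hx₀n, hx₀t⟩ := h.exists_next h.W_le h.norm_W hle
  obtain ⟨B, hBW, hx₀B, h2, hfB, hnB⟩ := exists_halving_missing (h.isP.to_le h.W_le) hx₀ hx₀n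
  let Kc : Subgroup G :=
    { carrier := {w | w ∈ W ∧ ∀ t ∈ T, t * w * t⁻¹ ∈ B}
      one_mem' := ⟨one_mem W, fun t _ => by simp [one_mem]⟩
      mul_mem' := fun {a b} ha hb => ⟨mul_mem ha.1 hb.1, fun t ht => by
        rw [show t * (a * b) * t⁻¹ = (t * a * t⁻¹) * (t * b * t⁻¹) by group]
        exact mul_mem (ha.2 t ht) (hb.2 t ht)⟩
      inv_mem' := fun {a} ha => ⟨inv_mem ha.1, fun t ht => by
        rw [show t * a⁻¹ * t⁻¹ = (t * a * t⁻¹)⁻¹ by group]
        exact inv_mem (ha.2 t ht)⟩ }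
  have hKc : Kc ≤ fr W := by
    by_contra hne
    obtain ⟨x, hx, hxn, hxt⟩ := h.exists_next (X := Kc) (fun k hk => h.W_le hk.1)
      (fun t ht k hk => ⟨h.norm_W t ht k hk.1, fun s hs => by
        simpa [mul_assoc] using hk.2 (s * t) (mul_mem hs ht)⟩) hne
    rw [hD] at hxt hx₀t hxn hx₀n
    have hxZ : x ∈ Z (d + 1) := (h.step d x).mpr ⟨h.W_le hx.1, hxt⟩
    have hxB : x ∈ B := by simpa using hx.2 1 (one_mem T)
    have hZB : Z d ≤ B := hD ▸ hfB
    refine hx₀B ((h.Z_succ_le (by omega) hZB hxB hxZ hxn) ((h.step d x₀).mpr ⟨h.W_le hx₀, hx₀t⟩))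
  let rep : T ⧸ W.subgroupOf T → T := fun q => q.out
  let F : W ⧸ (fr W).subgroupOf W → (T ⧸ W.subgroupOf T → Bool) := fun v q =>
    decide ((rep q : G) * ((v.out : W) : G) * (rep q : G)⁻¹ ∈ B)
  have hF : Function.Injective F := by
    intro v v' e
    rw [← v.out_eq', ← v'.out_eq', QuotientGroup.eq, mem_subgroupOf, Subgroup.coe_mul, Subgroup.coe_inv]
    refine hKc ⟨mul_mem (inv_mem v.out.2) v'.out.2, fun t ht => ?_⟩
    set q : T ⧸ W.subgroupOf T := QuotientGroup.mk ⟨t, ht⟩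
    have hq : ((rep q : T) : G)⁻¹ * t ∈ W := by
      have := (QuotientGroup.eq (s := W.subgroupOf T)).mp (q.out_eq'.trans rfl : (QuotientGroup.mk (rep q) : T ⧸ W.subgroupOf T) = QuotientGroup.mk ⟨t, ht⟩)
      exact this
    -- conjugates of `B` by `W` equal `B`
    have he := congrFun e q
    simp only [F, decide_eq_decide] at he
    have hW1 : ∀ w ∈ W, (rep q : G) * w * (rep q : G)⁻¹ ∈ W := fun w hw => h.norm_W _ (rep q).2 w hw
    have hcore : (rep q : G) * ((v.out : G)⁻¹ * v'.out) * (rep q : G)⁻¹ ∈ B := by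
      by_cases hv : (rep q : G) * (v.out : G) * (rep q : G)⁻¹ ∈ B
      · have := mul_mem (inv_mem hv) (he.mp hv)
        simpa [mul_assoc] using this
      · rcases h2 _ (hW1 _ v.out.2) _ (hW1 _ v'.out.2) hv with hb | hb
        · exact absurd (he.mpr hb) hv
        · simpa [mul_assoc] using hb
    have hw' : t * (rep q : G)⁻¹ ∈ W := by
      have := h.norm_W _ (rep q).2 _ hq
      simpa [mul_assoc] using this
    have := hnB _ (inv_mem hw') _ hcore
    simpa [mul_assoc] using this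
  rw [relIndex, index_eq_card]
  refine le_trans (Nat.card_le_card_of_injective F hF) ?_
  rw [Nat.card_fun, Nat.card_eq_fintype_card (α := Bool), Fintype.card_bool]
  refine Nat.pow_le_pow_right two_pos ?_
  have := h.relIndex_W_le
  rwa [relIndex, index_eq_card] at this

theorem counts : Nat.card (fr W) = 8 ∧ W.relIndex T = 8 ∧ (fr W).relIndex W = 2 ^ 8 := by
  have h1 := card_mul_relIndex h.W_le
  have h2 := card_mul_relIndex (fr_le_self W)
  have h3 := h.relIndex_W_le
  have h4 := h.relIndex_fr_le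
  have h5 := h.cardFr
  have h6 := h.cardT
  rw [← h1, ← h2] at h6
  have hle : Nat.card (fr W) * (fr W).relIndex W * W.relIndex T ≤ 8 * 2 ^ 8 * 8 :=
    Nat.mul_le_mul (Nat.mul_le_mul h5 h4) h3
  have heq : Nat.card (fr W) * (fr W).relIndex W * W.relIndex T = 8 * 2 ^ 8 * 8 :=
    le_antisymm hle h6
  refine ⟨?_, ?_, ?_⟩ <;> by_contra hne
  · have : Nat.card (fr W) * (fr W).relIndex W * W.relIndex T ≤ 7 * 2 ^ 8 * 8 :=
      Nat.mul_le_mul (Nat.mul_le_mul (by omega) h4) h3
    omega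
  · have : Nat.card (fr W) * (fr W).relIndex W * W.relIndex T ≤ 8 * 2 ^ 8 * 7 :=
      Nat.mul_le_mul (Nat.mul_le_mul h5 h4) (by omega)
    omega
  · have : Nat.card (fr W) * (fr W).relIndex W * W.relIndex T ≤ 8 * (2 ^ 8 - 1) * 8 :=
      Nat.mul_le_mul (Nat.mul_le_mul h5 (by omega)) h3
    omega

theorem fr_eq_Z3 : fr W = Z 3 :=
  eq_of_le_of_card_ge h.fr_le_Z3 (by rw [h.counts.1, h.card_Z (by omega)]; norm_num)

theorem mem_W_iff {g : G} : g ∈ W ↔ g ∈ T ∧ ∀ d ∈ fr W, g * d = d * g := by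
  rw [h.memW, h.fr_eq_Z3]

/-- Every automorphism fixing the flag is induced by `T`. -/
theorem exists_disp {a b : G} (ha : a ∈ Z 2) (ha' : a ∉ Z 1) (hb : b ∈ Z 3) (hb' : b ∉ Z 2)
    {z w : G} (hz : z ∈ Z 1) (hw : w ∈ Z 2) : ∃ t ∈ T, t * a * t⁻¹ = z * a ∧ t * b * t⁻¹ = w * b := by
  obtain ⟨F, hF, hF'⟩ := h.exists_pair_map ha ha' hb hb'
  have hcard : Nat.card (Z 1 × Z 2) ≤ Nat.card (T ⧸ W.subgroupOf T) := by
    rw [← index_eq_card, ← relIndex, h.counts.2.1, Nat.card_prod, h.card_Z (by omega),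
      h.card_Z (by omega)]
    norm_num
  obtain ⟨q, hq⟩ := (hF.bijective_of_nat_card_le hcard).2 (⟨z, hz⟩, ⟨w, hw⟩)
  obtain ⟨t, rfl⟩ := QuotientGroup.mk_surjective q
  obtain ⟨e1, e2⟩ := hF' t
  rw [hq] at e1 e2
  refine ⟨t, t.2, ?_, ?_⟩
  · rw [show z = _ from e1, inv_mul_cancel_right]
  · rw [show w = _ from e2, inv_mul_cancel_right]

/-- A subgroup of `T` with squares in `W` does not cover `T / W`. -/
theorem sq_not_mem : ∃ t ∈ T, t * t ∉ W := by
  obtain ⟨z, hz, hz'⟩ := h.exists_mem_succ (i := 0) (by omega)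
  obtain ⟨a, ha, ha'⟩ := h.exists_mem_succ (i := 1) (by omega)
  obtain ⟨b, hb, hb'⟩ := h.exists_mem_succ (i := 2) (by omega)
  rw [h.Z0, mem_bot] at hz'
  obtain ⟨t, ht, hta, htb⟩ := h.exists_disp ha ha' hb hb' hz ha
  refine ⟨t, ht, fun hW => hz' ?_⟩
  have h1 := ((h.memW _).mp hW).2 b hb
  have haa : a * a = 1 := h.fr_exp_two a (h.fr_eq_Z3 ▸ h.Z_mono 2 ha)
  have e : t * t * b * (t * t)⁻¹ = z * b := by
    calc t * t * b * (t * t)⁻¹ = t * (t * b * t⁻¹) * t⁻¹ := by group
      _ = t * (a * b) * t⁻¹ := by rw [htb]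
      _ = (t * a * t⁻¹) * (t * b * t⁻¹) := by group
      _ = z * (a * a) * b := by rw [hta, htb]; group
      _ = z * b := by rw [haa, mul_one]
  rw [h1, mul_inv_cancel_right] at e
  exact right_eq_mul.mp e

theorem conj_fr (g : G) :
    fr (W.map (MulAut.conj g).toMonoidHom) = (fr W).map (MulAut.conj g).toMonoidHom := by
  apply le_antisymm
  · refine fr_le_iff.mpr ?_
    rintro _ ⟨w, hw, rfl⟩
    exact ⟨w * w, sq_mem_fr hw, map_mul _ _ _⟩
  · rw [map_le_iff_le_comap, fr_le_iff]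
    intro x hx
    rw [Subgroup.mem_comap, map_mul]
    exact sq_mem_fr ⟨x, hx, rfl⟩

/-- A subgroup of index at most sixteen in a conjugate contains the squares of the conjugate. -/
theorem small_conj {g : G} {U : Subgroup G} (hU : U ≤ W.map (MulAut.conj g).toMonoidHom)
    (h16 : U.relIndex (W.map (MulAut.conj g).toMonoidHom) ≤ 16) :
    (fr W).map (MulAut.conj g).toMonoidHom ≤ U := by
  set c := (MulAut.conj g).toMonoidHom
  rw [map_le_iff_le_comap]
  have hc : Function.Injective c := (MulAut.conj g).injective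
  have hle : U.comap c ≤ W := fun x hx => by
    obtain ⟨w, hw, e⟩ := hU hx
    rwa [← hc e]
  refine h.small _ hle ?_
  rwa [relIndex_comap]

/-- Likewise for index at most eight. -/
theorem fr_eq_conj {g : G} {U : Subgroup G} (hU : U ≤ W.map (MulAut.conj g).toMonoidHom)
    (h8 : U.relIndex (W.map (MulAut.conj g).toMonoidHom) ≤ 8) :
    fr U = (fr W).map (MulAut.conj g).toMonoidHom := by
  set c := (MulAut.conj g).toMonoidHom
  have hc : Function.Injective c := (MulAut.conj g).injective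
  have hle : U.comap c ≤ W := fun x hx => by
    obtain ⟨w, hw, e⟩ := hU hx
    rwa [← hc e]
  have e := h.fr_eq_of_relIndex hle (by rwa [relIndex_comap])
  rw [← e]
  apply le_antisymm
  · refine fr_le_iff.mpr fun x hx => ?_
    obtain ⟨w, -, rfl⟩ := hU hx
    exact ⟨w * w, sq_mem_fr (show w ∈ U.comap c from hx), map_mul _ _ _⟩
  · rw [map_le_iff_le_comap, fr_le_iff]
    intro x (hx : c x ∈ U)
    rw [Subgroup.mem_comap, map_mul]
    exact sq_mem_fr hx

theorem card_conj (g : G) (H : Subgroup G) :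
    Nat.card (H.map (MulAut.conj g).toMonoidHom) = Nat.card H :=
  card_map_of_injective (MulAut.conj g).injective

/-- `g` normalises `fr W` if a conjugate of `W` meets `W` in index at most eight. -/
theorem mem_normalizer_of_inter {g : G} {X : Subgroup G} (hXW : X ≤ W)
    (hX : X ≤ W.map (MulAut.conj g).toMonoidHom)
    (h8 : X.relIndex (W.map (MulAut.conj g).toMonoidHom) ≤ 8) :
    g ∈ normalizer (fr W : Set G) := by
  have he : (fr W).map (MulAut.conj g).toMonoidHom = fr W :=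
    eq_of_le_of_card_ge (h.fr_eq_conj hX h8 ▸ fr_mono hXW) (by rw [h.card_conj])
  refine mem_normalizer_iff.mpr fun x => ⟨fun hx => he ▸ ⟨x, hx, rfl⟩, fun hx => ?_⟩
  rw [← he] at hx
  obtain ⟨y, hy, e⟩ := hx
  rwa [← (MulAut.conj g).injective e]

/-- `W` is weakly closed in `T`. -/
theorem weaklyClosed {g : G} (hg : W.map (MulAut.conj g).toMonoidHom ≤ T) :
    W.map (MulAut.conj g).toMonoidHom = W := by
  set Wg := W.map (MulAut.conj g).toMonoidHom with hWg
  refine eq_of_le_of_card_ge ?_ (by rw [h.card_conj])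
  have h8 : (W ⊓ Wg).relIndex Wg ≤ 8 := by
    rw [inf_relIndex_right]
    exact (relIndex_le_of_le_right hg (by rw [h.counts.2.1]; norm_num)).trans h.relIndex_W_le
  have hn := h.mem_normalizer_of_inter (X := W ⊓ Wg) inf_le_left inf_le_right h8
  rintro _ ⟨w, hw, rfl⟩
  refine h.mem_W_iff.mpr ⟨hg ⟨w, hw, rfl⟩, fun d hd => ?_⟩
  have hd' : g⁻¹ * d * g ∈ fr W := by
    simpa using (mem_normalizer_iff.mp (inv_mem hn) d).mp hd
  have hw' := (h.mem_W_iff.mp hw).2 _ hd'
  show g * w * g⁻¹ * d = d * (g * w * g⁻¹)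
  calc g * w * g⁻¹ * d = g * (w * (g⁻¹ * d * g)) * g⁻¹ := by group
    _ = g * ((g⁻¹ * d * g) * w) * g⁻¹ := by rw [hw']
    _ = d * (g * w * g⁻¹) := by group

/-- `N(W) ≤ N(fr W)`. -/
theorem normalizer_le : normalizer (W : Set G) ≤ normalizer (fr W : Set G) := by
  intro g hg
  have he : W.map (MulAut.conj g).toMonoidHom = W := by
    ext x
    constructor
    · rintro ⟨w, hw, rfl⟩
      exact (mem_normalizer_iff.mp hg w).mp hw
    · intro hx
      exact ⟨g⁻¹ * x * g, (mem_normalizer_iff.mp hg _).mpr (by simpa [mul_assoc] using hx), by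
        simp [mul_assoc]⟩
  exact h.mem_normalizer_of_inter (X := W) le_rfl he.ge (by rw [he, relIndex_self]; norm_num)

theorem T_le_normalizer : T ≤ normalizer (fr W : Set G) := fun t ht => mem_normalizer_iff.mpr fun d =>
  ⟨fun hd => h.norm_fr t ht d hd, fun hd => by
    simpa [mul_assoc] using h.norm_fr t⁻¹ (inv_mem ht) _ hd⟩

theorem map_conj_map (a b : G) (H : Subgroup G) :
    (H.map (MulAut.conj b).toMonoidHom).map (MulAut.conj a).toMonoidHom =
      H.map (MulAut.conj (a * b)).toMonoidHom := by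
  rw [map_map]
  refine congrArg (fun f : G →* G => H.map f) ?_
  ext x
  simp [mul_assoc]

open Cfsg.Agent.H20.WCTransfer (term term_mul transfer_eq) in
/-- A hom of `N(fr W)` into an elementary abelian group transfers to itself on `T`. -/
theorem transfer_apply (hS : ¬ 2 ∣ T.index) {A : Type*} [CommGroup A] (hA : ∀ a : A, a * a = 1)
    (χ : (normalizer (fr W : Set G)) →* A) {t : G} (ht : t ∈ T) :
    MonoidHom.transfer χ t = χ ⟨t, h.T_le_normalizer ht⟩ := by
  classical
  haveI : Fact (Nat.Prime 2) := ⟨Nat.prime_two⟩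
  revert χ
  set M := normalizer (fr W : Set G)
  intro χ
  haveI : Fintype (G ⧸ M) := Fintype.ofFinite _
  set i₀ : G ⧸ M := ((1 : G) : G ⧸ M)
  have hfix : ∀ g ∈ T, g • i₀ = i₀ := fun g hg =>
    QuotientGroup.eq.mpr (by simpa using inv_mem (h.T_le_normalizer hg))
  -- the other orbits contribute nothing
  have hbad : ∀ i, i ≠ i₀ → ∏ u ∈ orb T i, term χ t u = 1 := by
    intro i hi
    let R : Subgroup G := W ⊓ stabilizer G i
    refine prod_orbit_eq_one_of_small χ hA h.setup (R := R) (fun g => Iff.rfl) ?_ ht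
    by_contra hno
    push Not at hno
    have hle : R ⊔ fr W ≤ W := sup_le inf_le_left (fr_le_self W)
    have hsame : fr (R ⊔ fr W) ≤ fr R := by
      refine fr_le_iff.mpr fun x hx => ?_
      have hnorm : R ≤ normalizer (fr W : Set G) := fun r hr => h.T_le_normalizer (h.W_le hr.1)
      rw [← SetLike.mem_coe, Subgroup.coe_mul_of_left_le_normalizer_right R _ hnorm] at hx
      obtain ⟨r, hr, d, hd, rfl⟩ := Set.mem_mul.mp hx
      rw [show r * d * (r * d) = r * (d * r) * d by group, h.cent d hd r hr.1,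
        show r * (r * d) * d = r * r * (d * d) by group, h.fr_exp_two d hd, mul_one]
      exact sq_mem_fr hr
    have hDR : fr W ≤ fr R := (h.fr_eq_of_relIndex hle (by omega)).ge.trans hsame
    have hR4 : R.relIndex W ≠ 4 := hno.2 hDR
    have hR8 : R.relIndex W < 8 := by
      have := hno.1
      rwa [sup_eq_left.mpr (hDR.trans (fr_le_self R))] at this
    obtain ⟨k, hk⟩ : ∃ k, R.relIndex W = 2 ^ k := by
      obtain ⟨k, hk⟩ := IsPGroup.iff_card.mp (h.isP.to_le h.W_le)
      obtain ⟨j, -, hj⟩ := (Nat.dvd_prime_pow Nat.prime_two).mp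
        (hk ▸ index_dvd_card (R.subgroupOf W) : (R.subgroupOf W).index ∣ 2 ^ k)
      exact ⟨j, hj⟩
    have hR2 : R.relIndex W ≤ 2 := by
      rcases k with _ | _ | _ | k
      · omega
      · omega
      · omega
      · have : 8 ≤ 2 ^ (k + 3) := by rw [pow_add]; exact Nat.le_mul_of_pos_left 8 (Nat.two_pow_pos k)
        omega
    obtain ⟨g, rfl⟩ := QuotientGroup.mk_surjective i
    -- conjugate `R` into `T`
    have hRM : R.map (MulAut.conj g⁻¹).toMonoidHom ≤ M := by
      rintro _ ⟨r, hr, rfl⟩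
      have h1 : g⁻¹ * (r * g) ∈ M := QuotientGroup.eq.mp (mem_stabilizer_iff.mp hr.2).symm
      simpa [mul_assoc] using h1
    have hRp : IsPGroup 2 (R.map (MulAut.conj g⁻¹).toMonoidHom) :=
      (h.isP.to_le (inf_le_left.trans h.W_le : R ≤ T)).map _
    have hTM : IsPGroup 2 (T.subgroupOf M) := h.isP.comap_of_injective M.subtype M.subtype_injective
    have hidx : ¬ 2 ∣ (T.subgroupOf M).index := fun h2 =>
      hS (h2.trans (relIndex_dvd_index_of_le h.T_le_normalizer))
    obtain ⟨Q, hQ⟩ := (hRp.comap_of_injective M.subtype M.subtype_injective).exists_le_sylow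
    obtain ⟨m, hm⟩ := MulAction.exists_smul_eq M Q (hTM.toSylow hidx)
    set k' : G := (m : G) * g⁻¹ with hk'
    set X := R.map (MulAut.conj k').toMonoidHom with hX
    set Wk := W.map (MulAut.conj k').toMonoidHom with hWk
    have hXT : X ≤ T := by
      rintro _ ⟨r, hr, rfl⟩
      have h3 : (⟨g⁻¹ * r * g, by simpa using hRM ⟨r, hr, rfl⟩⟩ : M) ∈ (Q : Subgroup M) :=
        hQ ⟨r, hr, by simp⟩
      have h4 : m * ⟨g⁻¹ * r * g, _⟩ * m⁻¹ ∈ ((m • Q : Sylow 2 M) : Subgroup M) :=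
        Subgroup.smul_mem_pointwise_smul _ (MulAut.conj m) _ h3
      rw [hm] at h4
      simpa [k', mem_subgroupOf, mul_assoc] using (show _ ∈ T.subgroupOf M from h4)
    have hXWk : X ≤ Wk := Subgroup.map_mono inf_le_left
    have hXrel : X.relIndex Wk ≤ 2 := by
      rw [hX, hWk, relIndex_map_map_of_injective _ _ (MulAut.conj k').injective]
      exact hR2
    -- the squares of the conjugate lie in `W`
    set Y := W ⊓ X with hY
    have hYX : Y.relIndex X ≤ 8 := by
      rw [hY, inf_relIndex_right]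
      exact (relIndex_le_of_le_right hXT (by rw [h.counts.2.1]; norm_num)).trans h.relIndex_W_le
    have hY16 : Y.relIndex Wk ≤ 16 := by
      rw [← relIndex_mul_relIndex _ _ _ (inf_le_right : Y ≤ X) hXWk]
      calc Y.relIndex X * X.relIndex Wk ≤ 8 * 2 := Nat.mul_le_mul hYX hXrel
        _ = 16 := rfl
    have hsqW : ∀ x ∈ X, x * x ∈ W := fun x hx => by
      have h1 : x * x ∈ fr Wk := sq_mem_fr (hXWk hx)
      rw [hWk, h.conj_fr] at h1
      exact (h.small_conj (inf_le_right.trans hXWk) hY16 h1).1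
    -- so `X` does not cover `T / W`
    have hY4 : Y.relIndex X ≤ 4 := by
      by_contra hgt
      push Not at hgt
      obtain ⟨j, -, hj⟩ : ∃ j ≤ 3, Y.relIndex X = 2 ^ j := by
        obtain ⟨e, he⟩ := IsPGroup.iff_card.mp (h.isP.to_le hXT)
        obtain ⟨j, -, hj⟩ := (Nat.dvd_prime_pow Nat.prime_two).mp
          (he ▸ index_dvd_card (Y.subgroupOf X) : (Y.subgroupOf X).index ∣ 2 ^ e)
        refine ⟨j, ?_, hj⟩
        exact (Nat.pow_le_pow_iff_right (a := 2) (by omega)).mp (by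
          rw [← hj]; exact hYX.trans (by norm_num))
      have hY8 : Y.relIndex X = 8 := by
        rcases j with _ | _ | _ | _ | j <;> first | omega | (simp at hj; omega)
      obtain ⟨t, ht, htW⟩ := h.sq_not_mem
      let F : X ⧸ Y.subgroupOf X → T ⧸ W.subgroupOf T := fun q =>
        Quotient.liftOn' q (fun x => QuotientGroup.mk ⟨x, hXT x.2⟩) fun x y hxy => by
          rw [QuotientGroup.leftRel_apply, mem_subgroupOf] at hxy
          exact QuotientGroup.eq.mpr (mem_subgroupOf.mpr hxy.1)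
      have hF : Function.Injective F := by
        intro q q'
        induction q using QuotientGroup.induction_on with
        | _ x =>
          induction q' using QuotientGroup.induction_on with
          | _ y =>
            intro e
            have := mem_subgroupOf.mp (QuotientGroup.eq.mp e)
            exact QuotientGroup.eq.mpr (mem_subgroupOf.mpr ⟨this, X.mul_mem (X.inv_mem x.2) y.2⟩)
      obtain ⟨q, hq⟩ := (hF.bijective_of_nat_card_le (by
        rw [← index_eq_card, ← index_eq_card, ← relIndex, ← relIndex, hY8, h.counts.2.1])).2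
        (QuotientGroup.mk ⟨t, ht⟩)
      obtain ⟨x, rfl⟩ := QuotientGroup.mk_surjective q
      have hw : (x : G)⁻¹ * t ∈ W := mem_subgroupOf.mp (QuotientGroup.eq.mp hq)
      refine htW ?_
      have hconj : (x : G)⁻¹ * ((x : G)⁻¹ * t) * x ∈ W := by
        simpa using h.norm_W _ (inv_mem (hXT x.2)) _ hw
      rw [show t * t = (x : G) * x * ((x : G)⁻¹ * ((x : G)⁻¹ * t) * x) * ((x : G)⁻¹ * t) by group]
      exact mul_mem (mul_mem (hsqW x x.2) hconj) hw
    have hk'M : k' ∈ M := by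
      refine h.mem_normalizer_of_inter (X := Y) inf_le_left (inf_le_right.trans hXWk) ?_
      rw [← relIndex_mul_relIndex _ _ _ (inf_le_right : Y ≤ X) hXWk]
      calc Y.relIndex X * X.relIndex Wk ≤ 4 * 2 := Nat.mul_le_mul hY4 hXrel
        _ = 8 := rfl
    refine hi (QuotientGroup.eq.mpr ?_)
    have hg : g⁻¹ ∈ M := by simpa [k'] using mul_mem (inv_mem m.2) hk'M
    simpa using hg
  -- the partition into orbits
  rw [transfer_eq]
  have hall : ∀ U : Finset (G ⧸ M), (∀ g ∈ T, ∀ u ∈ U, g • u ∈ U) → i₀ ∉ U →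
      ∏ u ∈ U, term χ t u = 1 := by
    intro U
    induction U using Finset.strongInduction with
    | _ U ih =>
    intro hU h1U
    by_cases hne : U.Nonempty
    · obtain ⟨i, hiU⟩ := hne
      have hO : orb T i ⊆ U := fun u hu => by
        obtain ⟨g, hg, rfl⟩ := mem_orb.mp hu
        exact hU g hg i hiU
      rw [← Finset.prod_sdiff hO, hbad i (fun e => h1U (e ▸ hiU)), mul_one]
      refine ih _ (Finset.sdiff_ssubset hO ⟨i, self_mem_orb T i⟩) (fun g hg u hu => ?_)
        fun hc => h1U (Finset.mem_sdiff.mp hc).1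
      obtain ⟨hu1, hu2⟩ := Finset.mem_sdiff.mp hu
      refine Finset.mem_sdiff.mpr ⟨hU g hg u hu1, fun hc => hu2 ?_⟩
      obtain ⟨k, hk, e⟩ := mem_orb.mp hc
      exact mem_orb.mpr ⟨g⁻¹ * k, mul_mem (inv_mem hg) hk, by rw [mul_smul, e, inv_smul_smul]⟩
    · rw [Finset.not_nonempty_iff_eq_empty.mp hne, Finset.prod_empty]
  rw [← Finset.mul_prod_erase Finset.univ _ (Finset.mem_univ i₀),
    hall _ (fun g hg u hu => Finset.mem_erase.mpr ⟨fun e => (Finset.mem_erase.mp hu).1 (by
      rw [← inv_smul_smul g u, e]; exact hfix _ (inv_mem hg)), Finset.mem_univ _⟩)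
      (Finset.notMem_erase _ _), mul_one, term]
  set o := i₀.out
  have ho : o ∈ M := by
    obtain ⟨n, hn⟩ := QuotientGroup.mk_out_eq_mul M (1 : G)
    show ((1 : G) : G ⧸ M).out ∈ M
    rw [hn, one_mul]
    exact n.2
  have e : (⟨(t • i₀).out⁻¹ * (t * o), by
      rw [hfix t ht]; exact mul_mem (inv_mem ho) (mul_mem (h.T_le_normalizer ht) ho)⟩ : M) =
      (⟨o, ho⟩ : M)⁻¹ * ⟨t, h.T_le_normalizer ht⟩ * ⟨o, ho⟩ :=
    Subtype.ext (by simp [hfix t ht, o, mul_assoc])
  rw [show χ _ = χ ((⟨o, ho⟩ : M)⁻¹ * ⟨t, h.T_le_normalizer ht⟩ * ⟨o, ho⟩) from congrArg χ e, map_mul,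
    map_mul, map_inv, mul_comm (χ ⟨o, ho⟩)⁻¹, inv_mul_cancel_right]

/-- If `G` has no subgroup of index two, neither has `N(fr W)`. -/
theorem normalizer_index_ne_two (hS : ¬ 2 ∣ T.index) (h2 : ∀ H : Subgroup G, H.index ≠ 2)
    (K : Subgroup (normalizer (fr W : Set G))) : K.index ≠ 2 := by
  classical
  revert K
  set M := normalizer (fr W : Set G)
  intro K hK
  haveI : K.Normal := normal_of_index_eq_two hK
  haveI : Fact (Nat.Prime 2) := ⟨Nat.prime_two⟩
  have hq : Nat.card (M ⧸ K) = 2 := by rw [← index_eq_card, hK]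
  haveI : IsCyclic (M ⧸ K) := isCyclic_of_prime_card hq
  let e : M ⧸ K ≃* Multiplicative (ZMod 2) := mulEquivOfCyclicCardEq
    (hq.trans (by rw [Nat.card_congr Multiplicative.toAdd, Nat.card_zmod]))
  let χ : M →* Multiplicative (ZMod 2) := e.toMonoidHom.comp (QuotientGroup.mk' K)
  obtain ⟨t, ht, htK⟩ : ∃ t, ∃ ht : t ∈ T, (⟨t, h.T_le_normalizer ht⟩ : M) ∉ K := by
    by_contra hno
    push Not at hno
    have h3 : T.subgroupOf M ≤ K := fun x hx => hno x.1 hx
    refine hS ((dvd_trans ?_ (index_dvd_of_le h3)).trans (relIndex_dvd_index_of_le h.T_le_normalizer))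
    rw [hK]
  let V : G →* Multiplicative (ZMod 2) := MonoidHom.transfer χ
  have hA : ∀ a : Multiplicative (ZMod 2), a * a = 1 := fun a => Multiplicative.toAdd.injective (CharTwo.add_self_eq_zero a.toAdd)
  have hVt : V t ≠ 1 := by
    show MonoidHom.transfer χ t ≠ 1
    rw [h.transfer_apply hS hA χ ht]
    intro h1
    exact htK ((QuotientGroup.eq_one_iff _).mp (e.injective (h1.trans (map_one e).symm)))
  refine h2 V.ker ?_
  rw [index_ker]
  haveI : Fact (Nat.card (Multiplicative (ZMod 2))).Prime := ⟨by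
    rw [Nat.card_congr Multiplicative.toAdd, Nat.card_zmod]; exact Nat.prime_two⟩
  rcases V.range.eq_bot_or_eq_top_of_prime_card with hr | hr
  · exfalso
    have : V t ∈ V.range := ⟨t, rfl⟩
    rw [hr, mem_bot] at this
    exact hVt this
  · rw [hr, card_top, Nat.card_congr Multiplicative.toAdd, Nat.card_zmod]

end Hyp

end Cfsg.Agent.H53.Rudvalis
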