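import Cfsg.Agent.H53.RudvalisLinear

/-!
# An odd group normalised by `GL₃(2)` on a space of dimension eight with one fixed point
-/

set_option autoImplicit false
set_option linter.style.haveILetI false
set_option linter.unusedSectionVars false
open Subgroup
open scoped Pointwise

namespace Cfsg.Agent.H53.Rudvalis

theorem card_cases {r n : ℕ} (hr : r.Prime) (hn : 2 ≤ n)
    (h : r ^ n ∣ 3 ^ 5 * (5 ^ 2 * (7 ^ 2 * (17 * (31 * 127))))) :
    (r = 3 ∧ n ≤ 5) ∨ (r = 5 ∧ n = 2) ∨ (r = 7 ∧ n = 2) := by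
  have hr2 : r ^ 2 ∣ 3 ^ 5 * (5 ^ 2 * (7 ^ 2 * (17 * (31 * 127)))) := (pow_dvd_pow r hn).trans h
  have h1 : r ∣ 3 ^ 5 * (5 ^ 2 * (7 ^ 2 * (17 * (31 * 127)))) := (dvd_pow_self r two_ne_zero).trans hr2
  have hle : ∀ p m : ℕ, r = p → ¬ p ^ (m + 1) ∣ 3 ^ 5 * (5 ^ 2 * (7 ^ 2 * (17 * (31 * 127)))) →
      n ≤ m := fun p m e hno => by
    by_contra hlt
    exact hno (e ▸ (pow_dvd_pow r (show m + 1 ≤ n by omega)).trans h)
  have cases : r = 3 ∨ r = 5 ∨ r = 7 ∨ r = 17 ∨ r = 31 ∨ r = 127 := by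
    rcases hr.dvd_mul.mp h1 with h | h
    · exact Or.inl ((Nat.prime_dvd_prime_iff_eq hr (by norm_num)).mp (hr.dvd_of_dvd_pow h))
    rcases hr.dvd_mul.mp h with h | h
    · exact Or.inr (Or.inl ((Nat.prime_dvd_prime_iff_eq hr (by norm_num)).mp (hr.dvd_of_dvd_pow h)))
    rcases hr.dvd_mul.mp h with h | h
    · exact Or.inr (Or.inr (Or.inl ((Nat.prime_dvd_prime_iff_eq hr (by norm_num)).mp (hr.dvd_of_dvd_pow h))))
    rcases hr.dvd_mul.mp h with h | h
    · exact Or.inr (Or.inr (Or.inr (Or.inl ((Nat.prime_dvd_prime_iff_eq hr (by norm_num)).mp h))))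
    rcases hr.dvd_mul.mp h with h | h
    · exact Or.inr (Or.inr (Or.inr (Or.inr (Or.inl ((Nat.prime_dvd_prime_iff_eq hr (by norm_num)).mp h)))))
    · exact Or.inr (Or.inr (Or.inr (Or.inr (Or.inr ((Nat.prime_dvd_prime_iff_eq hr (by norm_num)).mp h)))))
  rcases cases with e | e | e | e | e | e
  · exact Or.inl ⟨e, hle 3 5 e (by norm_num)⟩
  · exact Or.inr (Or.inl ⟨e, le_antisymm (hle 5 2 e (by norm_num)) hn⟩)
  · exact Or.inr (Or.inr ⟨e, le_antisymm (hle 7 2 e (by norm_num)) hn⟩)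
  all_goals subst e; norm_num at hr2

theorem gl_comm_of_le_one {K : Type*} [Field K] {n : ℕ} (hn : n ≤ 1) (a b : GL (Fin n) K) :
    a * b = b * a := by
  haveI : Subsingleton (Fin n) := Fin.subsingleton_iff_le_one.mpr hn
  refine Units.ext (Matrix.ext fun i j => ?_)
  rw [Units.val_mul, Units.val_mul, Matrix.mul_apply, Matrix.mul_apply]
  refine Finset.sum_congr rfl fun k _ => ?_
  rw [Subsingleton.elim k i, Subsingleton.elim j i, mul_comm]

theorem two_ne_zero_seven : (2 : ZMod 7) ≠ 0 := by decide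

/-- The odd normal subgroup with quotient of order 168 acts trivially. -/
theorem odd_le_ker {H V : Type*} [Group H] [Finite H] [CommGroup V] [Finite V]
    (h2 : ∀ v : V, v * v = 1) (hV : Nat.card V = 2 ^ 8) (π : H →* MulAut V) (A : Subgroup H)
    [A.Normal] (hA : Odd (Nat.card A)) (hS : IsSimpleGroup (H ⧸ A)) (hq : Nat.card (H ⧸ A) = 168)
    (P : Subgroup H) (hP : Nat.card P = 8)
    (hinv : ∃ x ∈ P, ∃ y ∈ P, x ≠ 1 ∧ y ≠ 1 ∧ x ≠ y ∧ x * x = 1 ∧ y * y = 1)
    (hfix : ∀ v w : V, (∀ g ∈ P, π g v = v) → (∀ g ∈ P, π g w = w) → v ≠ 1 → w ≠ 1 → v = w) :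
    A ≤ π.ker := by
  classical
  by_contra hne
  haveI : Fact (Nat.Prime 2) := ⟨Nat.prime_two⟩
  have hmap : A.map π ≠ ⊥ := fun h => hne fun a ha => by
    have : π a ∈ A.map π := ⟨a, ha, rfl⟩
    rwa [h, mem_bot] at this
  have hc1 : Nat.card (A.map π) ≠ 1 := fun h => hmap (card_eq_one.mp h)
  obtain ⟨r, hr, hrdvd⟩ := Nat.exists_prime_and_dvd hc1
  haveI : Fact r.Prime := ⟨hr⟩
  have hodd2 : Odd (Nat.card (A.map π)) := hA.of_dvd_nat (card_map_dvd _ _)
  -- a Sylow subgroup of `A` normalised by `P`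
  let R₀ : Sylow r A := default
  have hR₀p : IsPGroup r ((R₀ : Subgroup A).map A.subtype) := R₀.2.map _
  have hfr : normalizer (((R₀ : Subgroup A).map A.subtype : Subgroup H) : Set H) ⊔ A = ⊤ :=
    Sylow.normalizer_sup_eq_top R₀
  set N₀ := normalizer (((R₀ : Subgroup A).map A.subtype : Subgroup H) : Set H)
  have h8 : 2 ^ 3 ∣ Nat.card N₀ := by
    have hsurj : Function.Surjective ((QuotientGroup.mk' A).comp N₀.subtype) := by
      intro q
      obtain ⟨x, rfl⟩ := QuotientGroup.mk_surjective q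
      have hx : x ∈ (↑(N₀ ⊔ A) : Set H) := by rw [hfr]; exact mem_top x
      rw [Subgroup.coe_mul_of_left_le_normalizer_right N₀ A (by rw [normalizer_eq_top]; exact le_top)] at hx
      obtain ⟨n, hn, a, ha, rfl⟩ := Set.mem_mul.mp hx
      exact ⟨⟨n, hn⟩, QuotientGroup.eq.mpr (by rw [coe_subtype, inv_mul_cancel_left]; exact ha)⟩
    have := card_dvd_of_surjective _ hsurj
    rw [hq] at this
    exact (show 2 ^ 3 ∣ 168 by norm_num).trans this
  obtain ⟨Q, hQ⟩ := Sylow.exists_subgroup_card_pow_prime 2 h8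
  have hHcard : Nat.card H = 168 * Nat.card A := by
    rw [← hq]; exact card_eq_card_quotient_mul_card_subgroup A
  have hsyl : ∀ X : Subgroup H, Nat.card X = 8 → IsPGroup 2 X ∧ ¬ 2 ∣ X.index := fun X hX => by
    refine ⟨IsPGroup.of_card (n := 3) hX, fun hd => ?_⟩
    have := X.card_mul_index
    rw [hX, hHcard] at this
    obtain ⟨j, hj⟩ := hd
    obtain ⟨i, hi⟩ := hA
    omega
  have hQ' : Nat.card (Q.map N₀.subtype) = 8 := by
    rw [card_map_of_injective N₀.subtype_injective, hQ]; norm_num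
  obtain ⟨g, hg⟩ := MulAction.exists_smul_eq H ((hsyl _ hQ').1.toSylow (hsyl _ hQ').2)
    ((hsyl P hP).1.toSylow (hsyl P hP).2)
  set R : Subgroup H := ((R₀ : Subgroup A).map A.subtype).map (MulAut.conj g).toMonoidHom with hR
  have hPN : P ≤ normalizer (R : Set H) := by
    intro p hp
    have hp' : p ∈ ((g • (hsyl _ hQ').1.toSylow (hsyl _ hQ').2 : Sylow 2 H) : Subgroup H) := by
      rw [hg]; exact hp
    obtain ⟨q, hq', rfl⟩ := hp'
    obtain ⟨⟨q, hqN⟩, -, rfl⟩ := hq'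
    refine mem_normalizer_iff.mpr fun x => ?_
    show x ∈ R ↔ g * q * g⁻¹ * x * (g * q * g⁻¹)⁻¹ ∈ R
    have hn := mem_normalizer_iff.mp hqN (g⁻¹ * x * g)
    constructor
    · rintro ⟨y, hy, rfl⟩
      refine ⟨q * y * q⁻¹, (mem_normalizer_iff.mp hqN y).mp hy, ?_⟩
      simp [mul_assoc]
    · rintro ⟨y, hy, e⟩
      have : g⁻¹ * x * g ∈ (R₀ : Subgroup A).map A.subtype := hn.mpr (by
        have e' : g * y * g⁻¹ = g * q * g⁻¹ * x * (g * q * g⁻¹)⁻¹ := e
        have : y = q * (g⁻¹ * x * g) * q⁻¹ := by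
          calc y = g⁻¹ * (g * y * g⁻¹) * g := by group
            _ = _ := by rw [e']; group
        rwa [this] at hy)
      exact ⟨_, this, by simp [mul_assoc]⟩
  have hRA : R ≤ A := by
    rintro _ ⟨_, ⟨a, -, rfl⟩, rfl⟩
    exact ‹A.Normal›.conj_mem _ a.2 g
  have hRp : IsPGroup r R := hR₀p.map _
  have hRπ : R.map π ≠ ⊥ := by
    intro h
    have h0 : ((R₀ : Subgroup A).map A.subtype).map π = ⊥ := by
      rw [eq_bot_iff]
      rintro _ ⟨x, hx, rfl⟩
      have : π (g * x * g⁻¹) ∈ R.map π := ⟨_, ⟨x, hx, rfl⟩, rfl⟩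
      rw [h, mem_bot, map_mul, map_mul, map_inv, mul_inv_eq_one, mul_eq_left] at this
      exact mem_bot.mpr this
    have hsyl' : (R₀.mapSurjective (f := (π.comp A.subtype).rangeRestrict)
        (MonoidHom.rangeRestrict_surjective _) : Subgroup (π.comp A.subtype).range) = ⊥ := by
      rw [eq_bot_iff]
      rintro _ ⟨x, hx, rfl⟩
      refine mem_bot.mpr (Subtype.ext ?_)
      have : π (x : H) ∈ ((R₀ : Subgroup A).map A.subtype).map π := ⟨_, ⟨x, hx, rfl⟩, rfl⟩
      rw [h0, mem_bot] at this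
      exact this
    have hidx := Sylow.not_dvd_index (R₀.mapSurjective (f := (π.comp A.subtype).rangeRestrict)
        (MonoidHom.rangeRestrict_surjective _))
    rw [hsyl', index_bot, MonoidHom.range_comp, range_subtype] at hidx
    exact hidx hrdvd
  -- the central elements of order `r`
  set R' := R.map π with hR'
  have hR'p : IsPGroup r R' := hRp.map _
  let E : Subgroup (MulAut V) :=
    { carrier := {x | x ∈ R' ∧ x ^ r = 1 ∧ ∀ y ∈ R', y * x = x * y}
      one_mem' := ⟨one_mem _, one_pow _, fun y _ => by rw [mul_one, one_mul]⟩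
      mul_mem' := fun {a b} ha hb => ⟨mul_mem ha.1 hb.1, by
        rw [(show Commute a b from hb.2.2 a ha.1).mul_pow, ha.2.1, hb.2.1, one_mul],
        fun y hy => by rw [← mul_assoc, ha.2.2 y hy, mul_assoc, hb.2.2 y hy, mul_assoc]⟩
      inv_mem' := fun {a} ha => ⟨inv_mem ha.1, by rw [inv_pow, ha.2.1, inv_one],
        fun y hy => ((show Commute y a from ha.2.2 y hy).inv_right).eq⟩ }
  have hEne : E ≠ ⊥ := by
    haveI : Nontrivial R' := (nontrivial_iff_ne_bot R').mpr hRπ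
    haveI := hR'p.center_nontrivial
    have hd : r ∣ Nat.card (center R') :=
      ((hR'p.to_subgroup _).card_eq_or_dvd).resolve_left fun hc =>
        (one_lt_card_iff_ne_bot _).mpr ((nontrivial_iff_ne_bot _).mp inferInstance) |>.ne' hc
    obtain ⟨z, hz⟩ := exists_prime_orderOf_dvd_card' r hd
    intro hbot
    have hzE : ((z : R') : MulAut V) ∈ E := ⟨z.1.2, by
      rw [← hz]
      exact congrArg (fun w : center R' => ((w : R') : MulAut V)) (pow_orderOf_eq_one z),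
      fun y hy => congrArg Subtype.val (mem_center_iff.mp z.2 ⟨y, hy⟩)⟩
    rw [hbot, mem_bot] at hzE
    have : z = 1 := Subtype.ext (Subtype.ext hzE)
    rw [this, orderOf_one] at hz
    exact hr.one_lt.ne hz
  letI : CommGroup E :=
    { (inferInstance : Group E) with mul_comm := fun a b => Subtype.ext (b.2.2.2 a a.2.1) }
  -- the normaliser acts on it
  set H₁ := normalizer (R : Set H)
  have hH₁E : H₁.map π ≤ normalizer (E : Set (MulAut V)) := by
    rintro _ ⟨x, hx, rfl⟩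
    have hR'inv : ∀ y, y ∈ H₁ → ∀ v ∈ R', π y * v * (π y)⁻¹ ∈ R' := by
      rintro y hy _ ⟨z, hz, rfl⟩
      exact ⟨y * z * y⁻¹, (mem_normalizer_iff.mp hy z).mp hz, by simp⟩
    have key : ∀ y ∈ H₁, ∀ v ∈ E, π y * v * (π y)⁻¹ ∈ E := fun y hy v hv =>
      ⟨hR'inv y hy v hv.1, by rw [conj_pow, hv.2.1, mul_one, mul_inv_cancel], fun w hw => by
        have h1 : (π y)⁻¹ * w * π y ∈ R' := by simpa using hR'inv y⁻¹ (inv_mem hy) w hw
        have h2 := hv.2.2 _ h1
        calc w * (π y * v * (π y)⁻¹) = π y * (((π y)⁻¹ * w * π y) * v) * (π y)⁻¹ := by group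
          _ = π y * (v * ((π y)⁻¹ * w * π y)) * (π y)⁻¹ := by rw [h2]
          _ = _ := by group⟩
    refine mem_normalizer_iff.mpr fun v => ⟨key x hx v, fun hv => ?_⟩
    simpa [mul_assoc] using key x⁻¹ (inv_mem hx) _ hv
  let ρ : H₁ →* MulAut E := E.normalizerMonoidHom.comp
    ((π.comp H₁.subtype).codRestrict _ fun x => hH₁E ⟨x, x.2, rfl⟩)
  have hρv : ∀ (x : H₁) (v : E), ((ρ x v : E) : MulAut V) = π x * v * (π x)⁻¹ := fun x v => rfl
  let q : H₁ →* H ⧸ A := (QuotientGroup.mk' A).comp H₁.subtype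
  have hqs : Function.Surjective q := by
    intro z
    obtain ⟨x, rfl⟩ := QuotientGroup.mk_surjective z
    have hx : g⁻¹ * x * g ∈ (↑(N₀ ⊔ A) : Set H) := by rw [hfr]; exact mem_top _
    rw [Subgroup.coe_mul_of_left_le_normalizer_right N₀ A (by rw [normalizer_eq_top]; exact le_top)] at hx
    obtain ⟨n, hn, a, ha, hna⟩ := Set.mem_mul.mp hx
    have hgn : g * n * g⁻¹ ∈ H₁ := by
      refine mem_normalizer_iff.mpr fun y => ?_
      constructor
      · rintro ⟨z, hz, rfl⟩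
        exact ⟨n * z * n⁻¹, (mem_normalizer_iff.mp hn z).mp hz, by simp [mul_assoc]⟩
      · rintro ⟨z, hz, e⟩
        refine ⟨n⁻¹ * z * n, by have h' := (mem_normalizer_iff.mp (inv_mem hn) z).mp hz; rwa [inv_inv] at h', ?_⟩
        have e' : g * z * g⁻¹ = g * n * g⁻¹ * y * (g * n * g⁻¹)⁻¹ := e
        show g * (n⁻¹ * z * n) * g⁻¹ = y
        calc g * (n⁻¹ * z * n) * g⁻¹
            = (g * n * g⁻¹)⁻¹ * (g * z * g⁻¹) * (g * n * g⁻¹) := by group
          _ = y := by rw [e']; group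
    refine ⟨⟨_, hgn⟩, QuotientGroup.eq.mpr ?_⟩
    show (g * n * g⁻¹)⁻¹ * x ∈ A
    rw [show (g * n * g⁻¹)⁻¹ * x = g * (n⁻¹ * (g⁻¹ * x * g)) * g⁻¹ by group, ← hna,
      inv_mul_cancel_left]
    exact ‹A.Normal›.conj_mem a ha g
  have hA₁ : Odd (Nat.card q.ker) := by
    refine hA.of_dvd_nat (card_dvd_of_injective
      ({ toFun := fun x => ⟨(x.1 : H), (QuotientGroup.eq_one_iff _).mp x.2⟩
         map_one' := rfl
         map_mul' := fun _ _ => rfl } : q.ker →* A)
      fun x y e => Subtype.ext (Subtype.ext (congrArg (fun z : A => (z : H)) e)))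
  -- a hom of `H₁` with kernel not in `A` kills `P`
  have hkill : ∀ (K : Subgroup H₁) [K.Normal], ¬ K ≤ q.ker →
      ∀ p (hp : p ∈ P), (⟨p, hPN hp⟩ : H₁) ∈ K := by
    intro K _ hK p hp
    rw [← QuotientGroup.eq_one_iff (N := K)]
    set f := QuotientGroup.mk' K
    have hf : ¬ f.ker ≤ q.ker := by rwa [QuotientGroup.ker_mk']
    show f ⟨p, hPN hp⟩ = 1
    haveI := hS
    have htop : f.ker.map q = ⊤ := by
      refine ((Subgroup.Normal.map (MonoidHom.normal_ker f) q hqs).eq_bot_or_eq_top).resolve_left fun h => hf ?_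
      intro x hx
      have : q x ∈ f.ker.map q := ⟨x, hx, rfl⟩
      rwa [h, mem_bot] at this
    have hrange : f.range = q.ker.map f := by
      refine le_antisymm ?_ (map_le_range _ _)
      rintro _ ⟨x, rfl⟩
      obtain ⟨k, hk, e⟩ : q x ∈ f.ker.map q := by rw [htop]; exact mem_top _
      refine ⟨k⁻¹ * x, ?_, by rw [map_mul, map_inv, (show f k = 1 from hk), inv_one, one_mul]⟩
      rw [SetLike.mem_coe, MonoidHom.mem_ker, map_mul, map_inv, e, inv_mul_cancel]
    have ho : Odd (Nat.card f.range) := hrange ▸ hA₁.of_dvd_nat (card_map_dvd _ _)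
    haveI : Finite f.range := Nat.finite_of_card_ne_zero (by obtain ⟨i, hi⟩ := ho; omega)
    rw [← orderOf_eq_one_iff]
    refine Nat.eq_one_of_dvd_coprimes (a := 8) (b := Nat.card f.range) ?_ ?_ ?_
    · have h2odd := ho.not_two_dvd_nat
      exact Nat.Coprime.pow_left 3 ((Nat.prime_two.coprime_iff_not_dvd).mpr h2odd)
    · refine (orderOf_map_dvd f _).trans ?_
      rw [← Subgroup.orderOf_coe (⟨p, hPN hp⟩ : H₁)]
      have := orderOf_dvd_natCard (⟨p, hp⟩ : P)
      rwa [hP, ← Subgroup.orderOf_coe] at this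
    · have := orderOf_dvd_natCard (⟨f ⟨p, hPN hp⟩, ⟨_, rfl⟩⟩ : f.range)
      rwa [← Subgroup.orderOf_coe] at this
  by_cases hk : ρ.ker ≤ q.ker
  swap
  · -- `P` centralises `E`
    refine hEne ((eq_bot_iff_forall E).mpr fun φ hφ => ?_)
    have hPp : IsPGroup 2 (P.map π) := (hsyl P hP).1.map π
    refine eq_one_of_commute h2 (P.map π) hPp (fun v w hv hw => hfix v w
      (fun p hp => hv _ ⟨p, hp, rfl⟩) (fun p hp => hw _ ⟨p, hp, rfl⟩)) ?_ ?_
    · exact hodd2.of_dvd_nat ((orderOf_dvd_of_pow_eq_one hφ.2.1).trans hrdvd)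
    · rintro _ ⟨p, hp, rfl⟩
      have h1 := hρv ⟨p, hPN hp⟩ ⟨φ, hφ⟩
      rw [show ρ ⟨p, hPN hp⟩ = 1 from hkill ρ.ker hk p hp, MulAut.one_apply] at h1
      exact (mul_inv_eq_iff_eq_mul.mp h1.symm)
  -- `H/A` is a section of the automorphisms of `E`
  have hEr : ∀ x : E, x ^ r = 1 := fun x => Subtype.ext x.2.2.1
  obtain ⟨n, hn⟩ : ∃ n, Nat.card E = r ^ n := IsPGroup.iff_card.mp (hR'p.to_le fun x hx => hx.1)
  obtain ⟨eV⟩ := nonempty_mulEquiv_GL (D := V) (p := 2) (n := 8) (fun v => by rw [sq, h2]) hV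
  have hbound : r ^ n ∣ 3 ^ 5 * (5 ^ 2 * (7 ^ 2 * (17 * (31 * 127)))) := by
    have h1 : r ^ n ∣ Nat.card (MulAut V) := hn ▸ card_subgroup_dvd_card E
    rw [Nat.card_congr eV.toEquiv, Matrix.card_GL_field, ZMod.card] at h1
    rw [show (∏ i : Fin 8, (2 ^ 8 - 2 ^ (i : ℕ))) =
      2 ^ 28 * (3 ^ 5 * (5 ^ 2 * (7 ^ 2 * (17 * (31 * 127))))) by
        simp [Fin.prod_univ_eight]] at h1
    refine (Nat.Coprime.pow _ _ ((Nat.coprime_primes hr Nat.prime_two).mpr ?_)).dvd_of_dvd_mul_left h1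
    rintro rfl
    exact hodd2.not_two_dvd_nat hrdvd
  have hfac : ∀ x y : H₁, ρ x = ρ y → q x = q y := fun x y e => by
    have h1 : x⁻¹ * y ∈ q.ker := hk (by rw [MonoidHom.mem_ker, map_mul, map_inv, e, inv_mul_cancel])
    rw [MonoidHom.mem_ker, map_mul, map_inv, inv_mul_eq_one] at h1
    exact h1
  have hncomm : ¬ ∀ x y : H₁, q x * q y = q y * q x := by
    intro hall
    haveI := hS
    letI : CommGroup (H ⧸ A) := { (inferInstance : Group (H ⧸ A)) with
      mul_comm := fun a b => by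
        obtain ⟨x, rfl⟩ := hqs a
        obtain ⟨y, rfl⟩ := hqs b
        exact hall x y }
    have hp : (Nat.card (H ⧸ A)).Prime := IsSimpleGroup.prime_card (α := H ⧸ A)
    rw [hq] at hp
    norm_num at hp
  have h7 : 7 ∣ Nat.card (MulAut E) := by
    refine dvd_trans ?_ (card_subgroup_dvd_card ρ.range)
    rw [← index_ker]
    refine dvd_trans ?_ (index_dvd_of_le hk)
    rw [index_ker, MonoidHom.range_eq_top.mpr hqs, card_top, hq]
    norm_num
  have hcomm_case : n ≤ 1 → False := fun hn1 => hncomm fun x y => by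
    obtain ⟨e⟩ := nonempty_mulEquiv_GL hEr hn
    rw [← map_mul, ← map_mul]
    refine hfac _ _ (e.injective ?_)
    rw [map_mul, map_mul, map_mul, map_mul]
    exact gl_comm_of_le_one hn1 _ _
  rcases Nat.lt_or_ge n 2 with hn1 | hn2
  · exact hcomm_case (by omega)
  rcases card_cases hr hn2 hbound with ⟨rfl, hn5⟩ | ⟨rfl, rfl⟩ | ⟨rfl, rfl⟩
  · refine not_seven_dvd_mulAut hEr hn ?_ h7
    interval_cases n <;> simp [Fin.prod_univ_succ]
  · refine not_seven_dvd_mulAut hEr hn ?_ h7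
    simp [Fin.prod_univ_succ]
  · -- dimension two over seven: one involution of determinant one
    obtain ⟨e⟩ := nonempty_mulEquiv_GL hEr hn
    let d : H₁ →* (ZMod 7)ˣ := Matrix.GeneralLinearGroup.det.comp (e.toMonoidHom.comp ρ)
    have hd : ¬ d.ker ≤ q.ker := fun hle => hncomm fun x y => by
      have hc : d (x * y * (y * x)⁻¹) = 1 := by
        rw [map_mul, map_inv, map_mul, map_mul, mul_comm (d y), mul_inv_cancel]
      have := hle hc
      rw [MonoidHom.mem_ker, map_mul, map_inv, map_mul, map_mul, mul_inv_eq_one] at this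
      exact this
    obtain ⟨x, hx, y, hy, hx1, hy1, hxy, hxx, hyy⟩ := hinv
    have hinA : ∀ p ∈ P, p ∈ A → p = 1 := fun p hp hpA => by
      have h1 := orderOf_dvd_natCard (⟨p, hp⟩ : P)
      have h2' := orderOf_dvd_natCard (⟨p, hpA⟩ : A)
      rw [hP, ← Subgroup.orderOf_coe] at h1
      rw [← Subgroup.orderOf_coe] at h2'
      exact orderOf_eq_one_iff.mp (Nat.eq_one_of_dvd_coprimes
        (Nat.Coprime.pow_left 3 ((Nat.prime_two.coprime_iff_not_dvd).mpr hA.not_two_dvd_nat)) h1 h2')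
    have hneg : ∀ p (hp : p ∈ P), p ≠ 1 → p * p = 1 →
        ((e (ρ ⟨p, hPN hp⟩) : GL (Fin 2) (ZMod 7)) : Matrix (Fin 2) (Fin 2) (ZMod 7)) = -1 := by
      intro p hp hp1 hpp
      have hdet : ((e (ρ ⟨p, hPN hp⟩) : GL (Fin 2) (ZMod 7)) : Matrix (Fin 2) (Fin 2) (ZMod 7)).det = 1 :=
        congrArg Units.val (show d ⟨p, hPN hp⟩ = 1 from hkill d.ker hd p hp)
      have hsq : ((e (ρ ⟨p, hPN hp⟩) : GL (Fin 2) (ZMod 7)) : Matrix (Fin 2) (Fin 2) (ZMod 7)) *
          (e (ρ ⟨p, hPN hp⟩) : GL (Fin 2) (ZMod 7)) = 1 := by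
        rw [← Units.val_mul, ← map_mul, ← map_mul,
          show (⟨p, hPN hp⟩ : H₁) * ⟨p, hPN hp⟩ = 1 from Subtype.ext hpp, map_one, map_one, Units.val_one]
      refine (det_one_involution two_ne_zero_seven hsq hdet).resolve_left fun h1 => hp1 ?_
      have h0 : e (ρ ⟨p, hPN hp⟩) = 1 := Units.ext h1
      have h1' := hk (show ρ ⟨p, hPN hp⟩ = 1 from e.injective (h0.trans (map_one e).symm))
      exact hinA p hp ((QuotientGroup.eq_one_iff _).mp h1')
    have heq : ρ ⟨x, hPN hx⟩ = ρ ⟨y, hPN hy⟩ :=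
      e.injective (Units.ext ((hneg x hx hx1 hxx).trans (hneg y hy hy1 hyy).symm))
    have := QuotientGroup.eq.mp (hfac _ _ heq)
    exact hxy (inv_mul_eq_one.mp (hinA _ (P.mul_mem (P.inv_mem hx) hy) this))

end Cfsg.Agent.H53.Rudvalis
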