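import Cfsg.Agent.H53.RudvalisCount
import Cfsg.Agent.H53.RudvalisOdd
import Cfsg.Agent.H22.AbelianSylow
import Cfsg.Agent.H19.Cores
import Cfsg.Prelude.Def_CaseTheorems
import Mathlib.GroupTheory.SchurZassenhaus

/-!
# The normaliser of `W'` in the Rudvalis type configuration
-/

set_option autoImplicit false
set_option linter.style.haveILetI false
set_option linter.unusedSectionVars false
open Subgroup
open scoped Pointwise

namespace Cfsg.Agent.H53.Rudvalis

theorem le_oddCore_of_odd {K : Type*} [Group K] [Finite K] {N : Subgroup K} (hn : N.Normal)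
    (h : Odd (Nat.card N)) : N ≤ Cfsg.oddCore K :=
  H19.le_pPrimeCore hn (Nat.coprime_two_right.2 h)

/-- A normal 2-complement over a central 2-subgroup gives a normal 2-complement: the elements of
odd order form a subgroup. -/
theorem exists_odd_complement {K : Type*} [Group K] [Finite K] (W D : Subgroup K) [D.Normal]
    (hDW : D ≤ W) (hWp : IsPGroup 2 W) (hodd : Odd W.index) (hcent : D ≤ center K)
    (hnorm : ∀ x, x ∈ normalizer (W : Set K) → ∀ w ∈ W, x * w * x⁻¹ * w⁻¹ ∈ D) :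
    ∃ O : Subgroup K, Odd (Nat.card O) ∧ (∀ x, x ∈ O ↔ Odd (orderOf x)) ∧
      ∀ x : K, ∃ w ∈ W, ∃ o ∈ O, x = w * o := by
  classical
  haveI : Fact (Nat.Prime 2) := ⟨Nat.prime_two⟩
  let mk := QuotientGroup.mk' D
  have hsurj : Function.Surjective mk := QuotientGroup.mk'_surjective D
  let P : Sylow 2 K := hWp.toSylow fun h => hodd.not_two_dvd_nat h
  let Pb : Sylow 2 (K ⧸ D) := P.mapSurjective hsurj
  have hPb : ((Pb : Subgroup (K ⧸ D)) : Subgroup (K ⧸ D)) = W.map mk := rfl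
  have hcomap : (W.map mk).comap mk = W := by
    rw [comap_map_eq, QuotientGroup.ker_mk', sup_eq_left.mpr hDW]
  have hburn : normalizer ((Pb : Subgroup (K ⧸ D)) : Set (K ⧸ D)) ≤
      centralizer ((Pb : Subgroup (K ⧸ D)) : Set (K ⧸ D)) := by
    intro q hq
    obtain ⟨x, rfl⟩ := hsurj q
    have hx : x ∈ normalizer (W : Set K) := mem_normalizer_iff.mpr fun w => by
      have h1 : mk w ∈ W.map mk ↔ mk x * mk w * (mk x)⁻¹ ∈ W.map mk :=
        mem_normalizer_iff.mp hq (mk w)
      rw [← map_inv, ← map_mul, ← map_mul, ← mem_comap, ← mem_comap, hcomap] at h1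
      exact h1
    rw [mem_centralizer_iff]
    rintro _ ⟨w, hw, rfl⟩
    symm
    rw [← mul_inv_eq_iff_eq_mul, ← mul_inv_eq_one, ← map_inv, ← map_inv, ← map_mul, ← map_mul,
      ← map_mul]
    exact (QuotientGroup.eq_one_iff _).mpr (hnorm x hx w hw)
  obtain ⟨S, N, hNn, hcompl⟩ := H22.burnside_normal_complement Pb hburn
  have hNodd : Odd (Nat.card N) := by
    rw [← Subgroup.IsComplement'.index_eq_card hcompl]
    exact Nat.odd_iff.mpr (by
      have := S.not_dvd_index
      omega)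
  haveI := hNn
  set L := N.comap mk with hL
  have hDL : D ≤ L := fun d hd => by
    show mk d ∈ N
    rw [show mk d = 1 from (QuotientGroup.eq_one_iff d).mpr hd]
    exact one_mem N
  have hWL : W ⊔ L = ⊤ := by
    refine eq_top_iff.mpr fun x _ => ?_
    obtain ⟨g, hg⟩ := MulAction.exists_smul_eq (K ⧸ D) S Pb
    have hN' : N.IsComplement' (Pb : Subgroup (K ⧸ D)) :=
      Subgroup.isComplement'_of_coprime (by
        rw [← hcompl.card_mul]
        congr 1
        rw [← hg]
        exact Nat.card_congr (Subgroup.equivSMul (MulAut.conj g) (S : Subgroup (K ⧸ D))).toEquiv.symm)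
        ((Nat.Coprime.coprime_dvd_right (dvd_refl _) (by
          obtain ⟨e, he⟩ := IsPGroup.iff_card.mp Pb.2
          rw [he]
          exact (Nat.coprime_two_right.mpr hNodd).pow_right e)))
    obtain ⟨⟨⟨n, hn⟩, ⟨_, w, hw, rfl⟩⟩, e⟩ := hN'.surjective (mk x)
    have hm : x * w⁻¹ ∈ L := by
      show mk (x * w⁻¹) ∈ N
      rw [map_mul, map_inv, ← e]
      simpa using hn
    simpa using mul_mem (mem_sup_right hm) (mem_sup_left hw : w ∈ W ⊔ L)
  have hLcard : Nat.card L = Nat.card N * Nat.card D := by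
    have h1 := (mk.subgroupComap N).ker.card_mul_index
    have h2 : (mk.subgroupComap N).range = ⊤ :=
      MonoidHom.range_eq_top.mpr (mk.subgroupComap_surjective_of_surjective N hsurj)
    rw [index_ker, h2, card_top] at h1
    rw [← h1, mul_comm (Nat.card N)]
    congr 1
    exact Nat.card_congr
      { toFun := fun z => ⟨(z.1 : K), (QuotientGroup.eq_one_iff _).mp (congrArg Subtype.val z.2)⟩
        invFun := fun d => ⟨⟨d, hDL d.2⟩, Subtype.ext ((QuotientGroup.eq_one_iff _).mpr d.2)⟩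
        left_inv := fun z => rfl
        right_inv := fun d => rfl }
  set DL := D.subgroupOf L
  have hcop : Nat.Coprime (Nat.card DL) DL.index := by
    have h1 := DL.card_mul_index
    rw [Nat.card_congr (subgroupOfEquivOfLe hDL).toEquiv, hLcard, mul_comm (Nat.card N)] at h1
    rw [Nat.card_congr (subgroupOfEquivOfLe hDL).toEquiv, Nat.eq_of_mul_eq_mul_left Nat.card_pos h1]
    obtain ⟨e, he⟩ := IsPGroup.iff_card.mp (hWp.to_le hDW)
    rw [he]
    exact (Nat.coprime_two_left.mpr hNodd).pow_left e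
  obtain ⟨C, hC⟩ := exists_right_complement'_of_coprime hcop
  have hCodd : Odd (Nat.card C) := by
    have h1 := hC.card_mul
    rw [Nat.card_congr (subgroupOfEquivOfLe hDL).toEquiv, hLcard, mul_comm (Nat.card N)] at h1
    rwa [Nat.eq_of_mul_eq_mul_left Nat.card_pos h1]
  have hord : ∀ x : K, x ∈ C.map L.subtype ↔ Odd (orderOf x) := by
    intro x
    constructor
    · rintro ⟨c, hc, rfl⟩
      refine hCodd.of_dvd_nat ?_
      rw [coe_subtype, Subgroup.orderOf_coe]
      have := orderOf_dvd_natCard (⟨c, hc⟩ : C)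
      rwa [← Subgroup.orderOf_coe] at this
    · intro hx
      have hxL : x ∈ L := by
        obtain ⟨w, hw, l, hl, rfl⟩ : ∃ w ∈ W, ∃ l ∈ L, x = w * l := by
          have hx' : x ∈ (↑(W ⊔ L) : Set K) := by rw [hWL]; exact mem_top x
          rw [Subgroup.coe_mul_of_left_le_normalizer_right W L (by rw [normalizer_eq_top]; exact le_top)] at hx'
          obtain ⟨w, hw, l, hl, e⟩ := Set.mem_mul.mp hx'
          exact ⟨w, hw, l, hl, e.symm⟩
        set y := w * l
        have h1 : (QuotientGroup.mk' L) y = QuotientGroup.mk' L w := by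
          rw [map_mul, (QuotientGroup.eq_one_iff l).mpr hl |> fun h => (show QuotientGroup.mk' L l = 1 from h), mul_one]
        refine (QuotientGroup.eq_one_iff y).mp (orderOf_eq_one_iff.mp ?_)
        obtain ⟨k, hk⟩ := IsPGroup.iff_orderOf.mp hWp ⟨w, hw⟩
        rw [← Subgroup.orderOf_coe] at hk
        refine Nat.eq_one_of_dvd_coprimes (a := 2 ^ k) (b := orderOf y)
          ((Nat.coprime_two_left.mpr hx).pow_left k) ?_ (orderOf_map_dvd (QuotientGroup.mk' L) y)
        show orderOf (QuotientGroup.mk' L y) ∣ _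
        rw [h1, ← hk]
        exact orderOf_map_dvd _ _
      obtain ⟨⟨⟨d, hd⟩, ⟨c, hc⟩⟩, e⟩ := hC.surjective ⟨x, hxL⟩
      have e' : (d : K) * (c : K) = x := congrArg Subtype.val e
      have hcomm : Commute (d : K) c := (mem_center_iff.mp (hcent hd) c).symm
      have hcc : (c : K) ^ Nat.card C = 1 := by
        have := pow_card_eq_one' (G := C) (x := ⟨c, hc⟩)
        exact congrArg (fun z : C => ((z : L) : K)) this
      have hd1 : (d : K) = 1 := by
        rw [← orderOf_eq_one_iff]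
        obtain ⟨k, hk⟩ := IsPGroup.iff_orderOf.mp (hWp.to_le hDW) ⟨(d : K), hd⟩
        rw [← Subgroup.orderOf_coe] at hk
        refine Nat.eq_one_of_dvd_coprimes (a := 2 ^ k) (b := Nat.card C * orderOf x)
          ((Nat.coprime_two_left.mpr (hCodd.mul hx)).pow_left k) (by rw [← hk]) ?_
        rw [orderOf_dvd_iff_pow_eq_one]
        have h1 : x ^ (Nat.card C * orderOf x) = 1 := by rw [mul_comm, pow_mul, pow_orderOf_eq_one, one_pow]
        rwa [← e', hcomm.mul_pow, pow_mul (c : K), hcc, one_pow, mul_one, e'] at h1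
      rw [hd1, one_mul] at e'
      exact ⟨c, hc, e'⟩
  refine ⟨C.map L.subtype, ?_, hord, fun x => ?_⟩
  · rwa [card_map_of_injective L.subtype_injective]
  · have hx : x ∈ (↑(W ⊔ L) : Set K) := by rw [hWL]; exact mem_top x
    rw [Subgroup.coe_mul_of_left_le_normalizer_right W L (by rw [normalizer_eq_top]; exact le_top)] at hx
    obtain ⟨w, hw, l, hl, rfl⟩ := Set.mem_mul.mp hx
    obtain ⟨⟨⟨d, hd⟩, ⟨c, hc⟩⟩, e⟩ := hC.surjective ⟨l, hl⟩
    exact ⟨w * d, mul_mem hw (hDW hd), c, ⟨c, hc, rfl⟩, by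
      rw [mul_assoc, show (d : K) * (c : K) = l from congrArg Subtype.val e]⟩

universe u

variable {G : Type u} [Group G] [Finite G]

/-- The theorem. -/
theorem Hyp.main {T W : Subgroup G} {Z : ℕ → Subgroup G} (h : Hyp T W Z) (hS : ¬ 2 ∣ T.index)
    (h2 : ∀ H : Subgroup G, H.index ≠ 2) :
    ((normalizer (W : Set G)).subgroupOf (normalizer (fr W : Set G)) ⊔
        Cfsg.oddCore ↥(normalizer (fr W : Set G)) = ⊤) ∧
      ∃ (_ : (W.subgroupOf (normalizer (W : Set G)) ⊔ Cfsg.oddCore ↥(normalizer (W : Set G))).Normal),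
        Nonempty (↥(normalizer (W : Set G)) ⧸
            (W.subgroupOf (normalizer (W : Set G)) ⊔ Cfsg.oddCore ↥(normalizer (W : Set G))) ≃*
          GL (Fin 3) (ZMod 2)) := by
  classical
  haveI : Fact (Nat.Prime 2) := ⟨Nat.prime_two⟩
  set D := fr W with hD
  set M := normalizer (D : Set G) with hM
  set N := normalizer (W : Set G) with hN
  have hTM : T ≤ M := h.T_le_normalizer
  have hTN : T ≤ N := fun t ht => mem_normalizer_iff.mpr fun w =>
    ⟨fun hw => h.norm_W t ht w hw, fun hw => by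
      simpa [mul_assoc] using h.norm_W t⁻¹ (inv_mem ht) _ hw⟩
  have hNM : N ≤ M := h.normalizer_le
  have hWM : W ≤ M := h.W_le.trans hTM
  have hWN : W ≤ N := h.W_le.trans hTN
  haveI : IsMulCommutative D := ⟨⟨fun a b => Subtype.ext (h.cent a a.2 b (fr_le_self W b.2))⟩⟩
  letI : CommGroup D := { (inferInstance : Group D) with mul_comm := mul_comm' }
  let ψ : M →* MulAut D := D.normalizerMonoidHom
  have hψ : ∀ (m : M) (d : D), ((ψ m d : D) : G) = m * d * (m : G)⁻¹ := fun m d => rfl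
  -- the flag
  obtain ⟨a₁, ha₁, ha₁'⟩ := h.exists_mem_succ (i := 0) (by omega)
  obtain ⟨a₂, ha₂, ha₂'⟩ := h.exists_mem_succ (i := 1) (by omega)
  obtain ⟨a₃, ha₃, ha₃'⟩ := h.exists_mem_succ (i := 2) (by omega)
  rw [h.Z0, mem_bot] at ha₁'
  have hZ3D : Z 3 = D := h.fr_eq_Z3.symm
  have hZ1D : Z 1 ≤ D := hZ3D ▸ h.Z_le (by omega)
  have hZ2D : Z 2 ≤ D := hZ3D ▸ h.Z_le (by omega)
  let a : D := ⟨a₁, hZ1D ha₁⟩
  let b : D := ⟨a₂, hZ2D ha₂⟩
  let c : D := ⟨a₃, hZ3D ▸ ha₃⟩
  have hD2 : ∀ d : D, d * d = 1 := fun d => Subtype.ext (h.fr_exp_two d d.2)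
  have hZ1 : ∀ z ∈ Z 1, z = 1 ∨ z = a₁ := by
    intro z hz
    by_contra hno
    push Not at hno
    haveI := Fintype.ofFinite (Z 1)
    have hc := Finset.card_le_univ ({⟨1, one_mem _⟩, ⟨a₁, ha₁⟩, ⟨z, hz⟩} : Finset (Z 1))
    rw [← Nat.card_eq_fintype_card, h.card_Z (by omega), Finset.card_insert_of_notMem,
      Finset.card_pair (fun e => hno.2 (congrArg Subtype.val e).symm)] at hc
    · omega
    · simp [Ne.symm ha₁', Ne.symm hno.1]
  have hZ2 : ∀ z ∈ Z 2, z = 1 ∨ z = a₁ ∨ z = a₂ ∨ z = a₁ * a₂ := by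
    intro z hz
    by_cases hz1 : z ∈ Z 1
    · rcases hZ1 z hz1 with e | e
      · exact Or.inl e
      · exact Or.inr (Or.inl e)
    · have hm : z * a₂ ∈ Z 1 := by
        have hidx : ((Z 1).subgroupOf (Z 2)).index = 2 := by
          have := card_mul_relIndex (h.Z_mono 1)
          rw [h.card_Z (by omega), h.card_Z (by omega)] at this
          rw [relIndex, pow_succ] at this
          exact Nat.eq_of_mul_eq_mul_left (by norm_num) this
        exact (mul_mem_iff_of_index_two hidx (a := ⟨z, hz⟩) (b := ⟨a₂, ha₂⟩)).mpr (iff_of_false hz1 ha₂')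
      have ha22 : a₂ * a₂ = 1 := congrArg Subtype.val (hD2 b)
      rcases hZ1 _ hm with e | e
      · refine Or.inr (Or.inr (Or.inl ?_))
        rw [← mul_inv_eq_one, inv_eq_of_mul_eq_one_right ha22, e]
      · refine Or.inr (Or.inr (Or.inr ?_))
        rw [← e, mul_assoc, ha22, mul_one]
  obtain ⟨t₁, ht₁, ht₁a, ht₁b⟩ := h.exists_disp ha₂ ha₂' ha₃ ha₃' ha₁ (one_mem _)
  obtain ⟨t₂, ht₂, ht₂a, ht₂b⟩ := h.exists_disp ha₂ ha₂' ha₃ ha₃' (one_mem _) ha₂
  rw [one_mul] at ht₁b ht₂a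
  have hZ1cent : ∀ t ∈ T, t * a₁ * t⁻¹ = a₁ := by
    intro t ht
    have := ((h.step 0 a₁).mp ha₁).2 t ht
    rw [h.Z0, mem_bot, mul_inv_eq_one, mul_inv_eq_iff_eq_mul] at this
    rw [← this, mul_inv_cancel_right]
  have hkerT : ∀ (t : G) (ht : t ∈ T), ψ ⟨t, hTM ht⟩ = 1 ↔ t ∈ W := by
    intro t ht
    rw [h.mem_W_iff]
    constructor
    · refine fun e => ⟨ht, fun d hd => ?_⟩
      have := hψ ⟨t, hTM ht⟩ ⟨d, hd⟩
      rw [e, MulAut.one_apply] at this
      exact mul_inv_eq_iff_eq_mul.mp this.symm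
    · intro ht'
      refine MulEquiv.ext fun d => Subtype.ext ?_
      rw [hψ, MulAut.one_apply]
      exact mul_inv_eq_iff_eq_mul.mpr (ht'.2 d d.2)
  let P : Subgroup M := T.subgroupOf M
  have hPc : Nat.card (P.map ψ) = 8 := by
    let f : T →* MulAut D := ψ.comp (inclusion hTM)
    have hr : P.map ψ = f.range := by
      ext φ
      constructor
      · rintro ⟨x, hx, rfl⟩; exact ⟨⟨x, hx⟩, rfl⟩
      · rintro ⟨t, rfl⟩; exact ⟨inclusion hTM t, t.2, rfl⟩
    have hk : f.ker = W.subgroupOf T := by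
      ext t
      exact (hkerT t t.2)
    rw [hr, ← index_ker, hk]
    exact h.counts.2.1
  obtain ⟨hψs, hc168⟩ := surjective_of_flag hD2 h.counts.1 (a := a) (b := b) (c := c)
    ((Z 1).subgroupOf D)
    (fun d => ⟨fun hd => (hZ1 d hd).imp Subtype.ext Subtype.ext, by
      rintro (rfl | rfl)
      · exact one_mem _
      · exact ha₁⟩)
    ((Z 2).subgroupOf D)
    (fun d => ⟨fun hd => (hZ2 d hd).imp Subtype.ext (Or.imp Subtype.ext (Or.imp Subtype.ext Subtype.ext)), by
      rintro (rfl | rfl | rfl | rfl)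
      · exact one_mem _
      · exact h.Z_mono 1 ha₁
      · exact ha₂
      · exact mul_mem (show a₁ ∈ Z 2 from h.Z_mono 1 ha₁) ha₂⟩)
    (fun e => ha₁' (congrArg Subtype.val e)) ha₂' ha₃'
    (h.normalizer_index_ne_two hS h2) ψ (s₁ := ⟨t₁, hTM ht₁⟩) (s₂ := ⟨t₂, hTM ht₂⟩)
    (Subtype.ext (hZ1cent t₁ ht₁)) (Subtype.ext ht₁a) (Subtype.ext ht₁b)
    (Subtype.ext (hZ1cent t₂ ht₂)) (Subtype.ext ht₂a) (Subtype.ext ht₂b)
    P hPc (fun x hx => Subtype.ext (hZ1cent x hx))
  obtain ⟨eGL⟩ := nonempty_mulEquiv_GL (D := D) (p := 2) (n := 3) (fun v => by rw [sq, hD2])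
    (by rw [h.counts.1]; rfl)
  haveI hsimp : IsSimpleGroup (MulAut D) := by
    haveI := H50.AltEight.gl_three_two.1
    haveI := eGL.toEquiv.nontrivial
    exact IsSimpleGroup.isSimpleGroup_of_surjective eGL.symm.toMonoidHom eGL.symm.surjective
  -- `W` is a Sylow subgroup of the centraliser
  set K := ψ.ker with hK
  have hWK : W.subgroupOf M ≤ K := fun w hw => (hkerT w (h.W_le hw)).mpr hw
  set WK := (W.subgroupOf M).subgroupOf K with hWKdef
  have hcWK : Nat.card WK = Nat.card W := by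
    rw [Nat.card_congr (subgroupOfEquivOfLe hWK).toEquiv, Nat.card_congr (subgroupOfEquivOfLe hWM).toEquiv]
  have hcW : Nat.card W = 2 ^ 11 := by
    rw [← card_mul_relIndex (fr_le_self W), h.counts.1, h.counts.2.2]; norm_num
  have hWKodd : Odd WK.index := by
    have h1 := ψ.ker.card_mul_index
    rw [index_ker, MonoidHom.range_eq_top.mpr hψs, card_top, hc168, ← hK, ← WK.card_mul_index, hcWK,
      hcW] at h1
    have h3 := (T.subgroupOf M).card_mul_index
    rw [Nat.card_congr (subgroupOfEquivOfLe hTM).toEquiv, ← card_mul_relIndex h.W_le, hcW,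
      h.counts.2.1, ← h1] at h3
    have hodd : ¬ 2 ∣ (T.subgroupOf M).index := fun hh => hS (hh.trans (relIndex_dvd_index_of_le hTM))
    rw [Nat.odd_iff]
    omega
  haveI hKn : K.Normal := MonoidHom.normal_ker ψ
  have hWKp : IsPGroup 2 WK := IsPGroup.of_card (n := 11) (by rw [hcWK, hcW])
  -- the Frattini argument
  have hfrat : ∀ m : M, ∃ k ∈ K, ∃ n : M, (n : G) ∈ N ∧ m = k * n := by
    intro m
    let P₀ : Sylow 2 K := hWKp.toSylow fun hh => hWKodd.not_two_dvd_nat hh
    have htop := Sylow.normalizer_sup_eq_top P₀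
    have hmap : (P₀ : Subgroup K).map K.subtype = W.subgroupOf M := by
      show WK.map K.subtype = _
      rw [map_subgroupOf_eq_of_le hWK]
    rw [hmap] at htop
    have hm : m ∈ (↑(normalizer (W.subgroupOf M : Set M) ⊔ K) : Set M) := by rw [htop]; exact mem_top m
    rw [Subgroup.coe_mul_of_left_le_normalizer_right _ K (le_top.trans (Subgroup.normalizer_eq_top (H := K)).ge)] at hm
    obtain ⟨n, hn, k, hk, rfl⟩ := Set.mem_mul.mp hm
    refine ⟨n * k * n⁻¹, hKn.conj_mem k hk n, n, mem_normalizer_iff.mpr fun w => ?_,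
      (inv_mul_cancel_right (n * k) n).symm⟩
    constructor
    · intro hw
      exact (mem_normalizer_iff.mp hn ⟨w, hWM hw⟩).mp hw
    · intro hw
      have h1 : (n : G) * w * (n : G)⁻¹ ∈ M := hWM hw
      have hwM : w ∈ M := by simpa [mul_assoc] using mul_mem (mul_mem (inv_mem n.2) h1) n.2
      exact (mem_normalizer_iff.mp hn ⟨w, hwM⟩).mpr hw
  let ψN : N →* MulAut D := ψ.comp (inclusion hNM)
  have hψNs : Function.Surjective ψN := by
    intro φ
    obtain ⟨m, rfl⟩ := hψs φ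
    obtain ⟨k, hk, n, hn, rfl⟩ := hfrat m
    exact ⟨⟨n, hn⟩, by rw [map_mul, (show ψ k = 1 from hk), one_mul]; rfl⟩
  -- the quotient of `N` by `W`
  haveI hWn : (W.subgroupOf N).Normal := Subgroup.normal_in_normalizer
  have hWker : W.subgroupOf N ≤ ψN.ker := fun w hw => (hkerT w (h.W_le hw)).mpr hw
  let ψbar : N ⧸ W.subgroupOf N →* MulAut D := QuotientGroup.lift _ ψN hWker
  have hψbs : Function.Surjective ψbar := fun φ => by
    obtain ⟨n, rfl⟩ := hψNs φ
    exact ⟨QuotientGroup.mk n, rfl⟩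
  have hAodd : Odd (Nat.card ψbar.ker) := by
    refine hWKodd.of_dvd_nat ?_
    let f : ψN.ker →* K :=
      { toFun := fun n => ⟨inclusion hNM n.1, n.2⟩
        map_one' := rfl
        map_mul' := fun _ _ => rfl }
    have hf : Function.Injective f := fun x y e =>
      Subtype.ext (Subtype.ext (congrArg (fun z : K => ((z : M) : G)) e))
    have h1 : ψbar.ker = ψN.ker.map (QuotientGroup.mk' (W.subgroupOf N)) := QuotientGroup.ker_lift _ _ _
    have h2' : Nat.card ψbar.ker * Nat.card W = Nat.card ψN.ker := by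
      rw [h1, ← Nat.card_congr (subgroupOfEquivOfLe hWN).toEquiv]
      have hker := ((QuotientGroup.mk' (W.subgroupOf N)).comp ψN.ker.subtype).ker.card_mul_index
      rw [index_ker, MonoidHom.range_comp, range_subtype] at hker
      rw [← hker, mul_comm]
      congr 1
      exact Nat.card_congr
        { toFun := fun z => ⟨⟨z.1, hWker z.2⟩, (QuotientGroup.eq_one_iff _).mpr z.2⟩
          invFun := fun z => ⟨z.1.1, (QuotientGroup.eq_one_iff _).mp z.2⟩
          left_inv := fun z => rfl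
          right_inv := fun z => rfl }
    have h3 := card_dvd_of_injective f hf
    rw [← h2', ← WK.card_mul_index, hcWK, mul_comm (Nat.card W)] at h3
    exact Nat.dvd_of_mul_dvd_mul_right Nat.card_pos h3
  -- the action on `W / D`
  set DW := D.subgroupOf W with hDW
  haveI : DW.Normal := ⟨fun d hd w => by
    rw [mem_subgroupOf] at hd ⊢
    show (w : G) * d * (w : G)⁻¹ ∈ D
    rw [← h.cent _ hd w w.2, mul_inv_cancel_right]
    exact hd⟩
  haveI : IsMulCommutative (W ⧸ DW) := ⟨⟨fun x y => by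
    induction x using QuotientGroup.induction_on with
    | _ x =>
      induction y using QuotientGroup.induction_on with
      | _ y =>
        rw [← QuotientGroup.mk_mul, ← QuotientGroup.mk_mul, QuotientGroup.eq, mem_subgroupOf]
        simpa [mul_assoc] using h.setup.comm (inv_mem y.2) (inv_mem x.2)⟩⟩
  letI : CommGroup (W ⧸ DW) := { (inferInstance : Group (W ⧸ DW)) with mul_comm := mul_comm' }
  let cN : N →* MulAut W := W.normalizerMonoidHom
  have hcN : ∀ (n : N) (w : W), ((cN n w : W) : G) = n * w * (n : G)⁻¹ := fun n w => rfl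
  have hDWinv : ∀ n : N, DW.map (cN n).toMonoidHom = DW := fun n => by
    ext w
    constructor
    · rintro ⟨d, hd, rfl⟩
      exact (mem_normalizer_iff.mp (hNM n.2) d).mp hd
    · intro hw
      refine ⟨(cN n).symm w, ?_, (cN n).apply_symm_apply w⟩
      have h1 : ((cN n ((cN n).symm w) : W) : G) ∈ D := by rw [(cN n).apply_symm_apply]; exact hw
      exact (mem_normalizer_iff.mp (hNM n.2) _).mpr h1
  let πN : N →* MulAut (W ⧸ DW) :=
    { toFun := fun n => QuotientGroup.congr DW DW (cN n) (hDWinv n)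
      map_one' := by
        refine MulEquiv.ext fun q => ?_
        induction q using QuotientGroup.induction_on with
        | _ w =>
          show QuotientGroup.mk (cN 1 w) = _
          rw [map_one]; rfl
      map_mul' := fun n n' => by
        refine MulEquiv.ext fun q => ?_
        induction q using QuotientGroup.induction_on with
        | _ w =>
          show QuotientGroup.mk (cN (n * n') w) = _
          rw [map_mul]; rfl }
  have hπN : ∀ (n : N) (w : W), πN n (QuotientGroup.mk w) = QuotientGroup.mk (cN n w) := fun _ _ => rfl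
  have hπW : W.subgroupOf N ≤ πN.ker := by
    intro n hn
    refine MulEquiv.ext fun q => ?_
    induction q using QuotientGroup.induction_on with
    | _ w =>
      rw [hπN, MulAut.one_apply, QuotientGroup.eq, mem_subgroupOf, Subgroup.coe_mul, Subgroup.coe_inv, hcN]
      have := h.setup.comm hn (inv_mem w.2)
      simpa [mul_assoc] using this
  let π : N ⧸ W.subgroupOf N →* MulAut (W ⧸ DW) := QuotientGroup.lift _ πN hπW
  have hWV : Nat.card (W ⧸ DW) = 2 ^ 8 := by rw [← index_eq_card]; exact h.counts.2.2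
  let PN : Subgroup (N ⧸ W.subgroupOf N) := (T.subgroupOf N).map (QuotientGroup.mk' _)
  have hPN : Nat.card PN = 8 := by
    have hker := ((QuotientGroup.mk' (W.subgroupOf N)).comp (T.subgroupOf N).subtype).ker.card_mul_index
    rw [index_ker, MonoidHom.range_comp, range_subtype, Nat.card_congr (subgroupOfEquivOfLe hTN).toEquiv,
      ← card_mul_relIndex h.W_le, h.counts.2.1] at hker
    refine Nat.eq_of_mul_eq_mul_left (Nat.card_pos (α := W)) ?_
    rw [← hker]
    congr 1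
    exact Nat.card_congr
      { toFun := fun w => ⟨⟨⟨w, hWN w.2⟩, h.W_le w.2⟩, (QuotientGroup.eq_one_iff _).mpr w.2⟩
        invFun := fun z => ⟨z.1.1.1, (QuotientGroup.eq_one_iff (N := W.subgroupOf N) z.1.1).mp z.2⟩
        left_inv := fun z => rfl
        right_inv := fun z => rfl }
  have hfix3 : ∀ g ∈ T, g * a₂ * g⁻¹ = a₂ → g * a₃ * g⁻¹ = a₃ → g ∈ W := fun g hg e1 e2 =>
    h.mem_W_of_fix hg ha₂ ha₂' ha₃ ha₃' (mul_inv_eq_iff_eq_mul.mp e1) (mul_inv_eq_iff_eq_mul.mp e2)
  have ha11 : a₁ * a₁ = 1 := congrArg Subtype.val (hD2 a)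
  have ha22 : a₂ * a₂ = 1 := congrArg Subtype.val (hD2 b)
  have hinv : ∃ x ∈ PN, ∃ y ∈ PN, x ≠ 1 ∧ y ≠ 1 ∧ x ≠ y ∧ x * x = 1 ∧ y * y = 1 := by
    refine ⟨_, ⟨⟨t₁, hTN ht₁⟩, ht₁, rfl⟩, _, ⟨⟨t₂, hTN ht₂⟩, ht₂, rfl⟩, ?_, ?_, ?_, ?_, ?_⟩
    · intro e
      have hw : t₁ ∈ W := (QuotientGroup.eq_one_iff (N := W.subgroupOf N) ⟨t₁, hTN ht₁⟩).mp e
      have := (h.mem_W_iff.mp hw).2 a₂ (hZ2D ha₂)
      refine ha₁' ((mul_eq_right (b := a₂)).mp ?_)
      rw [← ht₁a, this, mul_inv_cancel_right]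
    · intro e
      have hw : t₂ ∈ W := (QuotientGroup.eq_one_iff (N := W.subgroupOf N) ⟨t₂, hTN ht₂⟩).mp e
      have := (h.mem_W_iff.mp hw).2 a₃ c.2
      refine ha₂' ?_
      have h1 : a₂ = 1 := by
        refine (mul_eq_right (b := a₃)).mp ?_
        rw [← ht₂b, this, mul_inv_cancel_right]
      rw [h1]; exact one_mem _
    · intro e
      have hw : t₁⁻¹ * t₂ ∈ W :=
        (QuotientGroup.eq (s := W.subgroupOf N) (a := ⟨t₁, hTN ht₁⟩) (b := ⟨t₂, hTN ht₂⟩)).mp e
      have hc' := (h.mem_W_iff.mp hw).2 a₂ (hZ2D ha₂)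
      refine ha₁' ((mul_eq_right (b := a₂)).mp ?_)
      calc a₁ * a₂ = t₁ * (a₂ * (t₁⁻¹ * t₂)) * t₂⁻¹ := by rw [← ht₁a]; group
        _ = t₁ * ((t₁⁻¹ * t₂) * a₂) * t₂⁻¹ := by rw [hc']
        _ = t₂ * a₂ * t₂⁻¹ := by group
        _ = a₂ := ht₂a
    · rw [← map_mul, QuotientGroup.mk'_apply, QuotientGroup.eq_one_iff, mem_subgroupOf]
      refine hfix3 _ (mul_mem ht₁ ht₁) ?_ ?_
      · calc t₁ * t₁ * a₂ * (t₁ * t₁)⁻¹ = t₁ * (t₁ * a₂ * t₁⁻¹) * t₁⁻¹ := by group
          _ = t₁ * (a₁ * a₂) * t₁⁻¹ := by rw [ht₁a]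
          _ = (t₁ * a₁ * t₁⁻¹) * (t₁ * a₂ * t₁⁻¹) := by group
          _ = a₂ := by rw [hZ1cent t₁ ht₁, ht₁a, ← mul_assoc, ha11, one_mul]
      · calc t₁ * t₁ * a₃ * (t₁ * t₁)⁻¹ = t₁ * (t₁ * a₃ * t₁⁻¹) * t₁⁻¹ := by group
          _ = a₃ := by rw [ht₁b, ht₁b]
    · rw [← map_mul, QuotientGroup.mk'_apply, QuotientGroup.eq_one_iff, mem_subgroupOf]
      refine hfix3 _ (mul_mem ht₂ ht₂) ?_ ?_
      · calc t₂ * t₂ * a₂ * (t₂ * t₂)⁻¹ = t₂ * (t₂ * a₂ * t₂⁻¹) * t₂⁻¹ := by group
          _ = a₂ := by rw [ht₂a, ht₂a]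
      · calc t₂ * t₂ * a₃ * (t₂ * t₂)⁻¹ = t₂ * (t₂ * a₃ * t₂⁻¹) * t₂⁻¹ := by group
          _ = t₂ * (a₂ * a₃) * t₂⁻¹ := by rw [ht₂b]
          _ = (t₂ * a₂ * t₂⁻¹) * (t₂ * a₃ * t₂⁻¹) := by group
          _ = a₃ := by rw [ht₂a, ht₂b, ← mul_assoc, ha22, one_mul]
  have hfix : ∀ v w : W ⧸ DW, (∀ g ∈ PN, π g v = v) → (∀ g ∈ PN, π g w = w) → v ≠ 1 → w ≠ 1 → v = w := by
    have key : ∀ w : W, (∀ g ∈ PN, π g (QuotientGroup.mk w) = QuotientGroup.mk w) →
        (QuotientGroup.mk w : W ⧸ DW) ≠ 1 → (w : G) ∈ Z 4 ∧ (w : G) ∉ Z 3 := by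
      intro w hw hne
      refine ⟨(h.step 3 _).mpr ⟨h.W_le w.2, fun t ht => ?_⟩,
        fun hc => hne ((QuotientGroup.eq_one_iff _).mpr (mem_subgroupOf.mpr (hZ3D ▸ hc)))⟩
      have h1 := hw (QuotientGroup.mk ⟨t, hTN ht⟩) ⟨⟨t, hTN ht⟩, ht, rfl⟩
      change πN ⟨t, hTN ht⟩ (QuotientGroup.mk w) = _ at h1
      rw [hπN, QuotientGroup.eq, mem_subgroupOf, Subgroup.coe_mul, Subgroup.coe_inv, hcN] at h1
      rw [hZ3D]
      have hd' : (t * (w : G) * t⁻¹)⁻¹ * w ∈ D := h1
      have h2 := h.norm_fr _ (mul_mem (mul_mem ht (h.W_le w.2)) (inv_mem ht)) _ hd'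
      simpa [mul_assoc] using h2
    intro v w
    induction v using QuotientGroup.induction_on with
    | _ v =>
      induction w using QuotientGroup.induction_on with
      | _ w =>
        intro hv hw hv1 hw1
        obtain ⟨hv4, hv3⟩ := key v hv hv1
        obtain ⟨hw4, hw3⟩ := key w hw hw1
        rw [QuotientGroup.eq, mem_subgroupOf, ← hZ3D]
        have hidx : ((Z 3).subgroupOf (Z 4)).index = 2 := by
          have := card_mul_relIndex (h.Z_mono 3)
          rw [h.card_Z (by omega), h.card_Z (by omega)] at this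
          rw [relIndex, pow_succ] at this
          exact Nat.eq_of_mul_eq_mul_left (by norm_num) this
        exact (mul_mem_iff_of_index_two hidx (a := (⟨v, hv4⟩ : Z 4)⁻¹) (b := ⟨w, hw4⟩)).mpr
          (iff_of_false (fun hc => hv3 (inv_mem_iff.mp hc)) hw3)
  have hexp : ∀ v : W ⧸ DW, v * v = 1 := fun v => by
    induction v using QuotientGroup.induction_on with
    | _ v => exact (QuotientGroup.eq_one_iff _).mpr (sq_mem_fr v.2)
  let eq' := QuotientGroup.quotientKerEquivOfSurjective ψbar hψbs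
  haveI : IsSimpleGroup ((N ⧸ W.subgroupOf N) ⧸ ψbar.ker) := by
    haveI := eq'.toEquiv.nontrivial
    exact IsSimpleGroup.isSimpleGroup_of_surjective eq'.symm.toMonoidHom eq'.symm.surjective
  have hA := odd_le_ker hexp hWV π ψbar.ker hAodd inferInstance
    (by rw [Nat.card_congr eq'.toEquiv, hc168]) PN hPN hinv hfix
  have htriv : ∀ n : G, n ∈ N → (∀ d ∈ D, n * d = d * n) → ∀ w ∈ W, n * w * n⁻¹ * w⁻¹ ∈ D := by
    intro n hn hcd w hw
    have h1 : (QuotientGroup.mk ⟨n, hn⟩ : N ⧸ W.subgroupOf N) ∈ ψbar.ker := by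
      show ψN ⟨n, hn⟩ = 1
      exact MulEquiv.ext fun d => Subtype.ext (mul_inv_eq_iff_eq_mul.mpr (hcd d d.2))
    have h2 : πN ⟨n, hn⟩ = 1 := hA h1
    have h3 := MulEquiv.ext_iff.mp h2 (QuotientGroup.mk ⟨w⁻¹, inv_mem hw⟩)
    rw [hπN, MulAut.one_apply, QuotientGroup.eq, mem_subgroupOf, Subgroup.coe_mul, Subgroup.coe_inv,
      hcN] at h3
    have h4 : (n * w⁻¹ * n⁻¹)⁻¹ * w⁻¹ ∈ D := h3
    simpa [mul_assoc] using h4
  -- the normal complement
  set DK := (D.subgroupOf M).subgroupOf K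
  have hKcent : ∀ k ∈ K, ∀ d ∈ D, (k : G) * d = d * (k : G) := fun k hk d hd => by
    have := hψ k ⟨d, hd⟩
    rw [(show ψ k = 1 from hk), MulAut.one_apply] at this
    exact mul_inv_eq_iff_eq_mul.mp this.symm
  have hDKc : DK ≤ center K := fun d hd => mem_center_iff.mpr fun k =>
    Subtype.ext (Subtype.ext (hKcent k k.2 _ hd))
  haveI : DK.Normal := ⟨fun d hd k => by
    rw [mem_center_iff.mp (hDKc hd) k, mul_inv_cancel_right]; exact hd⟩
  obtain ⟨O, hOodd, hOord, hKWO⟩ := exists_odd_complement WK DK (fun d hd => fr_le_self W hd) hWKp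
    hWKodd hDKc (fun x hx w hw => by
      refine htriv ((x : M) : G) (mem_normalizer_iff.mpr fun g => ⟨fun hg => ?_, fun hg => ?_⟩)
        (fun d hd => hKcent x x.2 d hd) _ hw
      · exact (mem_normalizer_iff.mp hx ⟨⟨g, hWM hg⟩, hWK hg⟩).mp hg
      · have h1 : ((x : M) : G) * g * ((x : M) : G)⁻¹ ∈ W := hg
        have hgM : g ∈ M := by
          simpa [mul_assoc] using mul_mem (mul_mem (inv_mem (x : M).2) (hWM h1)) (x : M).2
        have hgK : (⟨g, hgM⟩ : M) ∈ K := by
          have hc1 : (x : M) * ⟨g, hgM⟩ * (x : M)⁻¹ ∈ K := hWK h1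
          have := hKn.conj_mem _ hc1 (x : M)⁻¹
          simpa [mul_assoc] using this
        exact (mem_normalizer_iff.mp hx ⟨⟨g, hgM⟩, hgK⟩).mpr hg)
  set OM := O.map K.subtype with hOM
  have hOMn : OM.Normal := ⟨by
    rintro _ ⟨o, ho, rfl⟩ m
    refine ⟨⟨m * o * m⁻¹, hKn.conj_mem _ o.2 m⟩, (hOord _).mpr ?_, rfl⟩
    replace ho : Odd (orderOf o) := (hOord o).mp ho
    rw [← Subgroup.orderOf_coe] at ho ⊢
    show Odd (orderOf (m * (o : M) * m⁻¹))
    rwa [show m * (o : M) * m⁻¹ = MulAut.conj m (o : M) from rfl, MulEquiv.orderOf_eq]⟩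
  have hOMle : OM ≤ Cfsg.oddCore M :=
    le_oddCore_of_odd hOMn (by rwa [hOM, card_map_of_injective K.subtype_injective])
  refine ⟨eq_top_iff.mpr fun m _ => ?_, ?_⟩
  · obtain ⟨k, hk, n, hn, rfl⟩ := hfrat m
    obtain ⟨w, hw, o, ho, e⟩ := hKWO ⟨k, hk⟩
    rw [show k = (w : M) * (o : M) from congrArg Subtype.val e]
    exact mul_mem (mul_mem (mem_sup_left (hWN hw)) (mem_sup_right (hOMle ⟨o, ho, rfl⟩))) (mem_sup_left hn)
  · have hker : W.subgroupOf N ⊔ Cfsg.oddCore N = ψN.ker := by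
      refine le_antisymm (sup_le hWker ?_) ?_
      · intro n hn
        show ψN n = 1
        refine MulEquiv.ext fun d => Subtype.ext (mul_inv_eq_iff_eq_mul.mpr ?_)
        haveI : (Cfsg.oddCore N).Normal := H19.pPrimeCore_normal 2 N
        have hdis : Disjoint (W.subgroupOf N) (Cfsg.oddCore N) := disjoint_iff.mpr
          (H19.inf_eq_bot_of_isPGroup_coprime
            ((h.isP.to_le h.W_le).comap_of_injective N.subtype N.subtype_injective)
            (H19.pPrimeCore_coprime 2))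
        have hc := Subgroup.commute_of_normal_of_disjoint _ _ hWn inferInstance hdis
          ⟨d, hWN (fr_le_self W d.2)⟩ n (mem_subgroupOf.mpr (fr_le_self W d.2)) hn
        exact (congrArg Subtype.val hc.eq).symm
      · intro n hn
        obtain ⟨w, hw, o, ho, e⟩ := hKWO ⟨inclusion hNM n, hn⟩
        have e' : (n : G) = ((w : M) : G) * ((o : M) : G) := congrArg (fun z : K => ((z : M) : G)) e
        have hoN : ((o : M) : G) ∈ N := by
          have := N.mul_mem (N.inv_mem (hWN (show ((w : M) : G) ∈ W from hw))) n.2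
          rwa [e', inv_mul_cancel_left] at this
        let ON : Subgroup N := OM.comap (inclusion hNM)
        have hON : ON ≤ Cfsg.oddCore N := le_oddCore_of_odd (hOMn.comap _) (by
          refine (show Odd (Nat.card OM) by rwa [hOM, card_map_of_injective K.subtype_injective]).of_dvd_nat ?_
          exact card_dvd_of_injective
            ((inclusion hNM).subgroupComap OM) fun x y e =>
              Subtype.ext (inclusion_injective hNM (congrArg Subtype.val e)))
        rw [show n = ⟨((w : M) : G), hWN hw⟩ * ⟨_, hoN⟩ from Subtype.ext e']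
        exact mul_mem (mem_sup_left hw) (mem_sup_right (hON ⟨o, ho, Subtype.ext rfl⟩))
    have hn' : (W.subgroupOf N ⊔ Cfsg.oddCore N).Normal := hker ▸ MonoidHom.normal_ker ψN
    exact ⟨hn', ⟨(QuotientGroup.quotientMulEquivOfEq hker).trans
      ((QuotientGroup.quotientKerEquivOfSurjective ψN hψNs).trans eGL)⟩⟩

end Cfsg.Agent.H53.Rudvalis
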