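import Cfsg.Agent.H53.RudvalisTransfer

/-!
# The Sylow 2-structure of Rudvalis type

`Z i` is the upper central series of `T`, `W = C_T(Z 3)`; the squares of `W` generate at most eight
elements and lie in every subgroup of `W` of index at most sixteen.
-/

set_option autoImplicit false
set_option linter.style.haveILetI false
set_option linter.unusedSectionVars false
open Subgroup
open scoped Pointwise

namespace Cfsg.Agent.H53.Rudvalis

variable {G : Type*} [Group G] [Finite G]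

/-- The hypotheses, in the ambient group. -/
structure Hyp (T W : Subgroup G) (Z : ℕ → Subgroup G) : Prop where
  isP : IsPGroup 2 T
  Z0 : Z 0 = ⊥
  Zle : ∀ i, Z i ≤ T
  step : ∀ i x, x ∈ Z (i + 1) ↔ x ∈ T ∧ ∀ t ∈ T, x * t * x⁻¹ * t⁻¹ ∈ Z i
  top : ∃ n, Z n = T
  card4 : Nat.card (Z 4) = 16
  cardT : 2 ^ 14 ≤ Nat.card T
  memW : ∀ g, g ∈ W ↔ g ∈ T ∧ ∀ z ∈ Z 3, g * z = z * g
  cardFr : Nat.card (fr W) ≤ 8
  small : ∀ U ≤ W, U.relIndex W ≤ 16 → fr W ≤ U

theorem exists_maximal_of {α : Type*} [Finite α] [PartialOrder α] {p : α → Prop} (h : ∃ a, p a) :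
    ∃ a, p a ∧ ∀ ⦃b⦄, p b → a ≤ b → b ≤ a := by
  obtain ⟨a, ha⟩ := h
  obtain ⟨m, -, hm⟩ := Finite.exists_le_maximal (p := p) ha
  exact ⟨m, hm.prop, fun b hb hle => hm.le_of_ge hb hle⟩

/-- Strict inclusion of 2-subgroups doubles the order. -/
theorem two_mul_card_le {A B : Subgroup G} (hAB : A ≤ B) (hne : ¬ B ≤ A) :
    2 * Nat.card A ≤ Nat.card B := by
  have h1 : Nat.card A * A.relIndex B = Nat.card B := by
    rw [← Subgroup.relIndex_bot_left, relIndex_mul_relIndex _ _ _ bot_le hAB, relIndex_bot_left]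
  have h2 : A.relIndex B ≠ 1 := fun h => hne (relIndex_eq_one.mp h)
  have h3 : A.relIndex B ≠ 0 := fun h => by
    rw [h, mul_zero] at h1
    exact (Nat.card_pos (α := B)).ne h1
  rw [← h1, mul_comm 2]
  exact Nat.mul_le_mul_left _ (by omega)

theorem card_mul_relIndex {A B : Subgroup G} (hAB : A ≤ B) :
    Nat.card A * A.relIndex B = Nat.card B := by
  rw [← Subgroup.relIndex_bot_left, relIndex_mul_relIndex _ _ _ bot_le hAB, relIndex_bot_left]

/-- The squares separate the points of a 2-group: outside them some index two subgroup misses. -/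
theorem exists_halving_missing {H : Subgroup G} (hH : IsPGroup 2 H) {x : G} (hx : x ∈ H)
    (hxf : x ∉ fr H) :
    ∃ B ≤ H, x ∉ B ∧ (∀ a ∈ H, ∀ y ∈ H, a ∉ B → (y ∈ B ∨ a⁻¹ * y ∈ B)) ∧ fr H ≤ B ∧
      (∀ a ∈ H, ∀ y ∈ B, a⁻¹ * y * a ∈ B) := by
  obtain ⟨K, hK, hmax⟩ := exists_maximal_of
    (p := fun K : Subgroup G => K ≤ H ∧ fr H ≤ K ∧ x ∉ K) (h := ⟨fr H, fr_le_self H, le_rfl, hxf⟩)
  have hne : ¬ H ≤ K := fun h => hK.2.2 (h hx)
  obtain ⟨B, hBH, hKB, h2, hfB, hHB, hn⟩ := exists_halving hH hK.1 hne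
  refine ⟨B, hBH, fun hxB => ?_, h2, hfB, hn⟩
  obtain ⟨y, hy, hyB⟩ := SetLike.not_le_iff_exists.mp hHB
  -- `K ∪ yK` is a subgroup
  have hcomm : ∀ k ∈ K, y * k * y⁻¹ ∈ K := fun k hk => by
    rw [show y * k * y⁻¹ = y * k * y⁻¹ * k⁻¹ * k by group]
    exact mul_mem (hK.2.1 (comm_mem_fr hy (hK.1 hk))) hk
  have hcomm' : ∀ k ∈ K, y⁻¹ * k * y ∈ K := fun k hk => by
    rw [show y⁻¹ * k * y = y⁻¹ * k * (y⁻¹)⁻¹ * k⁻¹ * k by group]
    exact mul_mem (hK.2.1 (comm_mem_fr (inv_mem hy) (hK.1 hk))) hk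
  have hyy : y * y ∈ K := hK.2.1 (sq_mem_fr hy)
  let L : Subgroup G :=
    { carrier := {g | g ∈ K ∨ y⁻¹ * g ∈ K}
      one_mem' := Or.inl (one_mem K)
      mul_mem' := fun {a b} ha hb => by
        rcases ha with ha | ha <;> rcases hb with hb | hb
        · exact Or.inl (mul_mem ha hb)
        · refine Or.inr ?_
          rw [show y⁻¹ * (a * b) = y⁻¹ * a * y * (y⁻¹ * b) by group]
          exact mul_mem (hcomm' a ha) hb
        · refine Or.inr ?_
          rw [show y⁻¹ * (a * b) = y⁻¹ * a * b by group]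
          exact mul_mem ha hb
        · refine Or.inl ?_
          rw [show a * b = y * (y⁻¹ * a) * y⁻¹ * (y * y) * (y⁻¹ * b) by group]
          exact mul_mem (mul_mem (hcomm _ ha) hyy) hb
      inv_mem' := fun {a} ha => by
        rcases ha with ha | ha
        · exact Or.inl (inv_mem ha)
        · refine Or.inr ?_
          rw [show y⁻¹ * a⁻¹ = y⁻¹ * (y⁻¹ * a)⁻¹ * y * (y * y)⁻¹ by group]
          exact mul_mem (hcomm' _ (inv_mem ha)) (inv_mem hyy) }
  have hKL : K ≤ L := fun k hk => Or.inl hk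
  have hLH : L ≤ H := by
    rintro g (hg | hg)
    · exact hK.1 hg
    · simpa using mul_mem hy (hK.1 hg)
  have hxL : x ∉ L := by
    rintro (h | h)
    · exact hK.2.2 h
    · exact hyB (inv_mem_iff.mp (by simpa using mul_mem (hKB h) (inv_mem hxB)))
  have hyL : y ∈ L := Or.inr (by rw [inv_mul_cancel]; exact one_mem K)
  exact hyB (hKB (hmax ⟨hLH, hK.2.1.trans hKL, hxL⟩ hKL hyL))

/-- Among the normal subgroups of `T`, one not inside another meets its cocentre. -/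
theorem Hyp.exists_next {T W : Subgroup G} {Z : ℕ → Subgroup G} (h : Hyp T W Z) {X S : Subgroup G}
    (hXT : X ≤ T) (hX : ∀ t ∈ T, ∀ x ∈ X, t * x * t⁻¹ ∈ X) (hne : ¬ X ≤ S) :
    ∃ x ∈ X, x ∉ S ∧ ∀ t ∈ T, x * t * x⁻¹ * t⁻¹ ∈ S := by
  classical
  obtain ⟨n, hn⟩ := h.top
  obtain ⟨x, hx, hxS⟩ := SetLike.not_le_iff_exists.mp hne
  have hex : ∃ j, ∃ x ∈ X, x ∈ Z j ∧ x ∉ S := ⟨n, x, hx, by rw [hn]; exact hXT hx, hxS⟩
  obtain ⟨x, hxX, hxZ, hxS⟩ := Nat.find_spec hex
  refine ⟨x, hxX, hxS, fun t ht => ?_⟩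
  by_contra hc
  rcases hj : Nat.find hex with _ | j
  · rw [hj, h.Z0, mem_bot] at hxZ
    exact hxS (hxZ ▸ one_mem S)
  · rw [hj, h.step] at hxZ
    refine Nat.find_min hex (show j < Nat.find hex by omega) ⟨_, ?_, hxZ.2 t ht, hc⟩
    rw [show x * t * x⁻¹ * t⁻¹ = x * (t * x⁻¹ * t⁻¹) by group]
    exact mul_mem hxX (hX t ht _ (inv_mem hxX))

namespace Hyp

variable {T W : Subgroup G} {Z : ℕ → Subgroup G} (h : Hyp T W Z)
include h

theorem norm_Z (i : ℕ) : ∀ t ∈ T, ∀ x ∈ Z i, t * x * t⁻¹ ∈ Z i := by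
  induction i with
  | zero =>
    intro t _ x hx
    rw [h.Z0, mem_bot] at hx ⊢
    subst hx; group
  | succ i ih =>
    intro t ht x hx
    obtain ⟨hxT, hx'⟩ := (h.step i x).mp hx
    rw [h.step]
    refine ⟨mul_mem (mul_mem ht hxT) (inv_mem ht), fun s hs => ?_⟩
    have := ih t ht _ (hx' (t⁻¹ * s * t) (mul_mem (mul_mem (inv_mem ht) hs) ht))
    simpa [mul_assoc] using this

theorem Z_mono (i : ℕ) : Z i ≤ Z (i + 1) := by
  intro x hx
  rw [h.step]
  refine ⟨h.Zle i hx, fun t ht => ?_⟩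
  rw [show x * t * x⁻¹ * t⁻¹ = x * (t * x⁻¹ * t⁻¹) by group]
  exact mul_mem hx (h.norm_Z i t ht _ (inv_mem hx))

theorem Z_le {i j : ℕ} (hij : i ≤ j) : Z i ≤ Z j := by
  induction hij with
  | refl => exact le_rfl
  | step _ ih => exact ih.trans (h.Z_mono _)

theorem Z_lt {i : ℕ} (hi : i < 4) : ¬ Z (i + 1) ≤ Z i := by
  intro hle
  have hcard : Nat.card (Z i) ≤ 16 := h.card4 ▸ card_le_of_le (h.Z_le (by omega))
  have hne : ¬ T ≤ Z i := fun hT => by
    have := card_le_of_le hT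
    have := h.cardT
    omega
  obtain ⟨x, hxT, hxS, hx⟩ := h.exists_next le_rfl
    (fun t ht x hx => mul_mem (mul_mem ht hx) (inv_mem ht)) hne
  exact hxS (hle ((h.step i x).mpr ⟨hxT, hx⟩))

theorem card_Z_ge {i : ℕ} (hi : i ≤ 4) : 2 ^ i ≤ Nat.card (Z i) := by
  induction i with
  | zero => exact Nat.card_pos
  | succ i ih =>
    have := two_mul_card_le (h.Z_mono i) (h.Z_lt (by omega))
    have := ih (by omega)
    rw [pow_succ]
    omega

theorem card_Z {i : ℕ} (hi : i ≤ 4) : Nat.card (Z i) = 2 ^ i := by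
  refine le_antisymm ?_ (h.card_Z_ge hi)
  obtain ⟨k, rfl⟩ : ∃ k, i = 4 - k := ⟨4 - i, by omega⟩
  clear hi
  induction k with
  | zero => exact h.card4.le
  | succ k ih =>
    rcases Nat.lt_or_ge k 4 with hk | hk
    · have := two_mul_card_le (h.Z_mono (4 - (k + 1))) (h.Z_lt (by omega))
      rw [show 4 - (k + 1) + 1 = 4 - k by omega] at this
      have e : 2 ^ (4 - k) = 2 * 2 ^ (4 - (k + 1)) := by
        rw [← pow_succ']; congr 1; omega
      omega
    · rw [show 4 - (k + 1) = 4 - k by omega]; exact ih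

theorem W_le : W ≤ T := fun g hg => ((h.memW g).mp hg).1

theorem norm_W : ∀ t ∈ T, ∀ w ∈ W, t * w * t⁻¹ ∈ W := by
  intro t ht w hw
  rw [h.memW] at hw ⊢
  refine ⟨mul_mem (mul_mem ht hw.1) (inv_mem ht), fun z hz => ?_⟩
  have hz' : t⁻¹ * z * t ∈ Z 3 := by simpa using h.norm_Z 3 t⁻¹ (inv_mem ht) z hz
  calc t * w * t⁻¹ * z = t * (w * (t⁻¹ * z * t)) * t⁻¹ := by group
    _ = t * ((t⁻¹ * z * t) * w) * t⁻¹ := by rw [hw.2 _ hz']
    _ = z * (t * w * t⁻¹) := by group

theorem norm_fr : ∀ t ∈ T, ∀ d ∈ fr W, t * d * t⁻¹ ∈ fr W := by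
  intro t ht d hd
  have hle : fr W ≤ (fr W).comap (MulAut.conj t).toMonoidHom := fr_le_iff.mpr fun x hx => by
    show t * (x * x) * t⁻¹ ∈ fr W
    rw [show t * (x * x) * t⁻¹ = (t * x * t⁻¹) * (t * x * t⁻¹) by group]
    exact sq_mem_fr (h.norm_W t ht x hx)
  exact hle hd

/-- A normal subgroup of order at most `2 ^ i` lies in `Z i`. -/
theorem le_Z_of_card {X : Subgroup G} (hXT : X ≤ T) (hX : ∀ t ∈ T, ∀ x ∈ X, t * x * t⁻¹ ∈ X) :
    ∀ i, i ≤ 4 → Nat.card X ≤ 2 ^ i → X ≤ Z i := by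
  have key : ∀ j, ¬ X ≤ Z j → 2 ^ (j + 1) ≤ Nat.card (X ⊓ Z (j + 1) : Subgroup G) := by
    intro j
    induction j with
    | zero =>
      intro hne
      obtain ⟨x, hx, hxS, hx'⟩ := h.exists_next hXT hX hne
      have hxZ : x ∈ Z 1 := (h.step 0 x).mpr ⟨hXT hx, hx'⟩
      have := two_mul_card_le (A := (⊥ : Subgroup G)) (B := X ⊓ Z 1) bot_le fun hc => hxS (by
        rw [mem_bot.mp (hc ⟨hx, hxZ⟩)]; exact one_mem _)
      rwa [card_bot] at this
    | succ j ih =>
      intro hne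
      obtain ⟨x, hx, hxS, hx'⟩ := h.exists_next hXT hX hne
      have hxZ : x ∈ Z (j + 1 + 1) := (h.step _ x).mpr ⟨hXT hx, hx'⟩
      have := two_mul_card_le (A := X ⊓ Z (j + 1)) (B := X ⊓ Z (j + 1 + 1))
        (inf_le_inf_left _ (h.Z_mono _)) fun hc => hxS (hc ⟨hx, hxZ⟩).2
      have := ih fun hle => hne (hle.trans (h.Z_mono _))
      rw [pow_succ]
      omega
  intro i _ hc
  by_contra hne
  have := key i hne
  have := card_le_of_le (inf_le_left : X ⊓ Z (i + 1) ≤ X)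
  rw [pow_succ] at *
  have := Nat.two_pow_pos i
  omega

theorem fr_le_Z3 : fr W ≤ Z 3 :=
  h.le_Z_of_card ((fr_le_self W).trans h.W_le) h.norm_fr 3 (by omega) h.cardFr

theorem cent : ∀ d ∈ fr W, ∀ w ∈ W, d * w = w * d := fun d hd w hw =>
  (((h.memW w).mp hw).2 d (h.fr_le_Z3 hd)).symm

theorem setup : Setup T W (fr W) where
  isP := h.isP
  le := h.W_le
  norm := h.norm_W
  sub := fr_le_self W
  normD := h.norm_fr
  cent := h.cent
  sq := fun _ hw => sq_mem_fr hw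

/-- The commutators of `W` generate all its squares. -/
theorem sq_mem_of_commutators {K : Subgroup G} (hKW : K ≤ W)
    (hK : ∀ a ∈ W, ∀ b ∈ W, a * b * a⁻¹ * b⁻¹ ∈ K) {x : G} (hx : x ∈ W) : x * x ∈ K := by
  by_contra hxK
  obtain ⟨U, hU, hmax⟩ := exists_maximal_of
    (p := fun U : Subgroup G => U ≤ W ∧ K ≤ U ∧ x * x ∉ U)
    (h := ⟨K, hKW, le_rfl, hxK⟩)
  have hn' : ∀ g ∈ W, ∀ u ∈ U, g * u * g⁻¹ ∈ U := fun g hg u hu => by
    rw [show g * u * g⁻¹ = g * u * g⁻¹ * u⁻¹ * u by group]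
    exact mul_mem (hU.2.1 (hK g hg u (hU.1 hu))) hu
  have hnU : (U.subgroupOf W).Normal := ⟨fun a ha g => hn' g g.2 a ha⟩
  let q := QuotientGroup.mk' (U.subgroupOf W)
  haveI : IsMulCommutative (W ⧸ U.subgroupOf W) := ⟨⟨fun a b => by
    induction a using QuotientGroup.induction_on with
    | _ a =>
      induction b using QuotientGroup.induction_on with
      | _ b =>
        rw [← QuotientGroup.mk_mul, ← QuotientGroup.mk_mul, QuotientGroup.eq, mem_subgroupOf]
        refine hU.2.1 ?_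
        simpa [mul_assoc] using hK _ (inv_mem b.2) _ (inv_mem a.2)⟩⟩
  letI : CommGroup (W ⧸ U.subgroupOf W) :=
    { (inferInstance : Group (W ⧸ U.subgroupOf W)) with mul_comm := mul_comm' }
  let s : (W ⧸ U.subgroupOf W) →* (W ⧸ U.subgroupOf W) := powMonoidHom 2
  have hker : ∀ a : W ⧸ U.subgroupOf W, a ∈ s.ker → a = 1 ∨ a = q ⟨x * x, mul_mem hx hx⟩ := by
    intro a ha
    obtain ⟨⟨y, hy⟩, rfl⟩ := QuotientGroup.mk_surjective a
    change (q ⟨y, hy⟩) ^ 2 = 1 at ha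
    rw [pow_two, ← map_mul, QuotientGroup.mk'_apply, QuotientGroup.eq_one_iff, mem_subgroupOf] at ha
    by_contra hno
    push Not at hno
    have hyU : y ∉ U := fun hc => hno.1 ((QuotientGroup.eq_one_iff _).mpr (mem_subgroupOf.mpr hc))
    let L : Subgroup G :=
      { carrier := {g | g ∈ U ∨ y⁻¹ * g ∈ U}
        one_mem' := Or.inl (one_mem U)
        mul_mem' := fun {a b} ha' hb => by
          rcases ha' with ha' | ha' <;> rcases hb with hb | hb
          · exact Or.inl (mul_mem ha' hb)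
          · refine Or.inr ?_
            rw [show y⁻¹ * (a * b) = y⁻¹ * a * (y⁻¹)⁻¹ * (y⁻¹ * b) by group]
            exact mul_mem (hn' _ (inv_mem hy) a ha') hb
          · refine Or.inr ?_
            rw [show y⁻¹ * (a * b) = y⁻¹ * a * b by group]
            exact mul_mem ha' hb
          · refine Or.inl ?_
            rw [show a * b = y * (y⁻¹ * a) * y⁻¹ * (y * y) * (y⁻¹ * b) by group]
            exact mul_mem (mul_mem (hn' y hy _ ha') ha) hb
        inv_mem' := fun {a} ha' => by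
          rcases ha' with ha' | ha'
          · exact Or.inl (inv_mem ha')
          · refine Or.inr ?_
            rw [show y⁻¹ * a⁻¹ = y⁻¹ * (y⁻¹ * a)⁻¹ * (y⁻¹)⁻¹ * (y * y)⁻¹ by group]
            exact mul_mem (hn' _ (inv_mem hy) _ (inv_mem ha')) (inv_mem ha) }
    have hxL : x * x ∈ L := by
      by_contra hxL
      have hUL : U ≤ L := fun u hu => Or.inl hu
      have hyL : y ∈ L := Or.inr (by rw [inv_mul_cancel]; exact one_mem U)
      refine hyU (hmax ⟨?_, hU.2.1.trans hUL, hxL⟩ hUL hyL)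
      rintro g (hg | hg)
      · exact hU.1 hg
      · simpa using mul_mem hy (hU.1 hg)
    rcases hxL with hxL | hxL
    · exact hU.2.2 hxL
    · exact hno.2 (QuotientGroup.eq.mpr (mem_subgroupOf.mpr hxL))
  have hcard : (U.subgroupOf W).index ≤ 16 := by
    have h1 : Nat.card s.ker ≤ 2 := by
      classical
      have := Set.ncard_le_ncard (s := (s.ker : Set (W ⧸ U.subgroupOf W)))
        (t := {1, q ⟨x * x, mul_mem hx hx⟩}) (fun a ha => by simpa using hker a ha) (Set.toFinite _)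
      rw [← Nat.card_coe_set_eq] at this
      exact le_trans this (le_trans (Set.ncard_insert_le _ _) (by rw [Set.ncard_singleton]))
    have h2 : Nat.card s.range ≤ 8 := by
      refine le_trans (card_le_of_le (K := ((fr W).subgroupOf W).map q) ?_)
        (le_trans (Nat.le_of_dvd Nat.card_pos (card_map_dvd _ _)) ?_)
      · rintro _ ⟨a, rfl⟩
        obtain ⟨y, rfl⟩ := QuotientGroup.mk_surjective a
        exact ⟨y * y, mem_subgroupOf.mpr (sq_mem_fr y.2), by simp [s, q, pow_two]⟩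
      · rw [Nat.card_congr (subgroupOfEquivOfLe (fr_le_self W)).toEquiv]
        exact h.cardFr
    rw [index_eq_card, ← card_mul_index s.ker, index_ker]
    calc Nat.card s.ker * Nat.card s.range ≤ 2 * 8 := Nat.mul_le_mul h1 h2
      _ = 16 := rfl
  exact hU.2.2 (h.small U hU.1 hcard (sq_mem_fr hx))

theorem fr_exp_two : ∀ d ∈ fr W, d * d = 1 := by
  -- the commutators have square one, and they generate
  have hc1 : ∀ x ∈ W, ∀ y ∈ W, (x * y * x⁻¹ * y⁻¹) * (x * y * x⁻¹ * y⁻¹) = 1 := by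
    intro x hx y hy
    have hcD := h.setup.comm hx hy
    calc (x * y * x⁻¹ * y⁻¹) * (x * y * x⁻¹ * y⁻¹)
        = x * ((y * x⁻¹ * y⁻¹) * (x * y * x⁻¹ * y⁻¹)) := by group
      _ = x * ((x * y * x⁻¹ * y⁻¹) * (y * x⁻¹ * y⁻¹)) := by
          rw [h.cent _ hcD _ (mul_mem (mul_mem hy (inv_mem hx)) (inv_mem hy))]
      _ = (x * x) * y * (x * x)⁻¹ * y⁻¹ := by group
      _ = 1 := by rw [h.cent _ (sq_mem_fr hx) y hy, mul_inv_cancel_right, mul_inv_cancel]
  let K : Subgroup G :=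
    { carrier := {g | g ∈ fr W ∧ g * g = 1}
      one_mem' := ⟨one_mem _, one_mul 1⟩
      mul_mem' := fun {a b} ha hb => ⟨mul_mem ha.1 hb.1, by
        rw [mul_assoc, ← mul_assoc b a, ← h.cent a ha.1 b (fr_le_self W hb.1), mul_assoc a b,
          ← mul_assoc, ha.2, hb.2, one_mul]⟩
      inv_mem' := fun {a} ha => ⟨inv_mem ha.1, by rw [← mul_inv_rev, ha.2, inv_one]⟩ }
  intro d hd
  suffices hle : fr W ≤ K from (hle hd).2
  exact fr_le_iff.mpr fun x hx => h.sq_mem_of_commutators (K := K) (fun k hk => fr_le_self W hk.1)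
    (fun a ha b hb => ⟨h.setup.comm ha hb, hc1 a ha b hb⟩) hx

/-- The derived group of `W` is the subgroup of squares. -/
theorem commutator_eq : ⁅W, W⁆ = fr W := by
  refine le_antisymm (commutator_le.mpr fun x hx y hy => comm_mem_fr hx hy) ?_
  exact fr_le_iff.mpr fun x hx => h.sq_mem_of_commutators
    ((commutator_le.mpr fun x hx y hy => comm_mem_fr hx hy).trans (fr_le_self W))
    (fun a ha b hb => commutator_mem_commutator ha hb) hx

end Hyp

end Cfsg.Agent.H53.Rudvalis
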