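import Cfsg.Agent.H20.WeaklyClosedTransfer

/-!
# Vanishing of the summands of a transfer over the orbits of a 2-group

`W ⊴ T`, with squares and commutators of `W` inside the central elementary subgroup `D`.
-/

set_option autoImplicit false
set_option linter.style.haveILetI false
set_option linter.unusedSectionVars false
open Subgroup MulAction Finset
open scoped Pointwise

namespace Cfsg.Agent.H53.Rudvalis

open Cfsg.Agent.H20.WCTransfer (term term_mul transfer_eq)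

variable {G : Type*} [Group G] [Finite G]

/-- The subgroup generated by the squares. -/
def fr (H : Subgroup G) : Subgroup G := Subgroup.closure {z | ∃ x ∈ H, x * x = z}

theorem sq_mem_fr {H : Subgroup G} {x : G} (hx : x ∈ H) : x * x ∈ fr H :=
  Subgroup.subset_closure ⟨x, hx, rfl⟩

theorem fr_le_iff {H S : Subgroup G} : fr H ≤ S ↔ ∀ x ∈ H, x * x ∈ S := by
  rw [fr, Subgroup.closure_le]
  exact ⟨fun h x hx => h ⟨x, hx, rfl⟩, fun h _ ⟨x, hx, e⟩ => e ▸ h x hx⟩

theorem fr_le_self (H : Subgroup G) : fr H ≤ H := fr_le_iff.mpr fun _ hx => mul_mem hx hx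

theorem fr_mono {H K : Subgroup G} (h : H ≤ K) : fr H ≤ fr K :=
  fr_le_iff.mpr fun _ hx => sq_mem_fr (h hx)

theorem comm_mem_fr {H : Subgroup G} {x y : G} (hx : x ∈ H) (hy : y ∈ H) :
    x * y * x⁻¹ * y⁻¹ ∈ fr H := by
  rw [show x * y * x⁻¹ * y⁻¹ = x * x * (x⁻¹ * y * (x⁻¹ * y)) * (y⁻¹ * y⁻¹) by group]
  exact mul_mem (mul_mem (sq_mem_fr hx) (sq_mem_fr (mul_mem (inv_mem hx) hy)))
    (sq_mem_fr (inv_mem hy))

/-- In a 2-group a proper subgroup lies in one of index two containing all squares. -/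
theorem exists_halving {H K : Subgroup G} (hH : IsPGroup 2 H) (hKH : K ≤ H) (hne : ¬ H ≤ K) :
    ∃ B ≤ H, K ≤ B ∧ (∀ x ∈ H, ∀ y ∈ H, x ∉ B → (y ∈ B ∨ x⁻¹ * y ∈ B)) ∧ fr H ≤ B ∧ ¬ H ≤ B ∧
      (∀ x ∈ H, ∀ y ∈ B, x⁻¹ * y * x ∈ B) := by
  haveI : Fact (Nat.Prime 2) := ⟨Nat.prime_two⟩
  obtain ⟨M, hMn, hMi, hKM⟩ := H80.Yoshida.exists_index_prime hH (T := K.subgroupOf H)
    fun h => hne (subgroupOf_eq_top.mp h)
  have hmem : ∀ {x : G} (hx : x ∈ H), x ∈ M.map H.subtype ↔ (⟨x, hx⟩ : H) ∈ M := fun {x} hx =>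
    ⟨fun ⟨z, hz, e⟩ => by rwa [show (⟨x, hx⟩ : H) = z from Subtype.ext e.symm],
      fun h => ⟨_, h, rfl⟩⟩
  refine ⟨M.map H.subtype, map_subtype_le M, fun x hx => (hmem (hKH hx)).mpr (hKM hx),
    fun x hx y hy hxM => ?_, fr_le_iff.mpr fun x hx => (hmem (mul_mem hx hx)).mpr ?_, fun h => ?_,
    fun x hx y hy => ?_⟩
  · rw [hmem hx] at hxM
    rw [hmem hy, hmem (mul_mem (inv_mem hx) hy), or_iff_not_imp_left]
    intro hyM
    show (⟨x, hx⟩ : H)⁻¹ * ⟨y, hy⟩ ∈ M
    rw [mul_mem_iff_of_index_two hMi, inv_mem_iff]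
    exact iff_of_false hxM hyM
  · show (⟨x, hx⟩ : H) * ⟨x, hx⟩ ∈ M
    exact (mul_mem_iff_of_index_two hMi).mpr Iff.rfl
  · have : M = ⊤ := eq_top_iff.mpr fun z _ => (hmem z.2).mp (h z.2)
    rw [this, index_top] at hMi
    omega
  · obtain ⟨z, hz, rfl⟩ := hy
    exact ⟨(⟨x, hx⟩ : H)⁻¹ * z * ⟨x, hx⟩, by
      simpa using hMn.conj_mem z hz (⟨x, hx⟩ : H)⁻¹, rfl⟩

/-- The squares are non-generators. -/
theorem le_of_le_sup_fr {H K : Subgroup G} (hH : IsPGroup 2 H) (hKH : K ≤ H)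
    (h : H ≤ K ⊔ fr H) : H ≤ K := by
  by_contra hne
  obtain ⟨B, -, hKB, -, hfB, hHB, -⟩ := exists_halving hH hKH hne
  exact hHB (h.trans (sup_le hKB hfB))

section

variable {M : Subgroup G} {A : Type*} [CommGroup A]

open Classical in
/-- The orbit of a coset under a subgroup. -/
noncomputable def orb (H : Subgroup G) (i : G ⧸ M) : Finset (G ⧸ M) :=
  letI := Fintype.ofFinite (G ⧸ M)
  Finset.univ.filter fun u => ∃ h ∈ H, h • i = u

theorem mem_orb {H : Subgroup G} {i u : G ⧸ M} : u ∈ orb H i ↔ ∃ h ∈ H, h • i = u := by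
  simp [orb]

theorem self_mem_orb (H : Subgroup G) (i : G ⧸ M) : i ∈ orb H i :=
  mem_orb.mpr ⟨1, one_mem H, one_smul G i⟩

/-- `y` preserves the orbit of `i` under the subgroup it normalises. -/
theorem smul_mem_orb {H : Subgroup G} {i : G ⧸ M} {y : G}
    (hn : ∀ h ∈ H, y * h * y⁻¹ ∈ H) (hy : y • i ∈ orb H i) {u : G ⧸ M} (hu : u ∈ orb H i) :
    y • u ∈ orb H i := by
  obtain ⟨h, hh, rfl⟩ := mem_orb.mp hu
  obtain ⟨k, hk, hk'⟩ := mem_orb.mp hy
  refine mem_orb.mpr ⟨y * h * y⁻¹ * k, mul_mem (hn h hh) hk, ?_⟩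
  rw [mul_smul, hk', ← mul_smul, ← mul_smul, inv_mul_cancel_right]

theorem smul_mem_orb_of_mem {H : Subgroup G} {i : G ⧸ M} {y : G} (hy : y ∈ H) {u : G ⧸ M}
    (hu : u ∈ orb H i) : y • u ∈ orb H i := by
  obtain ⟨h, hh, rfl⟩ := mem_orb.mp hu
  exact mem_orb.mpr ⟨y * h, mul_mem hy hh, mul_smul y h i⟩

/-- The product of the summands of `y` over the orbit. -/
noncomputable def P (χ : M →* A) (H : Subgroup G) (i : G ⧸ M) (y : G) : A :=
  ∏ u ∈ orb H i, term χ y u

theorem prod_smul_of_stable {H : Subgroup G} {i : G ⧸ M} {y : G}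
    (hy : ∀ u ∈ orb H i, y • u ∈ orb H i) (f : G ⧸ M → A) :
    ∏ u ∈ orb H i, f (y • u) = ∏ u ∈ orb H i, f u := by
  classical
  refine Finset.prod_nbij (fun u => y • u) hy (fun a _ b _ h => MulAction.injective y h)
    (fun u hu => ?_) fun _ _ => rfl
  have hb : Finset.image (fun v => y • v) (orb H i) = orb H i :=
    Finset.eq_of_subset_of_card_le (Finset.image_subset_iff.mpr hy)
      (le_of_eq (Finset.card_image_of_injective _ (MulAction.injective y)).symm)
  rw [Finset.mem_coe, ← hb] at hu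
  obtain ⟨v, hv, rfl⟩ := Finset.mem_image.mp hu
  exact ⟨v, hv, rfl⟩

theorem P_mul (χ : M →* A) {H : Subgroup G} {i : G ⧸ M} (a : G) {y : G}
    (hy : ∀ u ∈ orb H i, y • u ∈ orb H i) : P χ H i (a * y) = P χ H i a * P χ H i y := by
  simp only [P, term_mul, Finset.prod_mul_distrib]
  rw [prod_smul_of_stable hy fun u => term χ a u]

/-- Splitting an orbit along a subgroup of index two. -/
theorem P_split (χ : M →* A) {H B : Subgroup G} {i : G ⧸ M} {w : G} (hwH : w ∈ H) (hwB : w ∉ B)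
    (hBH : B ≤ H) (h2 : ∀ y ∈ H, y ∈ B ∨ w⁻¹ * y ∈ B) (hst : ∀ h ∈ H, h • i = i → h ∈ B) (y : G) :
    P χ H i y = P χ B i y * ∏ u ∈ orb B i, term χ y (w • u) := by
  classical
  have hset : orb H i = orb B i ∪ (orb B i).image fun u => w • u := by
    ext u
    rw [Finset.mem_union, Finset.mem_image, mem_orb]
    constructor
    · rintro ⟨h, hh, rfl⟩
      rcases h2 h hh with hb | hb
      · exact Or.inl (mem_orb.mpr ⟨h, hb, rfl⟩)
      · exact Or.inr ⟨_, mem_orb.mpr ⟨_, hb, rfl⟩, by rw [← mul_smul, mul_inv_cancel_left]⟩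
    · rintro (hu | ⟨v, hv, rfl⟩)
      · obtain ⟨b, hb, rfl⟩ := mem_orb.mp hu
        exact ⟨b, hBH hb, rfl⟩
      · obtain ⟨b, hb, rfl⟩ := mem_orb.mp hv
        exact ⟨w * b, mul_mem hwH (hBH hb), mul_smul w b i⟩
  have hdisj : Disjoint (orb B i) ((orb B i).image fun u => w • u) := by
    rw [Finset.disjoint_left]
    intro u hu hu'
    obtain ⟨v, hv, rfl⟩ := Finset.mem_image.mp hu'
    obtain ⟨b, hb, rfl⟩ := mem_orb.mp hv
    obtain ⟨b', hb', hbb⟩ := mem_orb.mp hu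
    have := hst (b'⁻¹ * (w * b)) (mul_mem (inv_mem (hBH hb')) (mul_mem hwH (hBH hb)))
      (by rw [mul_smul, mul_smul, ← hbb, inv_smul_smul])
    exact hwB (by
      simpa [mul_assoc] using mul_mem (mul_mem hb' this) (inv_mem hb))
  rw [P, hset, Finset.prod_union hdisj,
    Finset.prod_image fun a _ b _ h => MulAction.injective w h]
  rfl

theorem P_split_conj (χ : M →* A) {H B : Subgroup G} {i : G ⧸ M} {w : G} (hwH : w ∈ H) (hwB : w ∉ B)
    (hBH : B ≤ H) (h2 : ∀ y ∈ H, y ∈ B ∨ w⁻¹ * y ∈ B) (hst : ∀ h ∈ H, h • i = i → h ∈ B) {y : G}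
    (hy : ∀ u ∈ orb B i, (w⁻¹ * y * w) • u ∈ orb B i) :
    P χ H i y = P χ B i y * P χ B i (w⁻¹ * y * w) := by
  rw [P_split χ hwH hwB hBH h2 hst]
  congr 1
  have h1 : ∀ u : G ⧸ M, term χ y (w • u) * term χ w u =
      term χ w ((w⁻¹ * y * w) • u) * term χ (w⁻¹ * y * w) u := fun u => by
    rw [← term_mul, ← term_mul, mul_assoc w⁻¹, mul_inv_cancel_left]
  have h2' := Finset.prod_congr rfl fun u (_ : u ∈ orb B i) => h1 u
  rw [Finset.prod_mul_distrib, Finset.prod_mul_distrib,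
    prod_smul_of_stable hy fun u => term χ w u, mul_comm] at h2'
  exact mul_left_cancel h2'

theorem P_split_self (χ : M →* A) {H B : Subgroup G} {i : G ⧸ M} {w : G} (hwH : w ∈ H)
    (hwB : w ∉ B) (hBH : B ≤ H) (h2 : ∀ y ∈ H, y ∈ B ∨ w⁻¹ * y ∈ B)
    (hst : ∀ h ∈ H, h • i = i → h ∈ B) : P χ H i w = P χ B i (w * w) := by
  rw [P_split χ hwH hwB hBH h2 hst, mul_comm]
  show _ = ∏ u ∈ orb B i, term χ (w * w) u
  simp only [term_mul, Finset.prod_mul_distrib]
  rfl

/-- The data. -/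
structure Setup (T W D : Subgroup G) : Prop where
  isP : IsPGroup 2 T
  le : W ≤ T
  norm : ∀ t ∈ T, ∀ w ∈ W, t * w * t⁻¹ ∈ W
  sub : D ≤ W
  normD : ∀ t ∈ T, ∀ d ∈ D, t * d * t⁻¹ ∈ D
  cent : ∀ d ∈ D, ∀ w ∈ W, d * w = w * d
  sq : ∀ w ∈ W, w * w ∈ D

theorem Setup.comm {T W D : Subgroup G} (S : Setup T W D) {x y : G} (hx : x ∈ W) (hy : y ∈ W) :
    x * y * x⁻¹ * y⁻¹ ∈ D :=
  fr_le_iff.mpr S.sq (comm_mem_fr hx hy)

variable (χ : M →* A) (hA : ∀ a : A, a * a = 1) {T W D : Subgroup G} (S : Setup T W D)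
include hA S

/-- If the summands vanish on every element preserving a block, they vanish on the `T`-orbit. -/
theorem prod_orbit_eq_one {i : G ⧸ M}
    (h : ∀ y ∈ T, y • i ∈ orb W i → P χ W i y = 1) {t : G} (ht : t ∈ T) :
    ∏ u ∈ orb T i, term χ t u = 1 := by
  classical
  let F : G ⧸ M → Finset (G ⧸ M) := fun u => orb W u
  set BL := (orb T i).image F with hBL
  have hblock : ∀ s ∈ T, orb W (s • i) = (orb W i).image fun u => s • u := by
    intro s hs
    ext u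
    rw [Finset.mem_image, mem_orb]
    constructor
    · rintro ⟨w, hw, rfl⟩
      exact ⟨(s⁻¹ * w * s) • i, mem_orb.mpr ⟨_, by simpa using S.norm s⁻¹ (inv_mem hs) w hw, rfl⟩,
        by simp [← mul_smul, mul_assoc]⟩
    · rintro ⟨v, hv, rfl⟩
      obtain ⟨w, hw, rfl⟩ := mem_orb.mp hv
      exact ⟨s * w * s⁻¹, S.norm s hs w hw, by simp [← mul_smul, mul_assoc]⟩
  have hP : ∀ s ∈ T, ∀ s' ∈ T, orb W (s • i) = orb W (s' • i) → P χ W i s = P χ W i s' := by
    intro s hs s' hs' e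
    have hm : (s'⁻¹ * s) • i ∈ orb W i := by
      have : s • i ∈ orb W (s' • i) := e ▸ self_mem_orb W (s • i)
      rw [hblock s' hs', Finset.mem_image] at this
      obtain ⟨v, hv, hve⟩ := this
      rwa [mul_smul, ← hve, inv_smul_smul]
    have hyT : s'⁻¹ * s ∈ T := mul_mem (inv_mem hs') hs
    rw [show s = s' * (s'⁻¹ * s) by group,
      P_mul χ s' (fun u hu => smul_mem_orb (fun w hw => S.norm _ hyT w hw) hm hu), h _ hyT hm,
      mul_one]
  let a : Finset (G ⧸ M) → A := fun b =>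
    if hb : ∃ s, s ∈ T ∧ orb W (s • i) = b then P χ W i hb.choose else 1
  have ha : ∀ s ∈ T, a (orb W (s • i)) = P χ W i s := by
    intro s hs
    have hb : ∃ s', s' ∈ T ∧ orb W (s' • i) = orb W (s • i) := ⟨s, hs, rfl⟩
    simp only [a, dif_pos hb]
    exact hP _ hb.choose_spec.1 s hs hb.choose_spec.2
  let sh : Finset (G ⧸ M) → Finset (G ⧸ M) := fun b => b.image fun u => t • u
  have hsh : ∀ s ∈ T, sh (orb W (s • i)) = orb W ((t * s) • i) := fun s hs => by
    rw [hblock s hs, hblock _ (mul_mem ht hs)]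
    simp [sh, Finset.image_image, Function.comp_def, mul_smul]
  have hfib : ∀ s ∈ T, (orb T i).filter (fun u => F u = orb W (s • i)) = orb W (s • i) := by
    intro s hs
    ext u
    rw [Finset.mem_filter]
    constructor
    · rintro ⟨-, hu⟩
      rw [← hu]
      exact self_mem_orb W u
    · intro hu
      obtain ⟨w, hw, rfl⟩ := mem_orb.mp hu
      refine ⟨mem_orb.mpr ⟨w * s, mul_mem (S.le hw) hs, mul_smul w s i⟩, ?_⟩
      show orb W (w • s • i) = orb W (s • i)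
      ext v
      rw [mem_orb, mem_orb]
      constructor
      · rintro ⟨h', hh', rfl⟩; exact ⟨h' * w, mul_mem hh' hw, mul_smul _ _ _⟩
      · rintro ⟨h', hh', rfl⟩
        exact ⟨h' * w⁻¹, mul_mem hh' (inv_mem hw), by rw [mul_smul, inv_smul_smul]⟩
  rw [← Finset.prod_fiberwise_of_maps_to (g := F) (t := BL) fun u hu =>
    Finset.mem_image_of_mem F hu]
  have hval : ∀ b ∈ BL, ∏ u ∈ (orb T i).filter (fun u => F u = b), term χ t u =
      a (sh b) * (a b)⁻¹ := by
    intro b hb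
    obtain ⟨v, hv, rfl⟩ := Finset.mem_image.mp hb
    obtain ⟨s, hs, rfl⟩ := mem_orb.mp hv
    rw [hfib s hs, ha s hs, hsh s hs, ha _ (mul_mem ht hs), hblock s hs,
      Finset.prod_image fun a _ b _ h => MulAction.injective s h, eq_mul_inv_iff_mul_eq]
    simp only [P, term_mul, Finset.prod_mul_distrib]
  rw [Finset.prod_congr rfl hval, Finset.prod_mul_distrib, Finset.prod_inv_distrib,
    mul_inv_eq_one]
  refine Finset.prod_nbij sh (fun b hb => ?_) (fun x hx y hy e => ?_) (fun b hb => ?_)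
    fun _ _ => rfl
  · obtain ⟨v, hv, rfl⟩ := Finset.mem_image.mp hb
    obtain ⟨s, hs, rfl⟩ := mem_orb.mp hv
    rw [hsh s hs]
    exact Finset.mem_image_of_mem F (mem_orb.mpr ⟨_, mul_mem ht hs, rfl⟩)
  · exact Finset.image_injective (MulAction.injective t) e
  · obtain ⟨v, hv, rfl⟩ := Finset.mem_image.mp hb
    obtain ⟨s, hs, rfl⟩ := mem_orb.mp hv
    refine ⟨orb W ((t⁻¹ * s) • i),
      Finset.mem_image_of_mem F (mem_orb.mpr ⟨_, mul_mem (inv_mem ht) hs, rfl⟩), ?_⟩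
    rw [hsh _ (mul_mem (inv_mem ht) hs), mul_inv_cancel_left]

omit S in
theorem P_mul_self (H : Subgroup G) (i : G ⧸ M) (y : G) : P χ H i y * P χ H i y = 1 := hA _

/-- A hom on a halved orbit that kills `D` on the lower half kills the whole upper half. -/
theorem P_eq_one_of_half {i : G ⧸ M} {H B : Subgroup G} {w : G} (hH : H ≤ W) (hwH : w ∈ H)
    (hwB : w ∉ B) (hBH : B ≤ H) (h2 : ∀ y ∈ H, y ∈ B ∨ w⁻¹ * y ∈ B)
    (hst : ∀ h ∈ H, h • i = i → h ∈ B) (hDB : D ≤ B) (hD : ∀ d ∈ D, P χ B i d = 1)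
    {y : G} (hy : y ∈ H) : P χ H i y = 1 := by
  have hww : w * w ∈ B := hDB (S.sq w (hH hwH))
  have hw : P χ H i w = 1 := by
    rw [P_split_self χ hwH hwB hBH h2 hst]
    exact hD _ (S.sq w (hH hwH))
  have hb : ∀ b ∈ B, P χ H i b = 1 := by
    intro b hb
    have hcD : b⁻¹ * (w⁻¹ * b * w) ∈ D := by
      have := S.comm (hH (inv_mem (hBH hb))) (hH (inv_mem hwH))
      simpa [mul_assoc] using this
    rw [P_split_conj χ hwH hwB hBH h2 hst fun u hu =>
        smul_mem_orb_of_mem (by simpa using mul_mem hb (hDB hcD)) hu,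
      show w⁻¹ * b * w = b * (b⁻¹ * (w⁻¹ * b * w)) by group,
      P_mul χ b (fun u hu => smul_mem_orb_of_mem (hDB hcD) hu), hD _ hcD, mul_one]
    exact hA _
  rcases h2 y hy with hyb | hyb
  · exact hb y hyb
  · rw [show y = w * (w⁻¹ * y) by group,
      P_mul χ w (fun u hu => smul_mem_orb_of_mem (mul_mem (inv_mem hwH) hy) hu), hw,
      hb _ hyb, one_mul]

/-- The summands vanish on the orbit of `i` as soon as the stabiliser in `W`, together with `D`,
has index at least eight, or has index four and contains `D` among its squares. -/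
theorem prod_orbit_eq_one_of_small {i : G ⧸ M} {R : Subgroup G}
    (hR : ∀ g, g ∈ R ↔ g ∈ W ∧ g • i = i)
    (hcase : (R ⊔ D).relIndex W ≥ 8 ∨ (D ≤ fr R ∧ R.relIndex W = 4))
    {t : G} (ht : t ∈ T) : ∏ u ∈ orb T i, term χ t u = 1 := by
  classical
  haveI : Fact (Nat.Prime 2) := ⟨Nat.prime_two⟩
  have hRW : R ≤ W := fun x hx => ((hR x).mp hx).1
  have hst : ∀ h ∈ W, h • i = i → h ∈ R := fun h hh he => (hR h).mpr ⟨hh, he⟩
  have hWp : IsPGroup 2 W := S.isP.to_le S.le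
  have hcard : ∀ {H B : Subgroup G}, B ≤ H → (∀ w ∈ H, ∀ y ∈ H, w ∉ B → (y ∈ B ∨ w⁻¹ * y ∈ B)) →
      ¬ H ≤ B → B.relIndex H = 2 := by
    intro H B hBH h2 hne
    obtain ⟨w, hw, hwB⟩ := SetLike.not_le_iff_exists.mp hne
    rw [relIndex, index_eq_two_iff]
    refine ⟨(⟨w, hw⟩ : H)⁻¹, fun b => ?_⟩
    show Xor _ _
    rw [mem_subgroupOf, mem_subgroupOf, Subgroup.coe_mul, Subgroup.coe_inv]
    rcases h2 w hw b b.2 hwB with hb | hb
    · refine Or.inr ⟨hb, fun hc => hwB ?_⟩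
      have hn : (b : G) * w⁻¹ ∈ B := hc
      exact inv_mem_iff.mp (by simpa using mul_mem (inv_mem hb) hn)
    · by_cases hb' : (b : G) ∈ B
      · refine Or.inr ⟨hb', fun hc => hwB ?_⟩
        exact inv_mem_iff.mp (by simpa using mul_mem (inv_mem hb') hc)
      · refine Or.inl ⟨?_, hb'⟩
        rcases h2 w hw ((b : G) * w⁻¹) (mul_mem b.2 (inv_mem hw)) hwB with hc | hc
        · exact hc
        · exfalso
          refine hwB (inv_mem_iff.mp ?_)
          have := mul_mem (inv_mem hb) hc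
          simpa [mul_assoc] using this
  -- the first halving, normalised by the stabiliser
  set U : Subgroup G := T ⊓ stabilizer G i with hU
  set X : Subgroup G := W ⊔ U with hX
  have hXT : X ≤ T := sup_le S.le inf_le_left
  have hUn : ∀ u ∈ U, ∀ w ∈ W, u * w * u⁻¹ ∈ W := fun u hu w hw => S.norm u hu.1 w hw
  have hWne : ¬ W ≤ R ⊔ D := by
    intro h
    rcases hcase with h8 | ⟨hDR, h4⟩
    · rw [relIndex_eq_one.mpr h] at h8; omega
    · rw [sup_eq_left.mpr (hDR.trans (fr_le_self R))] at h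
      rw [relIndex_eq_one.mpr h] at h4; omega
  have hXne : ¬ X ≤ U ⊔ D := by
    intro h
    refine hWne fun w hw => ?_
    have hw' : w ∈ U ⊔ D := h (mem_sup_left hw)
    obtain ⟨u, hu, d, hd, rfl⟩ : ∃ u ∈ U, ∃ d ∈ D, u * d = w := by
      have hle : U ≤ normalizer (D : Set G) := fun u hu => mem_normalizer_iff.mpr fun d =>
        ⟨fun hd => S.normD u hu.1 d hd, fun hd => by
          simpa [mul_assoc] using S.normD u⁻¹ (inv_mem hu.1) _ hd⟩
      have : (↑(U ⊔ D) : Set G) = (U : Set G) * (D : Set G) :=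
        Subgroup.coe_mul_of_left_le_normalizer_right U D hle
      rw [← SetLike.mem_coe, this] at hw'
      exact Set.mem_mul.mp hw'
    have huW : u ∈ W := by simpa using mul_mem hw (inv_mem (S.sub hd))
    exact mul_mem (mem_sup_left ((hR u).mpr ⟨huW, mem_stabilizer_iff.mp hu.2⟩)) (mem_sup_right hd)
  obtain ⟨BX, hBX, hUB, h2X, -, hneX, hnX⟩ := exists_halving (S.isP.to_le hXT)
    (sup_le le_sup_right (S.sub.trans le_sup_left)) hXne
  set B := W ⊓ BX with hB
  have hWB : ¬ W ≤ B := fun h =>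
    hneX (sup_le (h.trans inf_le_right) ((le_sup_left.trans hUB : U ≤ BX)))
  obtain ⟨w, hwW, hwB⟩ := SetLike.not_le_iff_exists.mp hWB
  have hwBX : w ∉ BX := fun h => hwB ⟨hwW, h⟩
  have hBW : B ≤ W := inf_le_left
  have h2 : ∀ w ∈ W, ∀ y ∈ W, w ∉ B → (y ∈ B ∨ w⁻¹ * y ∈ B) := fun w hw y hy hwB' =>
    (h2X w (mem_sup_left hw) y (mem_sup_left hy) fun h => hwB' ⟨hw, h⟩).imp (fun h => ⟨hy, h⟩)
      fun h => ⟨W.mul_mem (W.inv_mem hw) hy, h⟩
  have h2w : ∀ y ∈ W, y ∈ B ∨ w⁻¹ * y ∈ B := fun y hy => h2 w hwW y hy hwB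
  have hRB : R ⊔ D ≤ B := sup_le
    (fun x hx => ⟨hRW hx, (le_sup_left.trans hUB : U ≤ BX)
      ⟨S.le (hRW hx), mem_stabilizer_iff.mpr ((hR x).mp hx).2⟩⟩)
    fun x hx => ⟨S.sub hx, hUB (mem_sup_right hx)⟩
  have hstB : ∀ h ∈ W, h • i = i → h ∈ B := fun h hh he => hRB (mem_sup_left (hst h hh he))
  -- the lower half kills `B`
  have hlow : ∀ b ∈ B, P χ B i b = 1 := by
    have hBi : B.relIndex W = 2 := hcard hBW h2 hWB
    rcases hcase with h8 | ⟨hDR, h4⟩
    · have hne : ¬ B ≤ R ⊔ D := fun h => by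
        rw [le_antisymm hRB h, hBi] at h8; omega
      obtain ⟨B2, hB2, hRB2, h22, -, hne2, -⟩ := exists_halving (hWp.to_le hBW) hRB hne
      have hne' : ¬ B2 ≤ R ⊔ D := fun h => by
        rw [← relIndex_mul_relIndex _ _ _ hRB hBW, ← relIndex_mul_relIndex _ _ _ hRB2 hB2,
          relIndex_eq_one.mpr h, hBi, hcard hB2 h22 hne2] at h8
        omega
      obtain ⟨B3, hB3, hRB3, h23, -, hne3, -⟩ := exists_halving (hWp.to_le (hB2.trans hBW)) hRB2 hne'
      obtain ⟨w2, hw2, hw2B⟩ := SetLike.not_le_iff_exists.mp hne2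
      obtain ⟨w3, hw3, hw3B⟩ := SetLike.not_le_iff_exists.mp hne3
      intro b hb
      refine P_eq_one_of_half χ hA S hBW hw2 hw2B hB2 (fun y hy => h22 w2 hw2 y hy hw2B)
        (fun h hh he => hRB2 (mem_sup_left (hst h (hBW hh) he))) (le_sup_right.trans hRB2)
        (fun d hd => ?_) hb
      have hd3 : d ∈ B3 := hRB3 (mem_sup_right hd)
      rw [P_split_conj χ hw3 hw3B hB3 (fun y hy => h23 w3 hw3 y hy hw3B)
        (fun h hh he => hRB3 (mem_sup_left (hst h (hBW (hB2 hh)) he)))]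
      all_goals rw [show w3⁻¹ * d * w3 = d by
        rw [mul_assoc, S.cent d hd w3 (hBW (hB2 hw3)), inv_mul_cancel_left]]
      · exact hA _
      · exact fun u hu => smul_mem_orb_of_mem hd3 hu
    · have hne : ¬ B ≤ R := fun h => by
        rw [le_antisymm (le_sup_left.trans hRB) h, hBi] at h4; omega
      obtain ⟨B2, hB2, hRB2, h22, -, hne2, -⟩ :=
        exists_halving (hWp.to_le hBW) (le_sup_left.trans hRB) hne
      have hB2R : B2 ≤ R := by
        have hm := h4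
        rw [← relIndex_mul_relIndex _ _ _ (le_sup_left.trans hRB) hBW,
          ← relIndex_mul_relIndex _ _ _ hRB2 hB2, hBi, hcard hB2 h22 hne2] at hm
        exact relIndex_eq_one.mp (by omega)
      obtain rfl := le_antisymm hB2R hRB2
      obtain ⟨w2, hw2, hw2B⟩ := SetLike.not_le_iff_exists.mp hne2
      intro b hb
      refine P_eq_one_of_half χ hA S hBW hw2 hw2B hB2 (fun y hy => h22 w2 hw2 y hy hw2B)
        (fun h hh he => hst h (hBW hh) he) (hDR.trans (fr_le_self _)) (fun d hd => ?_) hb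
      -- the stabiliser kills its squares
      have hfix : ∀ g ∈ B2, ∀ u ∈ orb B2 i, g • u ∈ orb B2 i := fun g hg u hu =>
        smul_mem_orb_of_mem hg hu
      let K : Subgroup G :=
        { carrier := {g | g ∈ B2 ∧ P χ B2 i g = 1}
          one_mem' := ⟨one_mem _, by
            have := P_mul χ (H := B2) (i := i) 1 (hfix 1 (one_mem _))
            rw [one_mul] at this
            exact left_eq_mul.mp this⟩
          mul_mem' := fun {a b} ha hb => ⟨mul_mem ha.1 hb.1, by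
            rw [P_mul χ a (hfix b hb.1), ha.2, hb.2, one_mul]⟩
          inv_mem' := fun {a} ha => ⟨inv_mem ha.1, by
            have h1 := P_mul χ a (hfix a⁻¹ (inv_mem ha.1))
            rw [mul_inv_cancel, ha.2, one_mul] at h1
            rw [← h1]
            have := P_mul χ (H := B2) (i := i) 1 (hfix 1 (one_mem _))
            rw [one_mul] at this
            exact left_eq_mul.mp this⟩ }
      exact ((fr_le_iff (S := K)).mpr (fun x hx => ⟨mul_mem hx hx, by
        rw [P_mul χ x (hfix x hx)]; exact hA _⟩) (hDR hd)).2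
  -- elements preserving the block
  refine prod_orbit_eq_one χ hA S (fun y hyT hy => ?_) ht
  obtain ⟨v, hv, hve⟩ := mem_orb.mp hy
  have hu : v⁻¹ * y ∈ U := ⟨T.mul_mem (T.inv_mem (S.le hv)) hyT, mem_stabilizer_iff.mpr (by
    rw [mul_smul, ← hve, inv_smul_smul])⟩
  set u := v⁻¹ * y
  have hy' : y = v * u := by simp [u]
  have hui : u • i = i := mem_stabilizer_iff.mp hu.2
  have huB : ∀ b ∈ B, u * b * u⁻¹ ∈ B := fun b hb => ⟨hUn u hu b hb.1, by
    have := hnX u⁻¹ (inv_mem (mem_sup_right hu)) b hb.2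
    simpa [mul_assoc] using this⟩
  have hustab : ∀ z ∈ orb B i, u • z ∈ orb B i := fun z hz =>
    smul_mem_orb huB (by rw [hui]; exact self_mem_orb B i) hz
  have hbmem : u⁻¹ * (w⁻¹ * u * w) ∈ B := by
    refine ⟨by simpa [mul_assoc] using mul_mem (hUn u⁻¹ (inv_mem hu) w⁻¹ (inv_mem hwW)) hwW, ?_⟩
    have hwuw : w⁻¹ * u * w ∈ BX := hnX w (mem_sup_left hwW) u ((le_sup_left.trans hUB : U ≤ BX) hu)
    exact BX.mul_mem (BX.inv_mem ((le_sup_left.trans hUB : U ≤ BX) hu)) hwuw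
  have hconj : ∀ z ∈ orb B i, (w⁻¹ * u * w) • z ∈ orb B i := fun z hz => by
    rw [show w⁻¹ * u * w = u * (u⁻¹ * (w⁻¹ * u * w)) by group, mul_smul]
    exact hustab _ (smul_mem_orb_of_mem hbmem hz)
  have hPu : P χ W i u = 1 := by
    rw [P_split_conj χ hwW hwB hBW h2w hstB hconj,
      show w⁻¹ * u * w = u * (u⁻¹ * (w⁻¹ * u * w)) by group,
      P_mul χ u (fun z hz => smul_mem_orb_of_mem hbmem hz), hlow _ hbmem, mul_one]
    exact hA _
  have hPv : P χ W i v = 1 :=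
    P_eq_one_of_half χ hA S le_rfl hwW hwB hBW h2w hstB (le_sup_right.trans hRB)
      (fun d hd => hlow d (hRB (mem_sup_right hd))) hv
  rw [hy', P_mul χ v (fun z hz => smul_mem_orb (fun a ha => hUn u hu a ha)
    (by rw [hui]; exact self_mem_orb W i) hz), hPv, hPu, one_mul]

end

end Cfsg.Agent.H53.Rudvalis
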