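import Cfsg.Agent.H43.M22Model
import Cfsg.Agent.H89.M22.Geom

/-! Totally isotropic planes in the point model of the partners of a member of type M(22), and the
involutions stabilising one. -/

set_option autoImplicit false
set_option linter.unusedSectionVars false

open Cfsg.Agent.H17.UPoints Cfsg.Agent.H43.FischerTwins Cfsg.Agent.H43.M22

namespace Cfsg.Agent.H53.SylowPlane

variable {F : Type} [Field F] [Fintype F] [DecidableEq F] {hF : Fintype.card F = 4}

/-- A totally isotropic subspace. -/
def TI (S : Submodule F (Fin 6 → F)) : Prop := ∀ u ∈ S, ∀ v ∈ S, herm u v = 0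

section linear

include hF

theorem eq_one_of_sq {a : F} (h : a * a = 1) : a = 1 := by
  have h1 : (a + 1) * (a + 1) = 0 := by linear_combination h + add_self hF (a + 1)
  have h2 : a + 1 = 0 := mul_self_eq_zero.1 h1
  linear_combination h2 - add_self hF (1 : F)

/-- A totally isotropic subspace has dimension at most three, and three only if it is its own
orthogonal. -/
theorem ti_bound {S : Submodule F (Fin 6 → F)} (hS : TI S) :
    Module.finrank F S ≤ 3 ∧
      (Module.finrank F S = 3 → ∀ v, (∀ w ∈ S, herm v w = 0) → v ∈ S) := by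
  classical
  set k := Module.finrank F S with hk
  let b := Module.finBasis F S
  let L : (Fin 6 → F) →ₗ[F] (Fin k → F) :=
    { toFun := fun v i => herm v (b i : Fin 6 → F)
      map_add' := fun u v => funext fun i => herm_add_left hF u v _
      map_smul' := fun a v => funext fun i => herm_smul_left hF a v _ }
  have hind : LinearIndependent F (fun i => (b i : Fin 6 → F)) :=
    b.linearIndependent.map' S.subtype S.ker_subtype
  have hz : ∀ i, ∃ z : Fin 6 → F, L z = Pi.single i 1 := by
    intro i
    obtain ⟨z, hz1, hz0⟩ := H89.M22.exists_sep hF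
      (hind.notMem_span_image (s := {j | j ≠ i}) (x := i) (by simp))
    refine ⟨z, funext fun j => ?_⟩
    by_cases hji : j = i
    · subst hji; rw [Pi.single_eq_same]; exact hz1
    · rw [Pi.single_eq_of_ne hji]
      exact hz0 _ (Submodule.subset_span ⟨j, hji, rfl⟩)
  choose z hz using hz
  have hsurj : Function.Surjective L := fun c =>
    ⟨∑ i, c i • z i, by
      rw [map_sum]
      simp only [map_smul, hz]
      exact (pi_eq_sum_univ' c).symm⟩
  have hrk := L.finrank_range_add_finrank_ker
  rw [LinearMap.range_eq_top.2 hsurj, finrank_top, Module.finrank_fin_fun,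
    Module.finrank_fin_fun] at hrk
  have hle : S ≤ LinearMap.ker L := fun v hv =>
    LinearMap.mem_ker.2 (funext fun i => hS v hv _ (b i).2)
  have h1 := Submodule.finrank_mono hle
  refine ⟨by omega, fun h3 v hv => ?_⟩
  have heq : S = LinearMap.ker L := Submodule.eq_of_le_of_finrank_le hle (by omega)
  rw [heq, LinearMap.mem_ker]
  exact funext fun i => hv _ (b i).2

/-- There is a totally isotropic plane. -/
theorem exists_ti : ∃ S : Submodule F (Fin 6 → F), TI S ∧ Module.finrank F S = 3 := by
  let L : (Fin 3 → F) →ₗ[F] (Fin 6 → F) :=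
    { toFun := fun c => ![c 0, c 0, c 1, c 1, c 2, c 2]
      map_add' := fun u v => by ext i; fin_cases i <;> rfl
      map_smul' := fun a v => by ext i; fin_cases i <;> rfl }
  have hinj : Function.Injective L := by
    intro u v h
    funext i
    fin_cases i
    · exact congrFun h 0
    · exact congrFun h 2
    · exact congrFun h 4
  refine ⟨LinearMap.range L, ?_, by rw [LinearMap.finrank_range_of_inj hinj, Module.finrank_fin_fun]⟩
  rintro _ ⟨c, rfl⟩ _ ⟨c', rfl⟩
  simp only [L, LinearMap.coe_mk, AddHom.coe_mk, herm, Cfsg.hermForm, Fin.sum_univ_six,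
    Matrix.cons_val]
  linear_combination add_self hF (c 0 * c' 0 ^ 2) + add_self hF (c 1 * c' 1 ^ 2) +
    add_self hF (c 2 * c' 2 ^ 2)

end linear

variable {G : Type*} [Group G] [Finite G] {D : Set G} {d : G} (M : Model D d F hF)

/-- The members at the points of a subspace. -/
def pts (S : Submodule F (Fin 6 → F)) : Set G := {x | ∃ v ∈ S, v ≠ 0 ∧ M.pt v = x}

theorem pts_subset {S : Submodule F (Fin 6 → F)} (hS : TI S) : pts M S ⊆ Sset D d := by
  rintro _ ⟨v, hv, hv0, rfl⟩
  exact M.pt_mem v hv0 (hS v hv v hv)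

theorem pts_commute {S : Submodule F (Fin 6 → F)} (hS : TI S) :
    ∀ x ∈ pts M S, ∀ y ∈ pts M S, Commute x y := by
  rintro _ ⟨u, hu, hu0, rfl⟩ _ ⟨v, hv, hv0, rfl⟩
  exact (M.pt_commute u v hu0 (hS u hu u hu) hv0 (hS v hv v hv)).2 (hS u hu v hv)

theorem mem_of_pt_mem {S : Submodule F (Fin 6 → F)} (hS : TI S) {u : Fin 6 → F} (hu0 : u ≠ 0)
    (hu : herm u u = 0) (h : M.pt u ∈ pts M S) : u ∈ S := by
  obtain ⟨v, hv, hv0, hvu⟩ := h
  obtain ⟨a, -, rfl⟩ := M.pt_inj u v hu0 hu hv0 (hS v hv v hv) hvu.symm
  exact S.smul_mem a hv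

theorem pts_card {S : Submodule F (Fin 6 → F)} (hS : TI S) :
    (pts M S).ncard * 3 + 1 = 4 ^ Module.finrank F S := by
  classical
  haveI := Fintype.ofFinite G
  let V : Finset (Fin 6 → F) := Finset.univ.filter fun v => v ∈ S ∧ v ≠ 0
  have hV : V.card + 1 = 4 ^ Module.finrank F S := by
    have hins : insert (0 : Fin 6 → F) V = Finset.univ.filter fun v => v ∈ S := by
      ext v
      simp only [V, Finset.mem_insert, Finset.mem_filter, Finset.mem_univ, true_and]
      exact ⟨fun h => h.elim (fun h => h ▸ S.zero_mem) And.left,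
        fun h => (em (v = 0)).imp id fun h0 => ⟨h, h0⟩⟩
    rw [← Finset.card_insert_of_notMem (s := V) (a := 0) (by simp [V]), hins,
      ← Fintype.card_subtype, ← Nat.card_eq_fintype_card]
    rw [show Nat.card {v // v ∈ S} = Nat.card ↥S from rfl, Module.natCard_eq_pow_finrank (K := F),
      Nat.card_eq_fintype_card, hF]
  have hfib : ∀ x ∈ (pts M S).toFinset, (V.filter fun v => M.pt v = x).card = 3 := by
    intro x hx
    obtain ⟨u, hu, hu0, rfl⟩ := Set.mem_toFinset.1 hx
    have hset : (V.filter fun v => M.pt v = M.pt u) =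
        (Finset.univ : Finset Fˣ).image fun a : Fˣ => (a : F) • u := by
      ext v
      simp only [V, Finset.mem_filter, Finset.mem_univ, true_and, Finset.mem_image]
      constructor
      · rintro ⟨⟨hv, hv0⟩, hvu⟩
        obtain ⟨a, ha, rfl⟩ := M.pt_inj v u hv0 (hS v hv v hv) hu0 (hS u hu u hu) hvu
        exact ⟨Units.mk0 a ha, rfl⟩
      · rintro ⟨a, rfl⟩
        exact ⟨⟨S.smul_mem _ hu, smul_ne_zero a.ne_zero hu0⟩,
          M.pt_smul _ u a.ne_zero hu0 (hS u hu u hu)⟩
    rw [hset, Finset.card_image_of_injective, Finset.card_univ, Fintype.card_units, hF]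
    exact fun a b hab => Units.ext (smul_left_injective F hu0 hab)
  have hmaps : (V : Set (Fin 6 → F)).MapsTo M.pt ((pts M S).toFinset : Set G) := fun v hv => by
    simp only [V, Finset.coe_filter, Finset.mem_univ, true_and, Set.mem_setOf_eq] at hv
    simp only [Set.coe_toFinset]
    exact ⟨v, hv.1, hv.2, rfl⟩
  rw [Finset.card_eq_sum_card_fiberwise hmaps, Finset.sum_congr rfl hfib, Finset.sum_const,
    smul_eq_mul] at hV
  rw [Set.ncard_eq_toFinset_card']
  exact hV

/-- Pairwise commuting partners lie at the points of a totally isotropic subspace. -/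
theorem clique_span {E : Set G} (hE : E ⊆ Sset D d) (hc : ∀ x ∈ E, ∀ y ∈ E, Commute x y) :
    ∃ S : Submodule F (Fin 6 → F), TI S ∧ E ⊆ pts M S := by
  let U : Set (Fin 6 → F) := {v | v ≠ 0 ∧ herm v v = 0 ∧ M.pt v ∈ E}
  refine ⟨Submodule.span F U, fun u hu v hv => ?_, fun x hx => ?_⟩
  · have h1 : ∀ w ∈ U, herm u w = 0 := by
      intro w hw
      induction hu using Submodule.span_induction with
      | mem u hu => exact (M.pt_commute u w hu.1 hu.2.1 hw.1 hw.2.1).1 (hc _ hu.2.2 _ hw.2.2)
      | zero => exact H89.M22.herm_zero_left w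
      | add a b _ _ ha hb => rw [herm_add_left hF, ha, hb, add_zero]
      | smul c a _ ha => rw [herm_smul_left hF, ha, mul_zero]
    induction hv using Submodule.span_induction with
    | mem v hv => exact h1 v hv
    | zero => simp [herm, Cfsg.hermForm]
    | add a b _ _ ha hb => rw [herm_add_right hF, ha, hb, add_zero]
    | smul c a _ ha => rw [herm_smul_right hF, ha, mul_zero]
  · obtain ⟨v, hv0, hv, rfl⟩ := M.pt_surj x (hE hx)
    exact ⟨v, Submodule.subset_span ⟨hv0, hv, hx⟩, hv0, rfl⟩

/-- Pairwise commuting partners: at most 21, and exactly 21 only at the points of a plane. -/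
theorem clique_plane {E : Set G} (hE : E ⊆ Sset D d) (hc : ∀ x ∈ E, ∀ y ∈ E, Commute x y) :
    E.ncard ≤ 21 ∧ (21 ≤ E.ncard →
      ∃ S : Submodule F (Fin 6 → F), TI S ∧ Module.finrank F S = 3 ∧ E = pts M S) := by
  obtain ⟨S, hS, hES⟩ := clique_span M hE hc
  have h1 := (ti_bound (hF := hF) hS).1
  have h2 := pts_card M hS
  have h3 := Set.ncard_le_ncard hES (Set.toFinite _)
  have h4 : 4 ^ Module.finrank F S ≤ 4 ^ 3 := Nat.pow_le_pow_right (by norm_num) h1
  refine ⟨by omega, fun h21 => ⟨S, hS, ?_, Set.eq_of_subset_of_ncard_le hES (by omega)⟩⟩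
  by_contra h
  have h5 : 4 ^ Module.finrank F S ≤ 4 ^ 2 := Nat.pow_le_pow_right (by norm_num) (by omega)
  omega

/-- An element of the generated group acts on the points through any lift. -/
theorem act_pt (hG : Cfsg.IsThreeTranspositionGroup D) {h : ↥(nearGen D d)}
    {g : ↥(Cfsg.SU 6 F 2)} (hg : M.proj h = (g : Cfsg.PSU 6 F 2)) {v : Fin 6 → F} (hv0 : v ≠ 0)
    (hv : herm v v = 0) : (h : G) * M.pt v * (h : G)⁻¹ = M.pt (act g v) := by
  have hH := sub_group hG (Sset D d) (fun y hy => hy.1) (fun s hs t ht => sset_stable hG d hs ht)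
  have hgv0 : act g v ≠ 0 := fun e => hv0 (by
    have := congrArg (act g⁻¹) e
    rw [← act_mul, inv_mul_cancel, act_one] at this
    rw [this]; exact Matrix.mulVec_zero _)
  have hgv : herm (act g v) (act g v) = 0 := by rw [herm_act]; exact hv
  have hmem : (h : G) * M.pt v * (h : G)⁻¹ ∈ Sset D d :=
    hH.2.1 h ⟨M.pt v, Subgroup.subset_closure (M.pt_mem v hv0 hv)⟩ (M.pt_mem v hv0 hv)
  obtain ⟨w, hw0, hw, hwx⟩ := M.pt_surj _ hmem
  rw [← hwx]
  have e1 := M.proj_pt w hw0 hw (Subgroup.subset_closure (M.pt_mem w hw0 hw))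
  have e2 : (⟨M.pt w, Subgroup.subset_closure (M.pt_mem w hw0 hw)⟩ : ↥(nearGen D d)) =
      h * ⟨M.pt v, Subgroup.subset_closure (M.pt_mem v hv0 hv)⟩ * h⁻¹ := Subtype.ext hwx
  rw [e2, map_mul, map_mul, map_inv, hg, M.proj_pt v hv0 hv, ← QuotientGroup.mk_mul,
    ← QuotientGroup.mk_inv, ← QuotientGroup.mk_mul, trv_conj hF g hv] at e1
  obtain ⟨a, ha, hwa⟩ := trv_eq hF hw hgv hw0
    (lift_unique hF (trv_sq hF hw) (trv_sq hF hgv) e1.symm)
  rw [hwa, M.pt_smul a _ ha hgv0 hgv]

/-- An element squaring to one has a lift squaring to one. -/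
theorem involution_lift {h : ↥(nearGen D d)} (hh : h * h = 1) :
    ∃ g : ↥(Cfsg.SU 6 F 2), g * g = 1 ∧ M.proj h = (g : Cfsg.PSU 6 F 2) := by
  obtain ⟨g₀, hg₀⟩ := QuotientGroup.mk_surjective (M.proj h)
  have hz : g₀ * g₀ ∈ Subgroup.center ↥(Cfsg.SU 6 F 2) := by
    rw [← mk_eq_one hF, QuotientGroup.mk_mul, hg₀, ← map_mul, hh, map_one]
  refine ⟨g₀ * (g₀ * g₀), ?_, ?_⟩
  · rw [← center_cube hF hz]
    simp only [pow_succ, pow_zero, one_mul, mul_assoc]
  · rw [QuotientGroup.mk_mul, (mk_eq_one hF).2 hz, mul_one, hg₀]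

/-- An involution stabilising the points of a plane fixes all of them or exactly five. -/
theorem five_or_all (hG : Cfsg.IsThreeTranspositionGroup D) {S : Submodule F (Fin 6 → F)}
    (hS : TI S) (h3 : Module.finrank F S = 3) {h : ↥(nearGen D d)} (hh : h * h = 1)
    (hst : ∀ x ∈ pts M S, (h : G) * x * (h : G)⁻¹ ∈ pts M S) :
    (∀ x ∈ pts M S, (h : G) * x * (h : G)⁻¹ = x) ∨
      {x ∈ pts M S | (h : G) * x * (h : G)⁻¹ = x}.ncard = 5 := by
  obtain ⟨g, hgg, hg⟩ := involution_lift M hh
  have hgS : ∀ v ∈ S, act g v ∈ S := by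
    intro v hv
    by_cases hv0 : v = 0
    · subst hv0; rw [show act g 0 = (0 : Fin 6 → F) from Matrix.mulVec_zero _]; exact S.zero_mem
    have hvv := hS v hv v hv
    refine mem_of_pt_mem M hS (fun e => hv0 ?_) (by rw [herm_act]; exact hvv) ?_
    · rw [← act_one v, ← hgg, act_mul, e]
      exact Matrix.mulVec_zero _
    · rw [← act_pt M hG hg hv0 hvv]
      exact hst _ ⟨v, hv, hv0, rfl⟩
  let N : ↥S →ₗ[F] ↥S :=
    { toFun := fun v => ⟨act g v + v, S.add_mem (hgS v v.2) v.2⟩
      map_add' := fun u v => Subtype.ext (by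
        show act g ((u : Fin 6 → F) + v) + ((u : Fin 6 → F) + v) =
          act g u + u + (act g v + v)
        rw [show act g ((u : Fin 6 → F) + v) = act g u + act g v from Matrix.mulVec_add _ _ _]
        abel)
      map_smul' := fun a v => Subtype.ext (by
        show act g (a • (v : Fin 6 → F)) + a • (v : Fin 6 → F) = a • (act g v + v)
        rw [show act g (a • (v : Fin 6 → F)) = a • act g v from Matrix.mulVec_smul _ _ _,
          smul_add]) }
  have hvv : ∀ v : Fin 6 → F, v + v = 0 := fun v => funext fun i => add_self hF (v i)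
  have hN2 : LinearMap.range N ≤ LinearMap.ker N := by
    rintro _ ⟨v, rfl⟩
    refine LinearMap.mem_ker.2 (Subtype.ext ?_)
    show act g (act g v + v) + (act g v + v) = 0
    rw [show act g (act g v + v) = act g (act g v) + act g v from Matrix.mulVec_add _ _ _,
      ← act_mul, hgg, act_one, add_comm (v : Fin 6 → F)]
    exact hvv _
  have hfix : ∀ v (hv : v ∈ S), v ≠ 0 →
      ((h : G) * M.pt v * (h : G)⁻¹ = M.pt v ↔ N ⟨v, hv⟩ = 0) := by
    intro v hv hv0
    rw [act_pt M hG hg hv0 (hS v hv v hv)]
    have hgv0 : act g v ≠ 0 := fun e => hv0 (by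
      rw [← act_one v, ← hgg, act_mul, e]; exact Matrix.mulVec_zero _)
    constructor
    · intro he
      obtain ⟨a, -, hav⟩ := M.pt_inj _ v hgv0 (by rw [herm_act]; exact hS v hv v hv) hv0
        (hS v hv v hv) he
      have haa : (a * a) • v = (1 : F) • v := by
        rw [one_smul, mul_smul, ← hav,
          show a • act g v = act g (a • v) from (Matrix.mulVec_smul _ _ _).symm, ← hav, ← act_mul,
          hgg, act_one]
      refine Subtype.ext ?_
      show act g v + v = 0
      rw [hav, eq_one_of_sq (hF := hF) (smul_left_injective F hv0 haa), one_smul]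
      exact hvv v
    · intro he
      have he' : act g v + v = 0 := congrArg Subtype.val he
      have : act g v = v := by
        calc act g v = act g v + (v + v) := by rw [hvv, add_zero]
          _ = v := by rw [← add_assoc, he', zero_add]
      rw [this]
  by_cases hN0 : N = 0
  · left
    rintro _ ⟨v, hv, hv0, rfl⟩
    exact (hfix v hv hv0).2 (by rw [hN0]; rfl)
  right
  have hker : Module.finrank F (LinearMap.ker N) = 2 := by
    have h1 := N.finrank_range_add_finrank_ker
    have h2 := Submodule.finrank_mono hN2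
    have h4 : Module.finrank F (LinearMap.range N) ≠ 0 := fun e =>
      hN0 (LinearMap.range_eq_bot.1 (Submodule.finrank_eq_zero.1 e))
    rw [h3] at h1
    omega
  have hK : TI ((LinearMap.ker N).map S.subtype) := fun u hu v hv =>
    hS u (Submodule.map_subtype_le S _ hu) v (Submodule.map_subtype_le S _ hv)
  have hset : {x ∈ pts M S | (h : G) * x * (h : G)⁻¹ = x} =
      pts M ((LinearMap.ker N).map S.subtype) := by
    ext x
    constructor
    · rintro ⟨⟨v, hv, hv0, rfl⟩, hx⟩
      exact ⟨v, ⟨⟨v, hv⟩, (hfix v hv hv0).1 hx, rfl⟩, hv0, rfl⟩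
    · rintro ⟨_, ⟨⟨v, hv⟩, hk, rfl⟩, hv0, rfl⟩
      exact ⟨⟨v, hv, hv0, rfl⟩, (hfix v hv hv0).2 hk⟩
  have hc := pts_card M hK
  rw [show Module.finrank F ((LinearMap.ker N).map S.subtype) = 2 by
    rw [Submodule.finrank_map_subtype_eq, hker]] at hc
  rw [hset]
  omega

/-- An involution fixing all points of a plane is congruent to a product of their members. -/
theorem fixer_mem (hG : Cfsg.IsThreeTranspositionGroup D) {S : Submodule F (Fin 6 → F)}
    (hS : TI S) (h3 : Module.finrank F S = 3) {h : ↥(nearGen D d)} (hh : h * h = 1)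
    (hfix : ∀ x ∈ pts M S, Commute (h : G) x) :
    ∃ a : ↥(nearGen D d), (a : G) ∈ Subgroup.closure (pts M S) ∧
      a⁻¹ * h ∈ Subgroup.center ↥(nearGen D d) := by
  classical
  obtain ⟨g, hgg, hg⟩ := involution_lift M hh
  have hvv : ∀ v : Fin 6 → F, v + v = 0 := fun v => funext fun i => add_self hF (v i)
  have hgS : ∀ v ∈ S, act g v = v := by
    intro v hv
    by_cases hv0 : v = 0
    · subst hv0; exact Matrix.mulVec_zero _
    have he := act_pt M hG hg hv0 (hS v hv v hv)
    rw [(hfix _ ⟨v, hv, hv0, rfl⟩).eq, mul_inv_cancel_right] at he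
    have hgv0 : act g v ≠ 0 := fun e => hv0 (by
      rw [← act_one v, ← hgg, act_mul, e]; exact Matrix.mulVec_zero _)
    obtain ⟨a, -, hav⟩ := M.pt_inj _ v hgv0 (by rw [herm_act]; exact hS v hv v hv) hv0
      (hS v hv v hv) he.symm
    have haa : (a * a) • v = (1 : F) • v := by
      rw [one_smul, mul_smul, ← hav,
        show a • act g v = act g (a • v) from (Matrix.mulVec_smul _ _ _).symm, ← hav, ← act_mul,
        hgg, act_one]
    rw [hav, eq_one_of_sq (hF := hF) (smul_left_injective F hv0 haa), one_smul]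
  suffices hgen : ∀ n, ∀ k : ↥(Cfsg.SU 6 F 2), k * k = 1 → (∀ v ∈ S, act k v = v) →
      (Finset.univ.filter fun x : Fin 6 → F => act k x ≠ x).card = n →
      ∃ a : ↥(nearGen D d), (a : G) ∈ Subgroup.closure (pts M S) ∧
        M.proj a = (k : Cfsg.PSU 6 F 2) by
    obtain ⟨a, ha, hpa⟩ := hgen _ g hgg hgS rfl
    refine ⟨a, ha, M.ker_eq ▸ MonoidHom.mem_ker.2 ?_⟩
    rw [map_mul, map_inv, hpa, hg, inv_mul_cancel]
  intro n
  induction n using Nat.strong_induction_on with
  | _ n ih =>
    intro k hkk hkS hn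
    by_cases hk1 : k = 1
    · subst hk1
      exact ⟨1, one_mem _, by rw [map_one]; rfl⟩
    let f : (Fin 6 → F) → (Fin 6 → F) := fun x => act k x + x
    have hsym : ∀ a b, herm (f a) b = herm a (f b) := fun a b => by
      simp only [f]
      rw [herm_add_left hF, herm_add_right hF]
      congr 1
      rw [← herm_act k (act k a) b, ← act_mul, hkk, act_one]
    obtain ⟨x, hx⟩ : ∃ x, herm (f x) x ≠ 0 := by
      by_contra hne
      push Not at hne
      refine hk1 (ext_act fun a => ?_)
      have h0 := polar hF (f := f) (fun a b => by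
          simp only [f]
          rw [show act k (a + b) = act k a + act k b from Matrix.mulVec_add _ _ _]
          abel) (fun c a => by
          simp only [f]
          rw [show act k (c • a) = c • act k a from Matrix.mulVec_smul _ _ _, smul_add])
        hsym hne a
      rw [act_one]
      calc act k a = act k a + (a + a) := by rw [hvv, add_zero]
        _ = a := by rw [← add_assoc, show act k a + a = 0 from h0, zero_add]
    have hx1 : herm (f x) x = 1 := by
      have h2 : herm (f x) x ^ 2 = herm (f x) x := by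
        rw [herm_conj hF, ← hsym x x]
      refine mul_left_cancel₀ hx (?_ : herm (f x) x * herm (f x) x = _)
      rw [← pow_two, h2, mul_one]
    have hxv : herm x (f x) = 1 := by rw [← hsym x x, hx1]
    set v := f x with hv
    have hvS : v ∈ S := by
      refine (ti_bound (hF := hF) hS).2 h3 v fun w hw => ?_
      rw [hv, hsym]
      simp only [f]
      rw [hkS w hw, hvv]
      simp [herm, Cfsg.hermForm]
    have hvvz : herm v v = 0 := hS v hvS v hvS
    have hv0 : v ≠ 0 := fun e => hx (by rw [e]; exact H89.M22.herm_zero_left x)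
    set k' := trv hF v * k with hk'
    have hcomm : k * trv hF v = trv hF v * k := by
      have h := trv_conj hF k hvvz
      rw [hkS v hvS] at h
      calc k * trv hF v = k * trv hF v * k⁻¹ * k := by rw [inv_mul_cancel_right]
        _ = trv hF v * k := by rw [h]
    have hk'k' : k' * k' = 1 := by
      calc k' * k' = trv hF v * (k * trv hF v) * k := by rw [hk']; simp only [mul_assoc]
        _ = trv hF v * (trv hF v * k) * k := by rw [hcomm]
        _ = (trv hF v * trv hF v) * (k * k) := by simp only [mul_assoc]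
        _ = 1 := by rw [trv_sq hF hvvz, hkk, one_mul]
    have hold : ∀ y, act k y = y → act k' y = y := fun y hy => by
      rw [hk', act_mul, hy, trv_act hF hvvz]
      have hzero : herm y v = 0 := by
        rw [hv, ← hsym]
        simp only [f]
        rw [hy, hvv]
        exact H89.M22.herm_zero_left x
      rw [hzero, zero_smul, add_zero]
    have hx' : act k' x = x := by
      rw [hk', act_mul, trv_act hF hvvz]
      have he : act k x = x + v := by
        rw [hv]; simp only [f]
        rw [add_comm (act k x), ← add_assoc, hvv, zero_add]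
      rw [he, herm_add_left hF, hvvz, add_zero, hxv, one_smul, add_assoc, hvv, add_zero]
    have hlt : (Finset.univ.filter fun y : Fin 6 → F => act k' y ≠ y).card < n := by
      rw [← hn]
      refine Finset.card_lt_card ⟨fun y hy => ?_, fun hsub => ?_⟩
      · simp only [Finset.mem_filter, Finset.mem_univ, true_and] at hy ⊢
        exact fun e => hy (hold y e)
      · have hxm : x ∈ Finset.univ.filter fun y : Fin 6 → F => act k y ≠ y := by
          simp only [Finset.mem_filter, Finset.mem_univ, true_and]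
          intro e
          exact hv0 (by rw [hv]; simp only [f]; rw [e, hvv])
        have := hsub hxm
        simp only [Finset.mem_filter, Finset.mem_univ, true_and] at this
        exact this hx'
    obtain ⟨a, ha, hpa⟩ := ih _ hlt k' hk'k' (fun w hw => hold w (hkS w hw)) rfl
    have hvp := M.pt_mem v hv0 hvvz
    refine ⟨⟨M.pt v, Subgroup.subset_closure hvp⟩ * a,
      mul_mem (Subgroup.subset_closure ⟨v, hvS, hv0, rfl⟩) ha, ?_⟩
    rw [map_mul, M.proj_pt v hv0 hvvz, hpa, ← QuotientGroup.mk_mul, hk', ← mul_assoc,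
      trv_sq hF hvvz, one_mul]

end Cfsg.Agent.H53.SylowPlane
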