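import Cfsg.Agent.H53.SylowPlane
import Cfsg.Agent.H43.M22Main

/-! In a group of type M(22) the members in a Sylow 2-subgroup generate its only elementary abelian
subgroup of largest order. -/

set_option autoImplicit false
set_option linter.unusedSectionVars false

open Subgroup Cfsg.Agent.H43.FischerTwins Cfsg.Agent.H43.M22

namespace Cfsg.Agent.H53

variable {G : Type*} [Group G]

/-- Pairwise commuting elements squaring to one generate such a subgroup. -/
theorem closure_elementary {S : Set G} (h2 : ∀ x ∈ S, x * x = 1)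
    (hc : ∀ x ∈ S, ∀ y ∈ S, Commute x y) :
    (∀ x ∈ closure S, x * x = 1) ∧ ∀ x ∈ closure S, ∀ y ∈ closure S, Commute x y := by
  have hcomm : ∀ x ∈ closure S, ∀ y ∈ closure S, Commute x y := by
    have h1 : ∀ x ∈ S, ∀ y ∈ closure S, Commute x y := fun x hx y hy => by
      induction hy using Subgroup.closure_induction with
      | mem y hy => exact hc x hx y hy
      | one => exact Commute.one_right x
      | mul a b _ _ ha hb => exact ha.mul_right hb
      | inv a _ ha => exact ha.inv_right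
    intro x hx y hy
    induction hx using Subgroup.closure_induction with
    | mem x hx => exact h1 x hx y hy
    | one => exact Commute.one_left y
    | mul a b _ _ ha hb => exact ha.mul_left hb
    | inv a _ ha => exact ha.inv_left
  refine ⟨fun x hx => ?_, hcomm⟩
  induction hx using Subgroup.closure_induction with
  | mem x hx => exact h2 x hx
  | one => exact one_mul 1
  | mul a b ha hb iha ihb => rw [(hcomm b hb a ha).mul_mul_mul_comm, iha, ihb, one_mul]
  | inv a _ iha => rw [← mul_inv_rev, iha, inv_one]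

/-- A finite subgroup of exponent two is a 2-group. -/
theorem isPGroup_of_sq {A : Subgroup G} (h2 : ∀ x ∈ A, x * x = 1) : IsPGroup 2 A := fun x =>
  ⟨1, Subtype.ext (by rw [pow_one, pow_two]; exact h2 _ x.2)⟩

variable [Finite G] {D : Set G}

section facts

variable (hD : Cfsg.IsThreeTranspositionClass D) (hprim : Cfsg.IsPrimitiveUnderConj D)
  (h22 : Cfsg.IsOfTypeM22 G D)
include hD hprim h22

theorem exists_field_models : ∃ (F : Type) (_ : Field F) (_ : Fintype F) (_ : DecidableEq F)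
    (hF : Fintype.card F = 4), ∀ d ∈ D, Nonempty (Model D d F hF) := by
  classical
  obtain ⟨hw, F, iF, iFF, hF, hiso, hnc⟩ := local_facts hD hprim h22
  exact ⟨F, iF, iFF, inferInstance, hF, fun d hd =>
    exists_model hD hprim hw hF hd (hiso d hd) (hnc d hd)⟩

/-- Pairwise commuting members number at most 22. -/
theorem clique_le {E : Set G} (hED : E ⊆ D) (hc : ∀ x ∈ E, ∀ y ∈ E, Commute x y) :
    E.ncard ≤ 22 := by
  rcases E.eq_empty_or_nonempty with rfl | ⟨d, hd⟩
  · simp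
  obtain ⟨F, _, _, _, hF, hM⟩ := exists_field_models hD hprim h22
  obtain ⟨M⟩ := hM d (hED hd)
  have h := (SylowPlane.clique_plane M (E := E \ {d}) (fun x hx => ⟨hED hx.1, hx.2, hc d hd x hx.1⟩)
    (fun x hx y hy => hc x hx.1 y hy.1)).1
  have h1 := Set.ncard_diff_singleton_add_one hd (Set.toFinite E)
  omega

/-- There are 22 pairwise commuting members. -/
theorem exists_clique : ∃ E : Set G, E ⊆ D ∧ (∀ x ∈ E, ∀ y ∈ E, Commute x y) ∧ E.ncard = 22 := by
  obtain ⟨F, _, _, _, hF, hM⟩ := exists_field_models hD hprim h22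
  obtain ⟨d, hd, -⟩ := hD.2.1
  obtain ⟨M⟩ := hM d hd
  obtain ⟨S, hS, h3⟩ := SylowPlane.exists_ti (hF := hF)
  have hsub := SylowPlane.pts_subset M hS
  refine ⟨insert d (SylowPlane.pts M S), fun x hx => ?_, fun x hx y hy => ?_, ?_⟩
  · rcases hx with rfl | hx
    exacts [hd, (hsub hx).1]
  · rcases hx with rfl | hx <;> rcases hy with rfl | hy
    exacts [Commute.refl _, (hsub hy).2.2, (hsub hx).2.2.symm, SylowPlane.pts_commute M hS x hx y hy]
  · rw [Set.ncard_insert_of_notMem (fun h => (hsub h).2.1 rfl) (Set.toFinite _)]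
    have := SylowPlane.pts_card M hS
    rw [h3] at this
    omega

variable (T : Sylow 2 G)

/-- The members in a Sylow 2-subgroup commute pairwise and number 22. -/
theorem sylow_members :
    (∀ x ∈ {x : G | x ∈ D ∧ x ∈ (T : Subgroup G)}, ∀ y ∈ {x : G | x ∈ D ∧ x ∈ (T : Subgroup G)},
      Commute x y) ∧ {x : G | x ∈ D ∧ x ∈ (T : Subgroup G)}.ncard = 22 := by
  haveI : Fact (Nat.Prime 2) := ⟨Nat.prime_two⟩
  have hcomm : ∀ x ∈ {x : G | x ∈ D ∧ x ∈ (T : Subgroup G)},
      ∀ y ∈ {x : G | x ∈ D ∧ x ∈ (T : Subgroup G)}, Commute x y := by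
    intro x hx y hy
    by_contra h
    have h3 := H17.cube_one hD.1 hx.1 hy.1 h
    obtain ⟨k, hk⟩ := T.2 ⟨x * y, mul_mem hx.2 hy.2⟩
    have hk' : (x * y) ^ 2 ^ k = 1 := by simpa using congrArg Subtype.val hk
    have hcop : Nat.Coprime (2 ^ k) 3 := (by norm_num : Nat.Coprime 2 3).pow_left k
    have h1 : x * y = 1 := by
      have := pow_gcd_eq_one.mpr ⟨hk', h3⟩
      rwa [hcop.gcd_eq_one, pow_one] at this
    exact h (by rw [eq_inv_of_mul_eq_one_left h1]; exact (Commute.refl y).inv_left)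
  refine ⟨hcomm, le_antisymm (clique_le hD hprim h22 (fun x hx => hx.1) hcomm) ?_⟩
  obtain ⟨E, hED, hEc, hE⟩ := exists_clique hD hprim h22
  have h2 := (closure_elementary (fun x hx => H17.sq_one hD.1 (hED hx)) hEc).1
  obtain ⟨P, hP⟩ := (isPGroup_of_sq h2).exists_le_sylow
  obtain ⟨g, hg⟩ := MulAction.exists_smul_eq G P T
  have hmem : ∀ x ∈ E, g * x * g⁻¹ ∈ (T : Subgroup G) := by
    intro x hx
    rw [← hg, Sylow.coe_subgroup_smul]
    exact ⟨x, hP (subset_closure hx), rfl⟩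
  rw [← hE, ← Set.ncard_image_of_injective E (MulAut.conj g).injective]
  refine Set.ncard_le_ncard ?_ (Set.toFinite _)
  rintro _ ⟨x, hx, rfl⟩
  exact ⟨H17.class_conj hD g x (hED hx), hmem x hx⟩

/-- An involution of the Sylow subgroup commuting with one of its members commutes with all of
them or with all but sixteen; in the first case it is a product of them. -/
theorem sylow_involution {b d : G} (hb : b ∈ (T : Subgroup G)) (hbb : b * b = 1) (hd : d ∈ D)
    (hdT : d ∈ (T : Subgroup G)) (hbd : Commute b d) :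
    ((∀ x ∈ {x : G | x ∈ D ∧ x ∈ (T : Subgroup G)}, Commute b x) ∧
        b ∈ closure {x : G | x ∈ D ∧ x ∈ (T : Subgroup G)}) ∨
      {x : G | (x ∈ D ∧ x ∈ (T : Subgroup G)) ∧ ¬ Commute b x}.ncard = 16 := by
  set Ω := {x : G | x ∈ D ∧ x ∈ (T : Subgroup G)} with hΩ
  obtain ⟨hcomm, hcard⟩ : (∀ x ∈ Ω, ∀ y ∈ Ω, Commute x y) ∧ Ω.ncard = 22 :=
    sylow_members hD hprim h22 T
  have hG := H17.class_group hD
  obtain ⟨F, _, _, _, hF, hM⟩ := exists_field_models hD hprim h22
  obtain ⟨M⟩ := hM d hd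
  have hdΩ : d ∈ Ω := ⟨hd, hdT⟩
  obtain ⟨hle, hpl⟩ := SylowPlane.clique_plane M (E := Ω \ {d})
    (fun x hx => ⟨hx.1.1, hx.2, hcomm d hdΩ x hx.1⟩) (fun x hx y hy => hcomm x hx.1 y hy.1)
  have h21 : (Ω \ {d}).ncard = 21 := by
    have := Set.ncard_diff_singleton_add_one hdΩ (Set.toFinite Ω)
    omega
  obtain ⟨S, hS, h3, hSΩ⟩ := hpl h21.ge
  have hbH : b ∈ nearGen D d :=
    (centralizer_partners hD hprim h22 hd).le (mem_centralizer_singleton_iff.2 hbd.eq)
  have hb' : (⟨b, hbH⟩ : ↥(nearGen D d)) * ⟨b, hbH⟩ = 1 := Subtype.ext hbb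
  have hst : ∀ x ∈ SylowPlane.pts M S, b * x * b⁻¹ ∈ SylowPlane.pts M S := by
    intro x hx
    rw [← hSΩ] at hx ⊢
    refine ⟨⟨H17.class_conj hD b x hx.1.1, mul_mem (mul_mem hb hx.1.2) (inv_mem hb)⟩, fun e => ?_⟩
    exact hx.2 (mul_left_cancel (mul_right_cancel (b := b⁻¹)
      ((Set.mem_singleton_iff.1 e).trans (by rw [hbd.eq, mul_inv_cancel_right]))))
  rcases SylowPlane.five_or_all M hG hS h3 hb' hst with hall | hfive
  · have hallΩ : ∀ x ∈ Ω, Commute b x := fun x hx => by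
      by_cases hxd : x = d
      · exact hxd ▸ hbd
      · exact mul_inv_eq_iff_eq_mul.1 (hall x (hSΩ ▸ ⟨hx, hxd⟩))
    refine Or.inl ⟨hallΩ, ?_⟩
    obtain ⟨a, ha, haz⟩ := SylowPlane.fixer_mem M hG hS h3 hb' fun x hx => hallΩ x (hSΩ.symm ▸ hx).1
    have ha' : (a : G) ∈ closure Ω := closure_mono (fun x hx => (hSΩ.symm ▸ hx).1) ha
    obtain ⟨K, _, _, hC⟩ := H89.M22.exists_ctx hG hprim h22
    have hz : ((a⁻¹ * ⟨b, hbH⟩ : ↥(nearGen D d)) : G) = 1 ∨
        ((a⁻¹ * ⟨b, hbH⟩ : ↥(nearGen D d)) : G) = d := by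
      classical
      exact H89.M22.centralizer_sset hC hd fun x hx =>
        (congrArg Subtype.val (mem_center_iff.1 haz ⟨x, subset_closure hx⟩)).symm
    simp only [Subgroup.coe_mul, Subgroup.coe_inv] at hz
    rcases hz with h | h
    · rw [inv_mul_eq_one] at h
      exact h ▸ ha'
    · rw [inv_mul_eq_iff_eq_mul] at h
      exact h ▸ mul_mem ha' (subset_closure hdΩ)
  · right
    have hsplit : {x : G | (x ∈ D ∧ x ∈ (T : Subgroup G)) ∧ ¬ Commute b x} =
        SylowPlane.pts M S \ {x ∈ SylowPlane.pts M S | b * x * b⁻¹ = x} := by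
      ext x
      rw [← hSΩ]
      constructor
      · rintro ⟨hx, hnx⟩
        exact ⟨⟨hx, fun e => hnx ((Set.mem_singleton_iff.1 e).symm ▸ hbd)⟩,
          fun h => hnx (mul_inv_eq_iff_eq_mul.1 h.2)⟩
      · rintro ⟨hx, hnx⟩
        exact ⟨hx.1, fun h => hnx ⟨hx, mul_inv_eq_iff_eq_mul.2 h.eq⟩⟩
    rw [hsplit, Set.ncard_diff (fun x hx => hx.1) (Set.toFinite _), ← hSΩ, h21]
    rw [← hSΩ] at hfive
    simp only at hfive
    rw [hfive]

/-- A product of two members of the Sylow subgroup determines them. -/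
theorem sylow_pair {p q u v : G} (hp : p ∈ D) (hpT : p ∈ (T : Subgroup G)) (hq : q ∈ D)
    (hqT : q ∈ (T : Subgroup G)) (hu : u ∈ D) (huT : u ∈ (T : Subgroup G)) (hv : v ∈ D)
    (hvT : v ∈ (T : Subgroup G)) (hne : p ≠ q) (h : p * q = u * v) :
    (p = u ∧ q = v) ∨ (p = v ∧ q = u) := by
  obtain ⟨K, _, _, hC⟩ := H89.M22.exists_ctx (H17.class_group hD) hprim h22
  classical
  have hcomm := (sylow_members hD hprim h22 T).1
  exact H89.M22.pair_eq hC hp hq hu hv (hcomm p ⟨hp, hpT⟩ q ⟨hq, hqT⟩) hne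
    (hcomm u ⟨hu, huT⟩ v ⟨hv, hvT⟩) h

/-- An elementary abelian subgroup centralising a member, of order at least that of the subgroup
generated by the members, lies in it. -/
theorem fixed_case (B : Subgroup G) (hBT : B ≤ (T : Subgroup G))
    (hB2 : ∀ x ∈ B, x * x = 1) (hBc : ∀ x ∈ B, ∀ y ∈ B, Commute x y) {d : G} (hd : d ∈ D)
    (hdT : d ∈ (T : Subgroup G)) (hBd : ∀ x ∈ B, Commute x d)
    (hle : Nat.card ↥(closure {x : G | x ∈ D ∧ x ∈ (T : Subgroup G)}) ≤ Nat.card B) :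
    B ≤ closure {x : G | x ∈ D ∧ x ∈ (T : Subgroup G)} := by
  classical
  set Ω := {x : G | x ∈ D ∧ x ∈ (T : Subgroup G)} with hΩ
  set A := closure Ω with hA
  obtain ⟨hcomm, hcard⟩ : (∀ x ∈ Ω, ∀ y ∈ Ω, Commute x y) ∧ Ω.ncard = 22 :=
    sylow_members hD hprim h22 T
  obtain ⟨hA2, hAc⟩ := closure_elementary (fun x hx => H17.sq_one hD.1 hx.1) hcomm
  intro b₀ hb₀
  by_contra hb₀A
  have hΩmove : ∀ b ∈ B, ∀ x ∈ Ω, b * x * b⁻¹ ∈ Ω := fun b hb x hx =>
    ⟨H17.class_conj hD b x hx.1, mul_mem (mul_mem (hBT hb) hx.2) (inv_mem (hBT hb))⟩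
  have hAmove : ∀ b ∈ B, ∀ a ∈ A, b * a * b⁻¹ ∈ A := by
    intro b hb a ha
    induction ha using Subgroup.closure_induction with
    | mem x hx => exact subset_closure (hΩmove b hb x hx)
    | one => simp
    | mul x y _ _ hx hy => simpa [mul_assoc] using mul_mem hx hy
    | inv x _ hx => simpa [mul_assoc] using inv_mem hx
  have hdich : ∀ b ∈ B, ((∀ x ∈ Ω, Commute b x) ∧ b ∈ A) ∨
      {x : G | x ∈ Ω ∧ ¬ Commute b x}.ncard = 16 := fun b hb =>
    sylow_involution hD hprim h22 T (hBT hb) (hB2 b hb) hd hdT (hBd b hb)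
  have h16 : {x : G | x ∈ Ω ∧ ¬ Commute b₀ x}.ncard = 16 :=
    (hdich b₀ hb₀).resolve_left fun h => hb₀A h.2
  -- the permutations induced on the members
  letI : MulAction ↥B ↥Ω :=
    { smul := fun b x => ⟨b * x * (b : G)⁻¹, hΩmove b b.2 x x.2⟩
      one_smul := fun x => Subtype.ext (show (1 : G) * x * (1 : G)⁻¹ = x by group)
      mul_smul := fun b c x => Subtype.ext (show (b : G) * c * x * ((b : G) * c)⁻¹ =
        b * (c * x * (c : G)⁻¹) * (b : G)⁻¹ by group) }
  have hsmul : ∀ (b : ↥B) (x : ↥Ω), ((b • x : ↥Ω) : G) = b * x * (b : G)⁻¹ := fun _ _ => rfl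
  let P : Subgroup (Equiv.Perm ↥Ω) := (MulAction.toPermHom ↥B ↥Ω).range
  let K : Subgroup ↥B := (MulAction.toPermHom ↥B ↥Ω).ker
  have hcP : Nat.card P * Nat.card K = Nat.card B := by
    rw [Nat.card_congr (QuotientGroup.quotientKerEquivRange (MulAction.toPermHom ↥B ↥Ω)).toEquiv.symm,
      ← Subgroup.card_eq_card_quotient_mul_card_subgroup]
  have hK : ∀ b : ↥B, b ∈ K ↔ ∀ x ∈ Ω, Commute (b : G) x := by
    intro b
    rw [MonoidHom.mem_ker]
    constructor
    · intro h x hx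
      have h' := congrArg Subtype.val (Equiv.ext_iff.1 h ⟨x, hx⟩)
      rw [MulAction.toPermHom_apply, MulAction.toPerm_apply, hsmul] at h'
      exact mul_inv_eq_iff_eq_mul.1 h'
    · intro h
      ext x
      rw [MulAction.toPermHom_apply, MulAction.toPerm_apply, hsmul, (h x x.2).eq,
        mul_inv_cancel_right]
      rfl
  -- at most sixteen permutations
  have hP16 : Nat.card P ≤ 16 := by
    have hfix : ∀ p : ↥P, p ≠ 1 → Nat.card (MulAction.fixedBy ↥Ω p) = 6 := by
      rintro ⟨_, b, rfl⟩ hp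
      have hbK : ¬ ∀ x ∈ Ω, Commute (b : G) x := fun h =>
        hp (Subtype.ext ((hK b).2 h))
      have hm := (hdich b b.2).resolve_left fun h => hbK h.1
      have he : MulAction.fixedBy ↥Ω (⟨MulAction.toPermHom ↥B ↥Ω b, b, rfl⟩ : ↥P) ≃
          ↥(Ω \ {x : G | x ∈ Ω ∧ ¬ Commute (b : G) x}) :=
        { toFun := fun x => ⟨x.1.1, x.1.2, fun h => h.2
            (mul_inv_eq_iff_eq_mul.1 (congrArg Subtype.val x.2))⟩
          invFun := fun x => ⟨⟨x.1, x.2.1⟩, Subtype.ext (show (b : G) * x.1 * (b : G)⁻¹ = x.1 by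
            rw [(not_not.1 fun h => x.2.2 ⟨x.2.1, h⟩ : Commute (b : G) x.1).eq,
              mul_inv_cancel_right])⟩
          left_inv := fun x => rfl
          right_inv := fun x => rfl }
      rw [Nat.card_congr he, Nat.card_coe_set_eq,
        Set.ncard_diff (fun x hx => hx.1) (Set.toFinite _), hm, hcard]
    haveI := Fintype.ofFinite ↥P
    haveI := Fintype.ofFinite (Quotient (MulAction.orbitRel ↥P ↥Ω))
    haveI : ∀ p : ↥P, Fintype (MulAction.fixedBy ↥Ω p) := fun p => Fintype.ofFinite _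
    have hburn := MulAction.sum_card_fixedBy_eq_card_orbits_mul_card_group ↥P ↥Ω
    rw [← Finset.add_sum_erase _ _ (Finset.mem_univ (1 : ↥P))] at hburn
    have h1 : Fintype.card (MulAction.fixedBy ↥Ω (1 : ↥P)) = 22 := by
      rw [← Nat.card_eq_fintype_card, ← hcard, ← Nat.card_coe_set_eq]
      exact Nat.card_congr (Equiv.subtypeUnivEquiv fun x => one_smul _ x)
    rw [h1, Finset.sum_congr rfl fun p hp => by
        rw [← Nat.card_eq_fintype_card, hfix p (Finset.ne_of_mem_erase hp)],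
      Finset.sum_const, Finset.card_erase_of_mem (Finset.mem_univ _), Finset.card_univ,
      smul_eq_mul] at hburn
    have hpos : 0 < Fintype.card ↥P := Fintype.card_pos
    have hdvd : Fintype.card ↥P ∣ 16 := by
      have h2 : Fintype.card ↥P ∣ 22 + (Fintype.card ↥P - 1) * 6 := ⟨_, hburn.trans (mul_comm _ _)⟩
      rw [show 22 + (Fintype.card ↥P - 1) * 6 = 16 + Fintype.card ↥P * 6 by omega] at h2
      exact (Nat.dvd_add_left (dvd_mul_right _ _)).1 h2
    rw [Nat.card_eq_fintype_card]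
    exact Nat.le_of_dvd (by norm_num) hdvd
  -- the commutators with `b₀`
  let φ : ↥A →* ↥A :=
    { toFun := fun a => ⟨a * (b₀ * a * b₀⁻¹), mul_mem a.2 (hAmove b₀ hb₀ a a.2)⟩
      map_one' := Subtype.ext (by simp)
      map_mul' := fun a c => Subtype.ext (by
        simp only [Subgroup.coe_mul]
        rw [show b₀ * ((a : G) * c) * b₀⁻¹ = (b₀ * a * b₀⁻¹) * (b₀ * c * b₀⁻¹) by group,
          (hAc c c.2 _ (hAmove b₀ hb₀ a a.2)).mul_mul_mul_comm]) }
  have hφ : ∀ a : ↥A, a ∈ φ.ker ↔ Commute b₀ (a : G) := by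
    intro a
    rw [MonoidHom.mem_ker, show Commute b₀ (a : G) ↔ b₀ * (a : G) * b₀⁻¹ = a from
      ⟨fun h => mul_inv_eq_iff_eq_mul.2 h.eq, fun h => mul_inv_eq_iff_eq_mul.1 h⟩]
    constructor
    · intro h
      have h' : (a : G) * (b₀ * a * b₀⁻¹) = 1 := congrArg Subtype.val h
      exact (eq_inv_of_mul_eq_one_right h').trans (inv_eq_of_mul_eq_one_right (hA2 a a.2))
    · intro h
      refine Subtype.ext ?_
      show (a : G) * (b₀ * a * b₀⁻¹) = 1
      rw [h, hA2 a a.2]
  have hrange : 16 ≤ Nat.card φ.range := by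
    let Mv := {x : G | x ∈ Ω ∧ ¬ Commute b₀ x}
    have hfin : Mv.Finite := Set.toFinite _
    let f : G → G := fun x => x * (b₀ * x * b₀⁻¹)
    have himg : 8 ≤ (f '' Mv).ncard := by
      have hfib : ∀ y ∈ hfin.toFinset.image f, (hfin.toFinset.filter fun x => f x = y).card ≤ 2 := by
        intro y hy
        obtain ⟨p, hp, rfl⟩ := Finset.mem_image.1 hy
        rw [Set.Finite.mem_toFinset] at hp
        refine (Finset.card_le_card (t := {p, b₀ * p * b₀⁻¹}) fun x hx => ?_).trans Finset.card_le_two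
        obtain ⟨hx1, hx2⟩ := Finset.mem_filter.1 hx
        rw [Set.Finite.mem_toFinset] at hx1
        have hxm := hΩmove b₀ hb₀ x hx1.1
        have hpm := hΩmove b₀ hb₀ p hp.1
        rcases sylow_pair hD hprim h22 T hx1.1.1 hx1.1.2 hxm.1 hxm.2 hp.1.1 hp.1.2 hpm.1 hpm.2
          (fun e => hx1.2 (mul_inv_eq_iff_eq_mul.1 e.symm)) hx2 with h | h
        · exact Finset.mem_insert.2 (Or.inl h.1)
        · exact Finset.mem_insert.2 (Or.inr (Finset.mem_singleton.2 h.1))
      have h := Finset.card_le_mul_card_image hfin.toFinset 2 hfib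
      rw [← Set.ncard_eq_toFinset_card _ hfin, ← Set.ncard_coe_finset (Finset.image f _),
        Finset.coe_image, Set.Finite.coe_toFinset] at h
      have : Mv.ncard = 16 := h16
      omega
    have hins : (insert 1 (f '' Mv)).ncard ≤ Nat.card φ.range := by
      rw [← Nat.card_coe_set_eq]
      refine Nat.card_le_card_of_injective
        (fun y : ↥(insert 1 (f '' Mv)) => (⟨⟨y.1, ?_⟩, ?_⟩ : ↥φ.range)) ?_
      · rcases y.2 with h | ⟨x, hx, h⟩
        · exact (congrArg (· ∈ A) h).mpr (one_mem A)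
        · exact h ▸ mul_mem (subset_closure hx.1) (subset_closure (hΩmove b₀ hb₀ x hx.1))
      · rcases y.2 with h | ⟨x, hx, h⟩
        · exact ⟨1, Subtype.ext (by rw [map_one]; exact h.symm)⟩
        · exact ⟨⟨x, subset_closure hx.1⟩, Subtype.ext h⟩
      · intro y y' h
        exact Subtype.ext (congrArg (fun z : ↥φ.range => ((z : ↥A) : G)) h)
    rw [Set.ncard_insert_of_notMem (fun h => by
      obtain ⟨x, hx, he⟩ := h
      refine hx.2 (mul_inv_eq_iff_eq_mul.1 ?_)
      rw [eq_inv_of_mul_eq_one_right he]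
      exact inv_eq_of_mul_eq_one_right (hA2 x (subset_closure hx.1))) (Set.toFinite _)] at hins
    haveI : Fact (Nat.Prime 2) := ⟨Nat.prime_two⟩
    obtain ⟨k, hk⟩ := IsPGroup.iff_card.1 (((isPGroup_of_sq hA2).to_subgroup φ.range))
    rw [hk] at hins ⊢
    have : 4 ≤ k := by
      by_contra hk4
      have : 2 ^ k ≤ 2 ^ 3 := Nat.pow_le_pow_right (by norm_num) (by omega)
      omega
    exact le_trans (by norm_num) (Nat.pow_le_pow_right (by norm_num : 0 < 2) this)
  have hAcard : Nat.card φ.range * Nat.card φ.ker = Nat.card A := by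
    rw [Nat.card_congr (QuotientGroup.quotientKerEquivRange φ).toEquiv.symm,
      ← Subgroup.card_eq_card_quotient_mul_card_subgroup]
  -- the kernel of the action consists of elements of `A` centralised by `B`
  have hKA : ∀ b : ↥B, b ∈ K → (b : G) ∈ A := fun b hb =>
    ((hdich b b.2).resolve_right fun h => by
      rw [show {x : G | x ∈ Ω ∧ ¬ Commute (b : G) x} = ∅ from
          Set.eq_empty_iff_forall_notMem.2 fun x hx => hx.2 ((hK b).1 hb x hx.1),
        Set.ncard_empty] at h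
      exact absurd h (by norm_num)).2
  have hKker : Nat.card K ≤ Nat.card φ.ker :=
    Nat.card_le_card_of_injective
      (fun k : ↥K => (⟨⟨k.1.1, hKA k.1 k.2⟩, (hφ _).2 (hBc _ hb₀ _ k.1.2)⟩ : ↥φ.ker))
      fun k k' h => Subtype.ext (Subtype.ext (congrArg (fun z : ↥φ.ker => ((z : ↥A) : G)) h))
  have hkpos : 0 < Nat.card φ.ker := Nat.card_pos
  have hKpos : 0 < Nat.card K := Nat.card_pos
  by_cases hP4 : Nat.card P ≤ 3
  · have : Nat.card B ≤ 3 * Nat.card φ.ker := hcP ▸ Nat.mul_le_mul hP4 hKker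
    nlinarith
  -- a second permutation
  obtain ⟨c, hcB, hcK, hcbK⟩ : ∃ c : G, ∃ hc : c ∈ B, (⟨c, hc⟩ : ↥B) ∉ K ∧
      (⟨b₀, hb₀⟩ * ⟨c, hc⟩ : ↥B) ∉ K := by
    by_contra hne
    push Not at hne
    refine hP4 ?_
    have hsub : (P : Set (Equiv.Perm ↥Ω)) ⊆
        {1, MulAction.toPermHom ↥B ↥Ω ⟨b₀, hb₀⟩} := by
      rintro _ ⟨c, rfl⟩
      by_cases hc : c ∈ K
      · exact Or.inl hc
      · refine Or.inr ?_
        have h := hne c c.2 hc
        rw [MonoidHom.mem_ker, map_mul, mul_eq_one_iff_eq_inv, ← map_inv] at h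
        rw [Set.mem_singleton_iff, h]
        congr 1
        exact (inv_eq_of_mul_eq_one_right (Subtype.ext (hB2 c c.2) : c * c = 1)).symm
    calc Nat.card P = (P : Set (Equiv.Perm ↥Ω)).ncard := (Nat.card_coe_set_eq _)
      _ ≤ ({1, MulAction.toPermHom ↥B ↥Ω ⟨b₀, hb₀⟩} : Set (Equiv.Perm ↥Ω)).ncard :=
        Set.ncard_le_ncard hsub (Set.toFinite _)
      _ ≤ _ := (Set.ncard_insert_le _ _).trans (by simp)
  rw [hK] at hcK hcbK
  -- some pair moved by `b₀` is moved by it
  obtain ⟨p, hp, hbp, hcp, hcbp⟩ : ∃ p ∈ Ω, ¬ Commute b₀ p ∧ c * p * c⁻¹ ≠ p ∧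
      c * p * c⁻¹ ≠ b₀ * p * b₀⁻¹ := by
    by_contra hne
    push Not at hne
    have hfixle : ∀ e : ↥B, (¬ ∀ x ∈ Ω, Commute (e : G) x) →
        {x : G | x ∈ Ω ∧ Commute (e : G) x}.ncard ≤ 6 := by
      intro e he
      have hm := (hdich e e.2).resolve_left fun h => he h.1
      have hs : {x : G | x ∈ Ω ∧ Commute (e : G) x} = Ω \ {x : G | x ∈ Ω ∧ ¬ Commute (e : G) x} := by
        ext x
        exact ⟨fun h => ⟨h.1, fun h' => h'.2 h.2⟩, fun h => ⟨h.1, not_not.1 fun h' => h.2 ⟨h.1, h'⟩⟩⟩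
      rw [hs, Set.ncard_diff (fun x hx => hx.1) (Set.toFinite _), hm, hcard]
    have hsub : {x : G | x ∈ Ω ∧ ¬ Commute b₀ x} ⊆ {x : G | x ∈ Ω ∧ Commute c x} ∪
        {x : G | x ∈ Ω ∧ Commute (b₀ * c) x} := by
      rintro x ⟨hx, hbx⟩
      by_cases hcx : c * x * c⁻¹ = x
      · exact Or.inl ⟨hx, mul_inv_eq_iff_eq_mul.1 hcx⟩
      · refine Or.inr ⟨hx, mul_inv_eq_iff_eq_mul.1 ?_⟩
        rw [show b₀ * c * x * (b₀ * c)⁻¹ = b₀ * (c * x * c⁻¹) * b₀⁻¹ by group, hne x hx hbx hcx,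
          inv_eq_of_mul_eq_one_right (hB2 b₀ hb₀)]
        simp only [mul_assoc, ← mul_assoc b₀ b₀, hB2 b₀ hb₀, one_mul, mul_one]
    have h1 := hfixle ⟨c, hcB⟩ hcK
    have h2 := hfixle (⟨b₀, hb₀⟩ * ⟨c, hcB⟩) hcbK
    have h3 := (Set.ncard_le_ncard hsub (Set.toFinite _)).trans (Set.ncard_union_le _ _)
    simp only [Subgroup.coe_mul] at h1 h2
    omega
  let Kc : Subgroup ↥φ.ker := (centralizer ({c} : Set G)).comap (A.subtype.comp φ.ker.subtype)
  have hKc : ∀ a : ↥φ.ker, a ∈ Kc ↔ Commute ((a : ↥A) : G) c := fun a =>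
    mem_centralizer_singleton_iff
  have hKc_ne : Kc ≠ ⊤ := by
    intro htop
    have hpm := hΩmove b₀ hb₀ p hp
    have hq : (⟨p * (b₀ * p * b₀⁻¹), mul_mem (subset_closure hp) (subset_closure hpm)⟩ : ↥A) ∈
        φ.ker := by
      rw [hφ]
      refine mul_inv_eq_iff_eq_mul.1 ?_
      rw [show b₀ * (p * (b₀ * p * b₀⁻¹)) * b₀⁻¹ =
        (b₀ * p * b₀⁻¹) * (b₀ * b₀ * p * (b₀ * b₀)⁻¹) by group, hB2 b₀ hb₀, one_mul, inv_one,
        mul_one]
      exact (hcomm p hp _ hpm).eq.symm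
    have h := (hKc ⟨_, hq⟩).1 (htop ▸ mem_top _)
    have hcpm := hΩmove c hcB p hp
    have hcm2 := hΩmove c hcB _ hpm
    have heq : c * p * c⁻¹ * (c * (b₀ * p * b₀⁻¹) * c⁻¹) = p * (b₀ * p * b₀⁻¹) := by
      rw [show c * p * c⁻¹ * (c * (b₀ * p * b₀⁻¹) * c⁻¹) = c * (p * (b₀ * p * b₀⁻¹)) * c⁻¹ by
        group]
      rw [← h.eq, mul_inv_cancel_right]
    rcases sylow_pair hD hprim h22 T hcpm.1 hcpm.2 hcm2.1 hcm2.2 hp.1 hp.2 hpm.1 hpm.2
      (fun e => hbp (mul_inv_eq_iff_eq_mul.1 (mul_left_cancel (mul_right_cancel e)).symm))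
      heq with h' | h'
    exacts [hcp h'.1, hcbp h'.1]
  have h2 : 2 * Nat.card Kc ≤ Nat.card φ.ker := by
    have hi : 2 ≤ Kc.index := by
      have h1 := mt Subgroup.index_eq_one.mp hKc_ne
      have := Subgroup.index_ne_zero_of_finite (H := Kc)
      omega
    rw [← Subgroup.card_mul_index Kc, mul_comm 2]
    exact Nat.mul_le_mul_left _ hi
  have hKle : Nat.card K ≤ Nat.card Kc :=
    Nat.card_le_card_of_injective
      (fun k : ↥K => (⟨⟨⟨k.1.1, hKA k.1 k.2⟩, (hφ _).2 (hBc _ hb₀ _ k.1.2)⟩,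
        (hKc _).2 (hBc _ k.1.2 _ hcB)⟩ : ↥Kc))
      fun k k' h => Subtype.ext (Subtype.ext
        (congrArg (fun z : ↥Kc => (((z : ↥φ.ker) : ↥A) : G)) h))
  have hB : Nat.card B ≤ 16 * Nat.card Kc := hcP ▸ Nat.mul_le_mul hP16 hKle
  have hKcpos : 0 < Nat.card Kc := Nat.card_pos
  nlinarith

/-- Every elementary abelian subgroup of largest order is the one generated by the members. -/
theorem max_elementary (B : Subgroup G) (hBT : B ≤ (T : Subgroup G)) (hB2 : ∀ x ∈ B, x * x = 1)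
    (hBc : ∀ x ∈ B, ∀ y ∈ B, Commute x y)
    (hle : Nat.card ↥(closure {x : G | x ∈ D ∧ x ∈ (T : Subgroup G)}) ≤ Nat.card B) :
    B = closure {x : G | x ∈ D ∧ x ∈ (T : Subgroup G)} := by
  classical
  set Ω := {x : G | x ∈ D ∧ x ∈ (T : Subgroup G)} with hΩ
  obtain ⟨hcomm, hcard⟩ : (∀ x ∈ Ω, ∀ y ∈ Ω, Commute x y) ∧ Ω.ncard = 22 :=
    sylow_members hD hprim h22 T
  refine eq_of_le_of_card_ge ?_ hle
  by_cases hfx : ∃ d ∈ Ω, ∀ x ∈ B, Commute x d
  · obtain ⟨d, hd, hBd⟩ := hfx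
    exact fixed_case hD hprim h22 T B hBT hB2 hBc hd.1 hd.2 hBd hle
  exfalso
  push Not at hfx
  haveI : Fact (Nat.Prime 2) := ⟨Nat.prime_two⟩
  have hΩmove : ∀ b ∈ B, ∀ x ∈ Ω, b * x * b⁻¹ ∈ Ω := fun b hb x hx =>
    ⟨H17.class_conj hD b x hx.1, mul_mem (mul_mem (hBT hb) hx.2) (inv_mem (hBT hb))⟩
  letI : MulAction ↥B ↥Ω :=
    { smul := fun b x => ⟨b * x * (b : G)⁻¹, hΩmove b b.2 x x.2⟩
      one_smul := fun x => Subtype.ext (show (1 : G) * x * (1 : G)⁻¹ = x by group)
      mul_smul := fun b c x => Subtype.ext (show (b : G) * c * x * ((b : G) * c)⁻¹ =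
        b * (c * x * (c : G)⁻¹) * (b : G)⁻¹ by group) }
  -- an orbit of two members
  obtain ⟨d, horb⟩ : ∃ d : ↥Ω, ¬ 4 ∣ Nat.card (MulAction.orbit ↥B d) := by
    by_contra hne
    push Not at hne
    haveI := Fintype.ofFinite (Quotient (MulAction.orbitRel ↥B ↥Ω))
    have h : Nat.card ↥Ω =
        ∑ q : Quotient (MulAction.orbitRel ↥B ↥Ω), Nat.card (MulAction.orbit ↥B q.out) := by
      rw [Nat.card_congr (MulAction.selfEquivSigmaOrbits ↥B ↥Ω), Nat.card_sigma]
    have : 4 ∣ Nat.card ↥Ω := h ▸ Finset.dvd_sum fun q _ => hne _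
    rw [Nat.card_coe_set_eq, hcard] at this
    exact absurd this (by norm_num)
  let B0 : Subgroup G := B ⊓ centralizer ({(d : G)} : Set G)
  have hstab : Nat.card (MulAction.orbit ↥B d) * Nat.card B0 = Nat.card B := by
    have he : ↥(MulAction.stabilizer ↥B d) ≃ ↥B0 :=
      { toFun := fun b => ⟨b.1.1, b.1.2, mem_centralizer_singleton_iff.2
          (mul_inv_eq_iff_eq_mul.1 (congrArg Subtype.val b.2))⟩
        invFun := fun b => ⟨⟨b.1, b.2.1⟩, Subtype.ext (show b.1 * (d : G) * b.1⁻¹ = d by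
          rw [mem_centralizer_singleton_iff.1 b.2.2, mul_inv_cancel_right])⟩
        left_inv := fun b => rfl
        right_inv := fun b => rfl }
    rw [← Nat.card_congr he, ← Nat.card_prod,
      Nat.card_congr (MulAction.orbitProdStabilizerEquivGroup ↥B d)]
  obtain ⟨k, hk⟩ := IsPGroup.card_orbit (isPGroup_of_sq hB2) d
  have ho2 : Nat.card (MulAction.orbit ↥B d) ≤ 2 := by
    rw [hk] at horb ⊢
    have : k ≤ 1 := by
      by_contra h
      exact horb ((show 4 = 2 ^ 2 by norm_num) ▸ pow_dvd_pow 2 (by omega))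
    exact (Nat.pow_le_pow_right (by norm_num) this).trans (by norm_num)
  obtain ⟨b, hb, hbd⟩ := hfx d d.2
  obtain ⟨d', hd'⟩ : ∃ d', d' = b * (d : G) * b⁻¹ := ⟨_, rfl⟩
  have hd'Ω : d' ∈ Ω := hd' ▸ hΩmove b hb d d.2
  have hbb := hB2 b hb
  have hbd' : b * d' * b⁻¹ = d := by
    rw [hd', inv_eq_of_mul_eq_one_right hbb]
    simp only [mul_assoc, ← mul_assoc b b, hbb, one_mul, mul_one]
  -- the subgroup fixing `d`, with `d` adjoined
  let B1 : Subgroup G := closure (insert (d : G) (B0 : Set G))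
  obtain ⟨hB12, hB1c⟩ := closure_elementary (S := insert (d : G) (B0 : Set G))
    (fun x hx => hx.elim (fun h => h ▸ H17.sq_one hD.1 d.2.1) fun h => hB2 x h.1)
    (fun x hx y hy => by
      rcases hx with rfl | hx <;> rcases hy with rfl | hy
      · exact Commute.refl _
      · exact (mem_centralizer_singleton_iff.1 hy.2).symm
      · exact mem_centralizer_singleton_iff.1 hx.2
      · exact hBc x hx.1 y hy.1)
  have hB1T : B1 ≤ (T : Subgroup G) := (closure_le _).2 fun x hx =>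
    hx.elim (fun h => h ▸ d.2.2) fun h => hBT h.1
  have hdB : (d : G) ∉ B0 := fun h => hbd (hBc _ hb _ h.1)
  have hle01 : B0 ≤ B1 := fun x hx => subset_closure (Or.inr hx)
  have hlt : 2 * Nat.card B0 ≤ Nat.card B1 := by
    have hdvd := Subgroup.card_dvd_of_le hle01
    obtain ⟨m, hm⟩ := hdvd
    have hne : Nat.card B1 ≠ Nat.card B0 := fun e =>
      hdB ((eq_of_le_of_card_ge hle01 e.le).symm ▸ subset_closure (Or.inl rfl))
    have hm2 : 2 ≤ m := by
      rcases Nat.lt_or_ge m 2 with hm2 | hm2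
      · interval_cases m
        · have : 0 < Nat.card B1 := Nat.card_pos
          omega
        · exact absurd (by rw [hm, mul_one]) hne
      · exact hm2
    rw [hm, mul_comm 2]
    exact Nat.mul_le_mul_left _ hm2
  have hBB1 : Nat.card B ≤ Nat.card B1 :=
    (hstab ▸ Nat.mul_le_mul_right _ ho2).trans hlt
  have hB1A : B1 = closure Ω := eq_of_le_of_card_ge
    (fixed_case hD hprim h22 T B1 hB1T hB12 hB1c d.2.1 d.2.2
      (fun x hx => hB1c x hx _ (subset_closure (Or.inl rfl))) (hle.trans hBB1))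
    (hle.trans hBB1)
  -- so `b` moves no other member
  have hform : ∀ u ∈ B1, u ∈ B0 ∨ u * d ∈ B0 := by
    intro u hu
    induction hu using Subgroup.closure_induction with
    | mem x hx =>
      rcases hx with rfl | hx
      · exact Or.inr (by rw [H17.sq_one hD.1 d.2.1]; exact one_mem _)
      · exact Or.inl hx
    | one => exact Or.inl (one_mem _)
    | mul x y _ hy ihx ihy =>
      have hyd : Commute y (d : G) := hB1c y hy _ (subset_closure (Or.inl rfl))
      rcases ihx with hx' | hx' <;> rcases ihy with hy' | hy'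
      · exact Or.inl (mul_mem hx' hy')
      · exact Or.inr (by rw [mul_assoc]; exact mul_mem hx' hy')
      · refine Or.inr ?_
        have := mul_mem hx' hy'
        rwa [mul_assoc, ← hyd.eq, ← mul_assoc] at this
      · refine Or.inl ?_
        have := mul_mem hx' hy'
        rwa [mul_assoc, ← mul_assoc (d : G), ← hyd.eq, mul_assoc y,
          H17.sq_one hD.1 d.2.1, mul_one] at this
    | inv x hx ih =>
      rwa [inv_eq_of_mul_eq_one_right (hB12 x hx)]
  have hmoved : ∀ x ∈ Ω, ¬ Commute b x → x = d ∨ x = d' := by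
    intro x hx hbx
    have hx1 : x ∈ B1 := hB1A ▸ subset_closure hx
    rcases hform x hx1 with h | h
    · exact absurd (hBc b hb x h.1) hbx
    obtain ⟨u, hu⟩ : ∃ u, u = x * (d : G) := ⟨_, rfl⟩
    rw [← hu] at h
    have hxu : x = u * d := by rw [hu, mul_assoc, H17.sq_one hD.1 d.2.1, mul_one]
    have hbx' : b * x * b⁻¹ = u * d' := by
      rw [hxu, show b * (u * d) * b⁻¹ = (b * u * b⁻¹) * (b * d * b⁻¹) by group, ← hd',
        (hBc b hb u h.1).eq, mul_inv_cancel_right]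
    have heq : x * (b * x * b⁻¹) = (d : G) * d' := by
      rw [hxu] at hbx' ⊢
      rw [hbx', (mem_centralizer_singleton_iff.1 h.2 : u * d = d * u), mul_assoc,
        ← mul_assoc u u, hB2 u h.1, one_mul]
    have hxm := hΩmove b hb x hx
    rcases sylow_pair hD hprim h22 T hx.1 hx.2 hxm.1 hxm.2 d.2.1 d.2.2 hd'Ω.1 hd'Ω.2
      (fun e => hbx (mul_inv_eq_iff_eq_mul.1 e.symm)) heq with h' | h'
    · exact Or.inl h'.1
    · exact Or.inr h'.1
  obtain ⟨e, he, hed, hed'⟩ : ∃ e ∈ Ω, e ≠ d ∧ e ≠ d' := by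
    by_contra hne
    push Not at hne
    have hsub : Ω ⊆ {(d : G), d'} := fun x hx => (em (x = d)).imp id (hne x hx)
    have := Set.ncard_le_ncard hsub (Set.toFinite _)
    have h2 : ({(d : G), d'} : Set G).ncard ≤ 2 := (Set.ncard_insert_le _ _).trans (by simp)
    omega
  have hbe : Commute b e := by
    by_contra h
    exact (hmoved e he h).elim hed hed'
  rcases sylow_involution hD hprim h22 T (hBT hb) hbb he.1 he.2 hbe with h | h
  · exact hbd (h.1 d d.2)
  · have hsub : {x : G | (x ∈ D ∧ x ∈ (T : Subgroup G)) ∧ ¬ Commute b x} ⊆ {(d : G), d'} :=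
      fun x hx => hmoved x hx.1 hx.2
    have := Set.ncard_le_ncard hsub (Set.toFinite _)
    have h2 : ({(d : G), d'} : Set G).ncard ≤ 2 := (Set.ncard_insert_le _ _).trans (by simp)
    omega

/-- The members in a Sylow 2-subgroup generate its Thompson subgroup. -/
theorem m22_thompson : closure {x : G | x ∈ D ∧ x ∈ (T : Subgroup G)} =
    Cfsg.thompsonSubgroupOf 2 (T : Subgroup G) := by
  set A := closure {x : G | x ∈ D ∧ x ∈ (T : Subgroup G)} with hA
  obtain ⟨hA2, hAc⟩ := closure_elementary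
    (fun x (hx : x ∈ {x : G | x ∈ D ∧ x ∈ (T : Subgroup G)}) => H17.sq_one hD.1 hx.1)
    (sylow_members hD hprim h22 T).1
  have hAT : A ≤ (T : Subgroup G) := (closure_le _).2 fun x hx => hx.2
  have hel : Cfsg.IsElementaryAbelian 2 (A.subgroupOf (T : Subgroup G)) :=
    ⟨⟨⟨fun x y => Subtype.ext (Subtype.ext (hAc _ x.2 _ y.2).eq)⟩⟩,
      fun x hx => Subtype.ext (by simpa [pow_two] using hA2 _ hx)⟩
  have hcardA : Nat.card ↥(A.subgroupOf (T : Subgroup G)) = Nat.card A :=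
    Nat.card_congr (subgroupOfEquivOfLe hAT).toEquiv
  have hmax : ∀ B : Subgroup ↥(T : Subgroup G), Cfsg.IsElementaryAbelian 2 B →
      Nat.card A ≤ Nat.card B → B = A.subgroupOf (T : Subgroup G) := by
    intro B hB hle
    have h := max_elementary hD hprim h22 T (B.map (T : Subgroup G).subtype) (map_subtype_le B)
      (by
        rintro _ ⟨x, hx, rfl⟩
        have := congrArg Subtype.val (hB.2 x hx)
        simpa [pow_two] using this)
      (by
        rintro _ ⟨x, hx, rfl⟩ _ ⟨y, hy, rfl⟩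
        exact congrArg (fun z : ↥B => ((z : ↥(T : Subgroup G)) : G))
          (hB.1.is_comm.comm ⟨x, hx⟩ ⟨y, hy⟩))
      (hle.trans (card_map_of_injective (Subgroup.subtype_injective _)).ge)
    exact (show (B.map (T : Subgroup G).subtype).subgroupOf (T : Subgroup G) = B from
      comap_map_eq_self_of_injective (Subgroup.subtype_injective _) B).symm.trans
        (congrArg (fun C => Subgroup.subgroupOf C (T : Subgroup G)) h)
  have hset : Cfsg.maxElementaryAbelianSubgroups 2 ↥(T : Subgroup G) =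
      {A.subgroupOf (T : Subgroup G)} := by
    ext B
    constructor
    · rintro ⟨hB, hBmax⟩
      exact hmax B hB (hcardA ▸ hBmax _ hel)
    · rintro rfl
      refine ⟨hel, fun C hC => ?_⟩
      rcases le_total (Nat.card C) (Nat.card A) with h | h
      · exact hcardA.symm ▸ h
      · rw [hmax C hC h]
  rw [Cfsg.thompsonSubgroupOf, Cfsg.thompsonSubgroup, hset, sSup_singleton,
    subgroupOf_map_subtype, inf_eq_left.2 hAT]

end facts

end Cfsg.Agent.H53
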